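import Cfsg.Agent.LT.B6
import Cfsg.Agent.LT.B5
import Cfsg.Agent.L0.Dihedral
import Cfsg.Agent.L0.Invert
import Cfsg.Agent.FT.Basic6

/-! General lemmas: 2-elements, sectional rank, the `A × B` argument, dihedral pairs. -/

set_option autoImplicit false
set_option linter.unusedSectionVars false

namespace Cfsg.PU

open Subgroup Cfsg.L0 Cfsg.FT Cfsg.LT

variable {G : Type*} [Group G] [Finite G] {A B N P R S V : Subgroup G} {a f g r t w x y : G}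

instance fact2 : Fact (Nat.Prime 2) := ⟨Nat.prime_two⟩

/-- 2-elements -/
def Te (x : G) : Prop := ∃ k : ℕ, x ^ 2 ^ k = 1

theorem te_of (h : IsPGroup 2 P) (hx : x ∈ P) : Te x := H8.isPGroup_iff_forall.1 h x hx
theorem te_sq (h : x * x = 1) : Te x := ⟨1, by simpa [pow_two] using h⟩
theorem Te.pg (h : Te x) : IsPGroup 2 (zpowers x) := h.elim fun _ e => H8.isPGroup_zpowers e
theorem Te.conj (h : Te x) (g : G) : Te (g * x * g⁻¹) :=
  h.imp fun k e => by rw [conj_pow, e, mul_one, mul_inv_cancel]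
theorem Te.inv (h : Te x) : Te x⁻¹ := h.imp fun k e => by rw [inv_pow, e, inv_one]
theorem Te.mul (h : Te x) (hP : IsPGroup 2 P) (hx : x ∈ 𝒩 P) (hy : y ∈ P) : Te (x * y) :=
  te_of (pgroup_sup (zpowers_le.2 hx) hP h.pg)
    (mul_mem (mem_sup_right (mem_zpowers x)) (mem_sup_left hy))
theorem Te.mul' (h : Te x) (hP : IsPGroup 2 P) (hx : x ∈ 𝒩 P) (hy : y ∈ P) : Te (y * x) :=
  te_of (pgroup_sup (zpowers_le.2 hx) hP h.pg)
    (mul_mem (mem_sup_left hy) (mem_sup_right (mem_zpowers x)))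
theorem Te.eq_one (h : Te x) (o : Odd (orderOf x)) : x = 1 :=
  H8.eq_one_of_pElt_of_coprime h o.coprime_two_right
theorem Te.ex_inv (h : Te x) (h1 : x ≠ 1) : ∃ y ∈ zpowers x, y ≠ 1 ∧ y * y = 1 := by
  obtain ⟨y, hy, y1, y2⟩ := H9.exists_mem_pow_eq_one_of_dvd
    (H8.dvd_card_of_ne_bot h.pg (ne_bot_of_mem (mem_zpowers x) h1))
  exact ⟨y, hy, y1, by rwa [pow_two] at y2⟩

theorem ex_fix (hP : IsPGroup 2 P) (hA : IsPGroup 2 A) (h : P ≤ 𝒩 A) (h1 : A ≠ ⊥) :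
    ∃ z ∈ A, z ≠ 1 ∧ z ∈ 𝒞 P ∧ z * z = 1 := by
  simpa [pow_two] using H7.exists_central_elem hA hP h h1

theorem ex_fix1 (hf : Te f) (hA : IsPGroup 2 A) (h : f ∈ 𝒩 A) (h1 : A ≠ ⊥) :
    ∃ z ∈ A, z ≠ 1 ∧ z ∈ 𝒞₁ f ∧ z * z = 1 := by
  simpa [cent_zpowers] using ex_fix hf.pg hA (zpowers_le.2 h) h1

/-- an element of odd order moving `v` by a fixed involution fixes `v` -/
theorem fix_odd (o : Odd (orderOf g)) (h : g * x * g⁻¹ * x⁻¹ ∈ 𝒞₁ g)
    (h2 : g * x * g⁻¹ * x⁻¹ * (g * x * g⁻¹ * x⁻¹) = 1) : x ∈ 𝒞₁ g := by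
  refine mem_cent1.2 (commute_of_commute_sq o ?_)
  have e := mem_cent1.1 h
  generalize hz : g * x * g⁻¹ * x⁻¹ = z at *
  have k : g * x = z * x * g := by rw [← hz]; group
  calc x * g ^ 2 = z * z * x * g * g := by rw [h2, pow_two, one_mul, mul_assoc]
    _ = z * (g * x) * g := by rw [k]; group
    _ = g * (z * x * g) := by rw [← mul_assoc, e]; group
    _ = _ := by rw [← k, pow_two, mul_assoc]

/-- local characteristic two -/
def Ch (G : Type*) [Group G] : Prop :=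
  ∀ T : Subgroup G, IsPGroup 2 T → T ≠ ⊥ → 𝒩 T ⊓ 𝒞 (pCoreOf 2 (𝒩 T)) ≤ pCoreOf 2 (𝒩 T)

theorem Ch.core (h : Ch G) (e : a * a = 1) (a1 : a ≠ 1) : ∃ R : Subgroup G, IsPGroup 2 R ∧ R ≤ 𝒞₁ a ∧
    𝒞₁ a ≤ 𝒩 R ∧ 𝒞₁ a ⊓ 𝒞 R ≤ R := by
  have := h _ (pg_zp e) (ne_bot_of_mem (mem_zpowers a) a1)
  rw [norm_zp e] at this
  exact ⟨_, H7.isPGroup_pCoreOf 2 _, H7.pCoreOf_le 2 _, H7.le_normalizer_pCoreOf 2 _, this⟩

theorem axb (pR : IsPGroup 2 R) (n : A ≤ 𝒩 R) (c : A ⊓ 𝒞 R ≤ R) (pB : IsPGroup 2 B) (hB : B ≤ A)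
    (hg : g ∈ A) (o : Odd (orderOf g)) (h1 : g ∈ 𝒞 B) (h2 : R ⊓ 𝒞 B ≤ 𝒞₁ g) : g = 1 :=
  (te_of pR (c ⟨hg, zpowers_le.1 (AxB Nat.prime_two (by
    rw [card_zpow]; exact o.not_two_dvd_nat) pR pB (zpowers_le.2 (n hg)) (hB.trans n) (zpowers_le.2 h1)
      (by rwa [cent_zpowers]))⟩)).eq_one o

theorem dih (hw : w * w = 1) (hf : f * f = 1) : (∃ g, g * w * g⁻¹ = f) ∨
    ∃ y, y ≠ 1 ∧ y * y = 1 ∧ y ∈ 𝒞₁ f ∧ w ∈ 𝒞₁ y := by
  by_cases o : Odd (orderOf (w * f))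
  · obtain ⟨g, -, k⟩ := exists_conj_of_odd_orderOf_mul hw hf o
    exact .inl ⟨g, k⟩
  · obtain ⟨y, hy, y1, y2⟩ := H9.exists_mem_pow_eq_one_of_dvd (p := 2)
      ((Nat.not_odd_iff_even.1 o).two_dvd.trans (card_zpow _).symm.dvd)
    rw [pow_two] at y2
    have c1 := inverts_of_mem_zpowers (inverts_mul_left hw hf) hy
    have c2 := inverts_of_mem_zpowers (inverts_mul_right hw hf) hy
    rw [inv_eq_of_mul_eq_one_left y2, mul_inv_eq_iff_eq_mul] at c1 c2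
    exact .inr ⟨y, y1, y2, mem_cent1.2 c2.symm, mem_cent1.2 c1⟩

theorem le_of_norm (hP : IsPGroup 2 P) (h : ∀ y ∈ P, y ∈ 𝒩 (P ⊓ A) → y ∈ A) : P ≤ A := by
  by_contra k
  obtain ⟨y, hy, y1, y2⟩ := H8.exists_mem_normalizer_not_mem hP (inf_le_left : P ⊓ A ≤ P)
    fun e => k (e ▸ inf_le_right)
  exact y2 ⟨hy, h y hy y1⟩

theorem sec4 (hS : H8.IsSyl 2 S ⊤) (h : ∀ P N : Subgroup G, P ≤ S → P ≤ 𝒩 N → (∀ x ∈ P, x * x ∈ N) →
    N.relIndex P ≤ 16) : SectionalPRankLE 2 4 G := by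
  intro H N _ A _ hA
  have pA : IsPGroup 2 A := fun x => ⟨1, Subtype.ext (hA x x.2)⟩
  obtain ⟨P, hP, e⟩ := H8.IsSyl.exists_map_eq (f := QuotientGroup.mk' N) (H := A.comap _) (R := A)
    (by rw [map_comap_eq_self_of_surjective (QuotientGroup.mk'_surjective N)]; exact .self pA)
  obtain ⟨g, -, hg⟩ := hS.exists_cj_le (hP.isPGroup.map H.subtype) le_top
  let φ := (MulAut.conj g).toMonoidHom.comp H.subtype
  have inj : Function.Injective φ := (MulAut.conj g).injective.comp H.subtype_injective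
  rw [← e, ← relIndex_ker, QuotientGroup.ker_mk', ← relIndex_map_map_of_injective _ _ inj]
  refine h _ _ ?_ ?_ ?_
  · rwa [cj, map_map] at hg
  · rintro _ ⟨x, -, rfl⟩
    refine H8.mem_normalizer_of_forall ?_
    rintro _ ⟨y, hy, rfl⟩
    exact ⟨_, Normal.conj_mem inferInstance y hy x, by simp only [map_mul, map_inv]⟩
  · rintro _ ⟨x, hx, rfl⟩
    refine ⟨x * x, (QuotientGroup.eq_one_iff _).1 ?_, map_mul _ _ _⟩
    simpa [pow_two] using hA _ (hP.le hx)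

theorem sec32 (hS : H8.IsSyl 2 S ⊤) (h : ♯S ≤ 32) (hx : x ∈ S) (h2 : x * x ≠ 1) :
    SectionalPRankLE 2 4 G := sec4 hS fun P N h1 _ h3 => by
  refine ri_half (n := 4) (hS.isPGroup.to_le h1) (lt_of_not_ge fun k => h2 ?_)
  have e := card_inf_mul_ri N P
  have l := card_le h1
  have p0 := card_pos' (N ⊓ P)
  norm_num at k
  obtain rfl : P = S := eq_of_card_le h1 (by nlinarith)
  exact eq_one_of_mem (card_eq_one_iff.1 (by nlinarith)) (mem_inf.2 ⟨h3 x hx, mul_mem hx hx⟩)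

theorem ri_cyc (hc : Cyc A) (h : A ≤ 𝒩 N) (h3 : ∀ x ∈ A, x * x ∈ N) : N.relIndex A ≤ 2 := by
  obtain ⟨x, hx, rfl⟩ := hc.exists_zpowers
  have key : ∀ y ∈ zpowers x, y ∉ N → x⁻¹ * y ∈ N := by
    rintro _ ⟨n, rfl⟩ k
    have h2 : ∀ m : ℤ, x ^ (2 * m) ∈ N := fun m => by
      rw [zpow_mul, zpow_two]; exact zpow_mem (h3 x hx) m
    obtain ⟨m, rfl | rfl⟩ := Int.even_or_odd' n
    · exact absurd (h2 m) k
    · convert h2 m using 1; group
  refine ri_two fun a ha b hb h1 h2 => ?_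
  convert mul_mem (inv_mem (key a ha h1)) (key b hb h2) using 1; group

theorem sec_inv (hS : H8.IsSyl 2 S ⊤) (ht : t ∈ S) (t2 : t * t = 1) (t1 : t ≠ 1)
    (h : ♯(S ⊓ 𝒞₁ t) ≤ 4) : SectionalPRankLE 2 4 G := sec4 hS fun P N h1 h2 h3 => by
  have pS := hS.isPGroup
  have nS := nil_of_pgroup Nat.prime_two pS
  by_cases ab : Abel S
  · have : ♯S ≤ 4 := by rwa [inf_eq_left.2 (le_cent1_iff.2 (ab ht))] at h
    exact (Nat.le_of_dvd (card_pos' _) (ri_dvd_card N P)).trans ((card_le h1).trans (by omega))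
  set D : Subgroup G := ⁅S, S⁆ with hD
  have nD : S ≤ 𝒩 D := left_le_norm_comm _ _
  have i4 : 4 ≤ D.relIndex S := by
    obtain ⟨k, e⟩ := H8.exists_relIndex_eq_pow pS D
    have hc : ∀ x ∈ S, S ≤ D ⊔ zpowers x → False := fun x hx k =>
      ab ((cyc_zpowers x).abel.mono (nS.le_of_le_der_sup (zpowers_le.2 hx) k))
    match k, e with
    | 0, e => exact (hc 1 (one_mem _) ((relIndex_eq_one.1 e).trans le_sup_left)).elim
    | 1, e =>
      obtain ⟨x, hx, k⟩ := cycMod_of_prime nD (e ▸ Nat.prime_two)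
      exact (hc x hx k).elim
    | k + 2, e => rw [e, pow_add]; have := Nat.two_pow_pos k; omega
  have cm : ∀ s ∈ S, s * t * s⁻¹ * t ∈ D := fun s hs => by
    have := commutator_mem_commutator hs ht
    rwa [commutatorElement_def, inv_eq_of_mul_eq_one_left t2] at this
  set X : Set G := (fun s => s * t * s⁻¹ * t) '' S
  have XD : X ⊆ D := by rintro _ ⟨s, hs, rfl⟩; exact cm s hs
  have l1 : (𝒞₁ t).relIndex S ≤ X.ncard := ri_le (fun s => s * t * s⁻¹ * t) (Set.toFinite _)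
    (fun x _ y _ e => mem_cent1.2 (by
      calc x⁻¹ * y * t = x⁻¹ * (y * t * y⁻¹) * y := by group
        _ = _ := by rw [← mul_right_cancel e]; group)) fun x hx => ⟨_, hx, rfl⟩
  have e1 := card_inf_mul_ri (𝒞₁ t) S
  have e2 := card_mul_ri (der_le S)
  rw [inf_comm] at e1
  have l2 : X.ncard ≤ ♯D := Set.ncard_le_ncard XD
  have p1 := card_pos' D
  have l3 : ♯D ≤ X.ncard := by nlinarith
  have e4 : D.relIndex S ≤ 4 := by nlinarith
  have XE : X = D := Set.eq_of_subset_of_ncard_le XD l3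
  have iv : ∀ d ∈ D, t * d * t⁻¹ = d⁻¹ := fun d hd => by
    obtain ⟨s, -, rfl⟩ := XE.ge hd
    have := inv_eq_of_mul_eq_one_left t2
    simp only [mul_inv_rev, inv_inv, this, ← mul_assoc]
    rw [mul_assoc _ t t, t2, mul_one]
  have aD : Abel D := fun x hx => mem_cent.2 fun y hy => comm_of_inverts iv y hy x hx
  have tD : t ∉ D := fun k => by
    obtain ⟨s, -, e⟩ := XE.ge k
    exact t1 (conj_eq_one_iff.1 (mul_eq_right.1 e))
  have cD : Cyc D := aD.cyc_of_rk Nat.prime_two (pS.to_le (der_le S)) (Nat.le_of_not_lt fun k => by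
    obtain ⟨E, hE⟩ := exists_el Nat.prime_two k
    have : E ≤ S ⊓ 𝒞₁ t := fun x hx => ⟨der_le S (hE.le hx), mem_cent1.2 (by
      have := iv x (hE.le hx)
      rw [show x⁻¹ = x from inv_eq_of_mul_eq_one_left (pow_two x ▸ hE.elem.pow hx),
        mul_inv_eq_iff_eq_mul] at this
      exact this.symm)⟩
    exact tD (hE.le ((eq_of_card_le this (by rw [hE.card]; exact h)).ge ⟨ht, self_mem_cent1 t⟩)))
  have k1 : N.relIndex (P ⊓ D) ≤ 2 := ri_cyc (cD.mono inf_le_right) (inf_le_left.trans h2)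
    fun x hx => h3 x hx.1
  have k2 : D.relIndex P ≤ 4 :=
    (Nat.le_of_dvd (H8.relIndex_pos _ _) (ri_dvd_of_le h1 nD)).trans e4
  have k3 := relIndex_mul_relIndex (N ⊓ (P ⊓ D)) (P ⊓ D) P inf_le_right inf_le_left
  rw [inf_relIndex_right, inf_comm P D, inf_relIndex_right] at k3
  have k4 := ri_mono (K := P) (inf_le_left : N ⊓ (D ⊓ P) ≤ N)
  rw [inf_comm P D] at k1
  nlinarith

end Cfsg.PU
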