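import Cfsg.Agent.PU.A1
import Cfsg.Agent.LT.A2

/-! Two-dimensional coordinates on a section `V / C_V(K)`. -/

set_option autoImplicit false
set_option linter.unusedSectionVars false

namespace Cfsg.PU

open Subgroup Cfsg.L0 Cfsg.FT Cfsg.LT
open scoped MatrixGroups

variable {G : Type*} [Group G] [Finite G] {F : Type*} [Field F] [Fintype F] [CharP F 2]
  {A J K L P V W : Subgroup G} {p : G → F × F} {g g' s c u v w x y : G}
  {a b e d a' b' e' d' t t' : F}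

/-- `g` acts on the section as the matrix `(a b; e d)` -/
def Ac (V : Subgroup G) (p : G → F × F) (g : G) (a b e d : F) : Prop :=
  g ∈ 𝒩 V ∧ ∀ v ∈ V, p (g * v * g⁻¹) = (a * (p v).1 + b * (p v).2, e * (p v).1 + d * (p v).2)

theorem Ac.mul (h : Ac V p g a b e d) (h' : Ac V p g' a' b' e' d') :
    Ac V p (g * g') (a * a' + b * e') (a * b' + b * d') (e * a' + d * e') (e * b' + d * d') :=
  ⟨mul_mem h.1 h'.1, fun v hv => by
    rw [show g * g' * v * (g * g')⁻¹ = g * (g' * v * g'⁻¹) * g⁻¹ by group,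
      h.2 _ (conj_mem_of_norm h'.1 hv), h'.2 v hv]
    ext <;> simp <;> ring⟩

theorem Ac.congr (h : Ac V p g a b e d) (e1 : a = a') (e2 : b = b') (e3 : e = e') (e4 : d = d') :
    Ac V p g a' b' e' d' := e1 ▸ e2 ▸ e3 ▸ e4 ▸ h

theorem Ac.inv (h : Ac V p g a b e d) (e1 : a' * a + b' * e = 1) (e2 : a' * b + b' * d = 0)
    (e3 : e' * a + d' * e = 0) (e4 : e' * b + d' * d = 1) : Ac V p g⁻¹ a' b' e' d' :=
  ⟨inv_mem h.1, fun v hv => by
    have := h.2 _ (conj_mem_of_norm (inv_mem h.1) hv)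
    rw [show g * (g⁻¹ * v * g⁻¹⁻¹) * g⁻¹ = v by group] at this
    rw [this]
    ext
    · simp only; linear_combination -(p (g⁻¹ * v * g⁻¹⁻¹)).1 * e1 - (p (g⁻¹ * v * g⁻¹⁻¹)).2 * e2
    · simp only; linear_combination -(p (g⁻¹ * v * g⁻¹⁻¹)).1 * e3 - (p (g⁻¹ * v * g⁻¹⁻¹)).2 * e4⟩

theorem Ac.inv1 (h : Ac V p g a b e d) (k : a * d + b * e = 1) : Ac V p g⁻¹ d b e a :=
  h.inv (by grind) (by grind) (by grind) (by grind)

theorem ac_cent (h : g ∈ 𝒞 V) : Ac V p g 1 0 0 1 :=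
  ⟨cent_le_norm _ h, fun v hv => by rw [← mem_cent.1 h v hv]; simp⟩

structure Mo (V K : Subgroup G) (p : G → F × F) : Prop where
  add : ∀ u ∈ V, ∀ v ∈ V, p (u * v) = p u + p v
  sur : ∀ a, ∃ v ∈ V, p v = a
  ker : ∀ v ∈ V, p v = 0 ↔ v ∈ 𝒞 K
  sq : ∀ v ∈ V, v * v = 1

namespace Mo
variable (h : Mo V K p)
include h

theorem pg : IsPGroup 2 V := (Cf.elem h.sq).1
theorem abel : V ≤ 𝒞 V := fun x hx => mem_cent.2 fun y hy => (Cf.elem h.sq).2 y hy x hx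
theorem inv (hv : v ∈ V) : v⁻¹ = v := inv_eq_of_mul_eq_one_left (h.sq v hv)
theorem one : p 1 = 0 := (h.ker 1 (one_mem _)).2 (one_mem _)
theorem eq (hu : u ∈ V) (hv : v ∈ V) (k : p u = p v) : u * v ∈ 𝒞 K :=
  (h.ker _ (mul_mem hu hv)).1 (by rw [h.add u hu v hv, k]; ext <;> simp [CharTwo.add_self_eq_zero])

theorem uniq (k : Ac V p g a b e d) (k' : Ac V p g a' b' e' d') : a = a' ∧ b = b' ∧ e = e' ∧ d = d' := by
  obtain ⟨u, hu, e1⟩ := h.sur (1, 0)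
  obtain ⟨v, hv, e2⟩ := h.sur (0, 1)
  have h1 := (k.2 u hu).symm.trans (k'.2 u hu)
  have h2 := (k.2 v hv).symm.trans (k'.2 v hv)
  simp [e1, e2] at h1 h2
  exact ⟨h1.1, h2.1, h1.2, h2.2⟩

theorem tr (k : Ac V p g a b e d) (h2 : Te g) : a + d = 0 := by
  obtain ⟨n, hn⟩ := h2
  induction n generalizing g a b e d with
  | zero =>
    obtain ⟨rfl, -, -, rfl⟩ := h.uniq k (ac_cent (by simp at hn; rw [hn]; exact one_mem _))
    exact CharTwo.add_self_eq_zero _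
  | succ n ih =>
    have := ih (k.mul k) (by rw [← pow_two, ← pow_mul, ← pow_succ', hn])
    grind

theorem cong (g1 : g ∈ 𝒩 V) (g2 : g ∈ 𝒩 K) (hu : u ∈ V) (hv : v ∈ V) (k : p u = p v) :
    p (g * u * g⁻¹) = p (g * v * g⁻¹) := by
  have h1 := conj_mem_of_norm g1 hu
  have h2 := conj_mem_of_norm g1 hv
  have := (h.ker _ (mul_mem h1 h2)).2
    (by rw [conj_mul]; exact conj_mem_of_norm (norm_le_norm_cent _ g2) (h.eq hu hv k))
  rw [h.add _ h1 _ h2, Prod.ext_iff] at this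
  simp at this
  ext <;> grind

theorem conj1 (k : Ac V p g 1 0 0 1) (x1 : x ∈ 𝒩 V) (x2 : x ∈ 𝒩 K) : Ac V p (x * g * x⁻¹) 1 0 0 1 :=
  ⟨mul_mem (mul_mem x1 k.1) (inv_mem x1), fun v hv => by
    have h1 := conj_mem_of_norm' x1 hv
    have := h.cong x1 x2 (conj_mem_of_norm k.1 h1) h1 (by simpa using k.2 _ h1)
    simpa [mul_assoc] using this⟩

theorem cm (k : Ac V p x 1 b 0 1) (hv : v ∈ V) : p (x * v * x⁻¹ * v) = (b * (p v).2, 0) := by
  rw [h.add _ (conj_mem_of_norm k.1 hv) v hv, k.2 v hv]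
  ext <;> simp <;> grind

theorem pow (k : Ac V p g a b 0 d) {n : ℕ} (hn : g ^ n = 1) : a ^ n = 1 ∧ d ^ n = 1 := by
  have : ∀ m : ℕ, ∃ b, Ac V p (g ^ m) (a ^ m) b 0 (d ^ m) := fun m => by
    induction m with
    | zero => exact ⟨0, by simpa using ac_cent (one_mem _)⟩
    | succ m ih =>
      obtain ⟨b, e⟩ := ih
      exact ⟨_, pow_succ g m ▸ (e.mul k).congr (by ring) rfl (by ring) (by ring)⟩
  obtain ⟨b, e⟩ := this n
  have := h.uniq e (ac_cent (hn ▸ one_mem _))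
  exact ⟨this.1, this.2.2.2⟩

/-- upper triangular 2-elements are unitriangular -/
theorem te (k : Ac V p g a b 0 d) (h2 : Te g) : a = 1 ∧ d = 1 :=
  h2.elim fun _ hn => (h.pow k hn).imp eq_one_of_pow eq_one_of_pow

theorem ne (k : Ac V p g a b 0 d) : a ≠ 0 ∧ d ≠ 0 := by
  have := h.pow k (pow_orderOf_eq_one g)
  constructor <;> rintro rfl <;> simp [(orderOf_pos g).ne'] at this

theorem inv0 (k : Ac V p g a b 0 d) : Ac V p g⁻¹ a⁻¹ (b / (a * d)) 0 d⁻¹ := by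
  obtain ⟨h1, h2⟩ := h.ne k
  exact k.inv (by simp [h1]) (by field_simp; grind) (by simp) (by simp [h2])

theorem odd (k : Ac V p g 1 b 0 1) (o : Odd (orderOf g)) : b = 0 := by
  have : ∀ m : ℕ, Ac V p (g ^ m) 1 (m * b) 0 1 := fun m => by
    induction m with
    | zero => simpa using ac_cent (one_mem _)
    | succ m ih => exact pow_succ g m ▸ (ih.mul k).congr (by ring) (by push_cast; ring) (by ring) (by ring)
  obtain ⟨m, e⟩ := o
  have := (h.uniq (this (orderOf g)) (ac_cent (pow_orderOf_eq_one g ▸ one_mem _))).2.1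
  rw [e] at this; push_cast at this; grind

end Mo

structure Sb (K L V W J : Subgroup G) (p : G → F × F) : Prop extends Mo V K p where
  ex : ∀ g ∈ L, ∃ a b e d, a * d + b * e = 1 ∧ Ac V p g a b e d
  su : ∀ a b e d, a * d + b * e = 1 → ∃ g ∈ L, Ac V p g a b e d
  kr : ∀ g ∈ L, Ac V p g 1 0 0 1 → g ∈ W
  WJ : W ≤ J
  memJ : ∀ x, x ∈ J ↔ x ∈ L ∧ ∃ t, Ac V p x 1 t 0 1

namespace Sb
variable (h : Sb K L V W J p)
include h

theorem JL : J ≤ L := fun x hx => ((h.memJ x).1 hx).1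
theorem LV : L ≤ 𝒩 V := fun g hg => by obtain ⟨_, _, _, _, -, k⟩ := h.ex g hg; exact k.1
theorem exJ (t : F) : ∃ x ∈ J, Ac V p x 1 t 0 1 := by
  obtain ⟨g, hg, k⟩ := h.su 1 t 0 1 (by simp)
  exact ⟨g, (h.memJ g).2 ⟨hg, t, k⟩, k⟩
theorem exW : ∃ w ∈ L, Ac V p w 0 1 1 0 := h.su 0 1 1 0 (by simp)

theorem n2 (hP : IsPGroup 2 P) (s1 : s ∈ 𝒩 P) (s2 : Te s) (s3 : Ac V p s 1 t 0 1) (s4 : t ≠ 0)
    (c1 : c ∈ 𝒩 P) (c2 : Te c) (c3 : Ac V p c 1 0 t' 1) (c4 : t' ≠ 0) : P ⊓ L ≤ W := fun r hr => by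
  obtain ⟨a, b, e, d, k, k'⟩ := h.ex r hr.2
  have h1 := h.tr k' (te_of hP hr.1)
  have h2 := h.tr (k'.mul s3) (s2.mul' hP s1 hr.1)
  have h3 := h.tr (k'.mul c3) (c2.mul' hP c1 hr.1)
  exact h.kr r hr.2 (k'.congr (by grind) (by grind) (by grind) (by grind))

theorem fixJ (hg : g ∈ L) (hv : v ∈ V) (h1 : (p v).1 ≠ 0) (h2 : (p v).2 = 0)
    (k : p (g * v * g⁻¹) = p v) : g ∈ J := by
  obtain ⟨a, b, e, d, k1, k2⟩ := h.ex g hg
  have := (k2.2 v hv).symm.trans k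
  rw [Prod.ext_iff] at this
  exact (h.memJ g).2 ⟨hg, b, k2.congr (by grind) rfl (by grind) (by grind)⟩

theorem trans (hv : v ∈ V) (h1 : p v ≠ 0) : ∃ g ∈ L, p (g * v * g⁻¹) = (1, 0) := by
  by_cases k : (p v).1 = 0
  · have k' : (p v).2 ≠ 0 := fun e => h1 (Prod.ext k e)
    obtain ⟨g, hg, e⟩ := h.su 0 (p v).2⁻¹ (p v).2 0 (by simp [k'])
    exact ⟨g, hg, by rw [e.2 v hv]; simp [k, k']⟩
  · obtain ⟨g, hg, e⟩ := h.su (p v).1⁻¹ 0 (p v).2 (p v).1 (by simp [k])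
    exact ⟨g, hg, by rw [e.2 v hv]; ext <;> simp [k]; grind⟩

theorem L_le (h1 : J ≤ A) (hw : w ∈ L) (k : Ac V p w 0 1 1 0) (h2 : cj w J ≤ A) : L ≤ A := fun g hg => by
  have key : ∀ B : SL(2, F), ∃ y ∈ A, y ∈ L ∧ Ac V p y (B.1 0 0) (B.1 0 1) (B.1 1 0) (B.1 1 1) := by
    refine sl2_ind (fun t => ?_) (fun t => ?_) ?_
    · obtain ⟨x, hx, e⟩ := h.exJ t
      exact ⟨x, h1 hx, h.JL hx, by simpa [H3.U_coe] using e⟩
    · obtain ⟨x, hx, e⟩ := h.exJ t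
      exact ⟨_, h2 (conj_mem_cj hx), conj_mem_of_norm (le_norm _ hw) (h.JL hx), by
        simpa [H3.Lo_coe] using (k.mul e).mul (k.inv1 (by simp))⟩
    · rintro B C ⟨x, x1, x2, x3⟩ ⟨y, y1, y2, y3⟩
      exact ⟨_, mul_mem x1 y1, mul_mem x2 y2, by
        simpa [Matrix.mul_apply, Fin.sum_univ_succ] using x3.mul y3⟩
  obtain ⟨a, b, e, d, k1, k2⟩ := h.ex g hg
  obtain ⟨y, y1, y2, y3⟩ := key ⟨!![a, b; e, d], by rw [Matrix.det_fin_two_of]; grind⟩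
  have := h1 (h.WJ (h.kr _ (mul_mem hg (inv_mem y2)) ((k2.mul (Ac.inv1 y3 k1)).congr
    (by simpa using k1) (by simp; grind) (by simp; grind) (by simp; grind))))
  simpa using mul_mem this y1

/-- an element normalizing everything and centralizing the line acts linearly -/
theorem lin0 (g1 : g ∈ 𝒩 V) (g2 : g ∈ 𝒩 L) (g3 : g ∈ 𝒩 J)
    (k : ∀ v ∈ V, (p v).2 = 0 → p (g * v * g⁻¹) = p v) : ∃ b d, Ac V p g 1 b 0 d := by
  choose u hu e using fun y : F => h.sur (0, y)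
  have k1 : ∀ v ∈ V, p (g * v * g⁻¹) = ((p v).1, 0) + p (g * u (p v).2 * g⁻¹) := fun v hv => by
    have h1 := h.add v hv _ (hu (p v).2)
    have h2 := k _ (mul_mem hv (hu (p v).2)) (by rw [h1, e]; simp [CharTwo.add_self_eq_zero])
    rw [← conj_mul, h.add _ (conj_mem_of_norm g1 hv) _ (conj_mem_of_norm g1 (hu _)), h1, e] at h2
    ext
    · have := congrArg Prod.fst h2; simp at this ⊢; grind
    · have := congrArg Prod.snd h2; simp at this ⊢; grind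
  obtain ⟨s, hs, s1⟩ := h.exJ 1
  obtain ⟨-, b, s2⟩ := (h.memJ _).1 (conj_mem_of_norm g3 hs)
  have k2 : ∀ y, y = b * (p (g * u y * g⁻¹)).2 := fun y => by
    have h1 := h.cm s1 (hu y)
    have h2 := k _ (mul_mem (conj_mem_of_norm s1.1 (hu y)) (hu y)) (by rw [h1])
    rw [h1, e, show g * (s * u y * s⁻¹ * u y) * g⁻¹ = g * s * g⁻¹ * (g * u y * g⁻¹) * (g * s * g⁻¹)⁻¹ *
      (g * u y * g⁻¹) by group, h.cm s2 (conj_mem_of_norm g1 (hu y))] at h2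
    simpa using (congrArg Prod.fst h2).symm
  obtain ⟨w, hw, w1⟩ := h.exW
  obtain ⟨a', b', e', d', -, w2⟩ := h.ex _ (conj_mem_of_norm g2 hw)
  have k3 : ∀ v ∈ V, p (g * (w * v * w⁻¹) * g⁻¹) = (a' * (p (g * v * g⁻¹)).1 + b' * (p (g * v * g⁻¹)).2,
      e' * (p (g * v * g⁻¹)).1 + d' * (p (g * v * g⁻¹)).2) := fun v hv => by
    rw [show g * (w * v * w⁻¹) * g⁻¹ = g * w * g⁻¹ * (g * v * g⁻¹) * (g * w * g⁻¹)⁻¹ by group]
    exact w2.2 _ (conj_mem_of_norm g1 hv)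
  obtain ⟨v0, hv0, e0⟩ := h.sur (1, 0)
  have k4 := congrArg Prod.snd (k3 v0 hv0)
  rw [k1 _ (conj_mem_of_norm w1.1 hv0), w1.2 _ hv0, k v0 hv0 (by rw [e0]), e0] at k4
  have k5 := k2 1
  have b0 : b ≠ 0 := by rintro rfl; simp at k5
  refine ⟨d', b⁻¹, g1, fun v hv => ?_⟩
  have k6 := congrArg Prod.snd (k3 _ (hu (p v).2))
  rw [k _ (conj_mem_of_norm w1.1 (hu _)) (by rw [w1.2 _ (hu _), e]; simp), w1.2 _ (hu _), e] at k6
  have k7 := k2 (p v).2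
  rw [k1 v hv]
  simp at k4 k6
  ext
  · simp; grind
  · simp; grind

end Sb

end Cfsg.PU
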