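import Cfsg.Agent.PU.A2

/-! Two interchanged rank one parabolics with a common Sylow subgroup `J = V₁V₂`. -/

set_option autoImplicit false
set_option linter.unusedSectionVars false

namespace Cfsg.PU

open Subgroup Cfsg.L0 Cfsg.FT Cfsg.LT

structure Cg (F G : Type*) [Field F] [Fintype F] [Group G] where
  L : Bool → Subgroup G
  V : Bool → Subgroup G
  J : Subgroup G
  p : Bool → G → F × F
  x : G
  sb : ∀ i, Sb (L i) (L i) (V i) (V i) J (p i)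
  sr : ∀ i t, ∃ v ∈ V (!i), Ac (V i) (p i) v 1 t 0 1
  dd : ∀ i, ∀ v ∈ V i, v ∈ V (!i) ↔ (p i v).2 = 0
  zz : ∀ v ∈ J, v ∈ 𝒞 (L true) → v ∈ 𝒞 (L false) → v = 1
  CV : ∀ i, 𝒞 (V i) ≤ V i
  NL : ∀ i, 𝒩 J ⊓ 𝒩 (V i) ≤ 𝒩 (L i)
  NL2 : 2 < Fintype.card F → ∀ i, 𝒩 (V i) ≤ 𝒩 (L i)
  syl : ∀ i t, t ∈ 𝒩 J → Te t → Ac (V i) (p i) t 1 0 0 1 → t ∈ V i
  cz : ∀ i, V i ⊓ 𝒞 (L i) ≠ ⊥ → ∃ z ∈ V i ⊓ 𝒞 (L i), z ≠ 1 ∧ 𝒞₁ z ≤ 𝒩 (V i)
  xV : cj x (V true) = V false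
  xL : cj x (L true) = L false
  xJ : x ∈ 𝒩 J
  ch : Ch G

namespace Cg

variable {G : Type*} [Group G] [Finite G] {F : Type*} [Field F] [Fintype F] [CharP F 2]
  (C : Cg F G) {i j : Bool} {f g g' h u v w x y z : G} {a d s t : F} {A P : Subgroup G}

abbrev Ac (i : Bool) := PU.Ac (C.V i) (C.p i)
def Z (i : Bool) : Subgroup G := C.V i ⊓ 𝒞 (C.L i)
def D : Subgroup G := C.V true ⊓ C.V false
def B : Subgroup G := 𝒩 C.J ⊓ 𝒩 (C.V true)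
/-- elements interchanging the two sides -/
def Sw (g : G) : Prop := g ∈ 𝒩 C.J ∧ g ∉ C.B

theorem mo (i : Bool) : Mo (C.V i) (C.L i) (C.p i) := (C.sb i).toMo
theorem VJ (i : Bool) : C.V i ≤ C.J := (C.sb i).WJ
theorem JL (i : Bool) : C.J ≤ C.L i := (C.sb i).JL
theorem LV (i : Bool) : C.L i ≤ 𝒩 (C.V i) := (C.sb i).LV
theorem DV (i : Bool) : C.D ≤ C.V i := by cases i; exacts [inf_le_right, inf_le_left]
theorem DJ : C.D ≤ C.J := (C.DV true).trans (C.VJ _)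

open Classical in
/-- the coordinate of the action of an element of `J` -/
noncomputable def b (i : Bool) (x : G) : F := if h : ∃ t, C.Ac i x 1 t 0 1 then h.choose else 0

variable {C}

theorem mem_D (h : x ∈ C.V i) (h' : x ∈ C.V (!i)) : x ∈ C.D := by
  cases i; exacts [⟨h', h⟩, ⟨h, h'⟩]
theorem mem_D' (h : x ∈ C.V i) : x ∈ C.D ↔ (C.p i x).2 = 0 :=
  ⟨fun k => (C.dd i x h).1 (C.DV _ k), fun k => mem_D h ((C.dd i x h).2 k)⟩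
theorem mem_Z (h : x ∈ C.V i) : x ∈ C.Z i ↔ C.p i x = 0 :=
  ⟨fun k => ((C.mo i).ker x h).2 k.2, fun k => ⟨h, ((C.mo i).ker x h).1 k⟩⟩
theorem ZD (i : Bool) : C.Z i ≤ C.D := fun _ h => (mem_D' h.1).2 (by rw [(mem_Z h.1).1 h]; rfl)
theorem Z_one (h : x ∈ C.Z i) (h' : x ∈ C.Z (!i)) : x = 1 := by
  cases i; exacts [C.zz x (C.VJ _ h.1) h'.2 h.2, C.zz x (C.VJ _ h.1) h.2 h'.2]
theorem Z_ne (h : x ∈ C.Z (!i)) (x1 : x ≠ 1) : (C.p i x).1 ≠ 0 := fun k =>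
  x1 (Z_one ((mem_Z (C.DV i (ZD _ h))).2 (Prod.ext k ((mem_D' (C.DV i (ZD _ h))).1 (ZD _ h)))) h)
theorem vsq (h : x ∈ C.V i) : x * x = 1 := (C.mo i).sq x h

theorem b_ac (i : Bool) (h : x ∈ C.J) : C.Ac i x 1 (C.b i x) 0 1 := by
  have := (((C.sb i).memJ x).1 h).2
  rw [b, dif_pos this]; exact this.choose_spec
theorem b_eq (h : x ∈ C.J) (k : C.Ac i x 1 t 0 1) : C.b i x = t := ((C.mo i).uniq (b_ac i h) k).2.1
theorem b_mul (i : Bool) (h : x ∈ C.J) (h' : y ∈ C.J) : C.b i (x * y) = C.b i x + C.b i y :=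
  b_eq (mul_mem h h') (((b_ac i h).mul (b_ac i h')).congr (by ring) (by ring) (by ring) (by ring))
theorem b_zero (h : x ∈ C.J) : C.b i x = 0 ↔ x ∈ C.V i :=
  ⟨fun k => (C.sb i).kr x (C.JL i h) (k ▸ b_ac i h), fun k => b_eq h (ac_cent ((C.mo i).abel k))⟩
theorem b_conj (k : C.Ac i g a s 0 d) (hg : g ∈ 𝒩 C.J) (h : x ∈ C.J) :
    C.b i (g * x * g⁻¹) * d = a * C.b i x := by
  have := (b_ac i (conj_mem_of_norm hg h)).mul k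
  rw [inv_mul_cancel_right] at this
  have := ((C.mo i).uniq this (k.mul (b_ac i h))).2.1
  grind
theorem ex_b (i : Bool) (t : F) : ∃ v ∈ C.V (!i), C.b i v = t :=
  (C.sr i t).imp fun _ h => ⟨h.1, b_eq (C.VJ _ h.1) h.2⟩

theorem pJ : IsPGroup 2 C.J := H8.isPGroup_iff_forall.2 fun x hx => ⟨2, by
  have : x * x * (x * x) = 1 := vsq ((b_zero (C := C) (i := true) (mul_mem hx hx)).1
    (by rw [b_mul _ hx hx, CharTwo.add_self_eq_zero]))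
  rw [← this]; simp [pow_succ, mul_assoc]⟩

theorem J_dec (i : Bool) (h : x ∈ C.J) : ∃ u ∈ C.V i, ∃ v ∈ C.V (!i), x = u * v := by
  obtain ⟨v, hv, e⟩ := C.ex_b i (C.b i x)
  refine ⟨x * v, (b_zero (mul_mem h (C.VJ _ hv))).1 ?_, v, hv, by rw [mul_assoc, vsq hv, mul_one]⟩
  rw [b_mul _ h (C.VJ _ hv), e, CharTwo.add_self_eq_zero]

theorem J_le (h : ∀ i, C.V i ≤ A) : C.J ≤ A := fun x hx => by
  obtain ⟨u, hu, v, hv, rfl⟩ := J_dec true hx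
  exact mul_mem (h _ hu) (h _ hv)

theorem JD : C.J ≤ 𝒞 C.D := J_le fun i => cent_symm ((C.DV i).trans (C.mo i).abel)

theorem nc (hu : u ∈ C.V i) (h : x ∈ C.J) (k : x * u = u * x) : u ∈ C.D ∨ x ∈ C.V i := by
  have := (C.mo i).cm (b_ac i h) hu
  rw [k, mul_inv_cancel_right, vsq hu, (C.mo i).one, Prod.ext_iff] at this
  exact (mul_eq_zero.1 this.1.symm).symm.imp (mem_D' hu).2 (b_zero h).1

theorem inv_V (h : x ∈ C.J) (e : x * x = 1) : ∃ i, x ∈ C.V i := by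
  obtain ⟨u, hu, v, hv, rfl⟩ := J_dec true h
  have := inv_eq_of_mul_eq_one_left e
  rw [mul_inv_rev, (C.mo _).inv hu, (C.mo _).inv hv] at this
  exact (nc hu (C.VJ _ hv) this).elim (fun k => ⟨_, mul_mem (C.DV _ k) hv⟩) fun k => ⟨_, mul_mem hu k⟩

theorem or_V (h : x ∈ C.V j) (i : Bool) : x ∈ C.V i ∨ x ∈ C.V (!i) := by
  cases i <;> cases j <;> simp [h]

theorem le_V (h : A ≤ C.J) (e : ∀ x ∈ A, x * x = 1) : ∃ i, A ≤ C.V i := by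
  by_cases k : A ≤ C.V true
  · exact ⟨_, k⟩
  obtain ⟨x, hx, x1⟩ := SetLike.not_le_iff_exists.1 k
  refine ⟨false, fun y hy => ?_⟩
  obtain ⟨i, hi⟩ := inv_V (h hy) (e y hy)
  exact (or_V hi false).elim id fun y1 =>
    (nc y1 (h hx) ((Cf.elem e).2 x hx y hy)).elim (C.DV _ ·) (absurd · x1)

theorem V_ne (h : C.V i ≤ C.V (!i)) : False := by
  obtain ⟨v, hv, e⟩ := (C.mo i).sur (0, 1)
  simpa [e] using (C.dd i v hv).1 (h hv)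

theorem card_V (i j : Bool) : ♯(C.V i) = ♯(C.V j) := by
  have := card_cj C.x (C.V true)
  rw [C.xV] at this
  cases i <;> cases j <;> simp [this]

theorem cj_V (h : cj g (C.V i) ≤ C.J) : ∃ j, cj g (C.V i) = C.V j := by
  obtain ⟨j, e⟩ := le_V h (by rintro _ ⟨x, hx, rfl⟩; exact conj_sq (vsq hx) g)
  exact ⟨j, eq_of_card_le e (by rw [card_cj, card_V j i])⟩

theorem NJ_of (h : ∀ i, ∃ j, cj g (C.V i) = C.V j) : g ∈ 𝒩 C.J :=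
  mem_norm_of_cj_le ((cj_le_iff g).2 (J_le fun i => (cj_le_iff g).1 (by
    obtain ⟨j, e⟩ := h i; exact e ▸ C.VJ j)))

theorem cj_other (hg : g ∈ 𝒩 C.J) (e : cj g (C.V i) = C.V j) : cj g (C.V (!i)) = C.V (!j) := by
  obtain ⟨k, e'⟩ := cj_V (cj_le_of_le (C.VJ (!i)) hg)
  by_cases kj : k = j
  · exact (V_ne ((cj_inj g).1 (e.trans (kj ▸ e'.symm))).le).elim
  · rwa [Bool.eq_not_iff.2 kj] at e'

theorem mem_B (hg : g ∈ 𝒩 C.J) (h : g ∈ 𝒩 (C.V i)) : g ∈ C.B := by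
  cases i; exacts [⟨hg, cj_eq_iff.1 (cj_other hg (cj_eq_iff.2 h))⟩, ⟨hg, h⟩]
theorem B_V (i : Bool) : C.B ≤ 𝒩 (C.V i) := fun g h => by
  cases i; exacts [cj_eq_iff.1 (cj_other h.1 (cj_eq_iff.2 h.2)), h.2]
theorem B_L (i : Bool) : C.B ≤ 𝒩 (C.L i) := fun _ h => C.NL i ⟨h.1, B_V i h⟩
theorem B_Z (i : Bool) : C.B ≤ 𝒩 (C.Z i) := le_norm_inf (B_V i) (le_norm_cent (B_L i))
theorem B_D : C.B ≤ 𝒩 C.D := le_norm_inf (B_V _) (B_V _)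
theorem JB : C.J ≤ C.B := le_inf (le_norm _) ((C.JL _).trans (C.LV _))
theorem LB (h : g ∈ C.L i) (h' : g ∈ 𝒩 C.J) : g ∈ C.B := mem_B h' (C.LV i h)

theorem Sw.V (h : C.Sw g) (i : Bool) : cj g (C.V i) = C.V (!i) := by
  obtain ⟨j, e⟩ := cj_V (cj_le_of_le (C.VJ i) h.1)
  by_cases k : j = i
  · exact (h.2 (mem_B h.1 (cj_eq_iff.1 (k ▸ e)))).elim
  · rwa [Bool.eq_not_iff.2 k] at e
theorem Sw.mul (h : C.Sw g) (h' : C.Sw g') : g * g' ∈ C.B :=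
  mem_B (i := true) (mul_mem h.1 h'.1) (cj_eq_iff.1 (by rw [cj_mul, h'.V, h.V]; rfl))
theorem Sw.mulB (h : C.Sw g) (h' : g' ∈ C.B) : C.Sw (g * g') :=
  ⟨mul_mem h.1 h'.1, fun k => h.2 ((mul_mem_cancel_right h').1 k)⟩
theorem Sw.inv (h : C.Sw g) : C.Sw g⁻¹ := ⟨inv_mem h.1, fun k => h.2 (inv_mem_iff.1 k)⟩
theorem sw_x : C.Sw C.x := ⟨C.xJ, fun k => V_ne (i := true) (C.xV.symm.trans (cj_eq_iff.2 k.2)).ge⟩
theorem Sw.L (h : C.Sw g) (i : Bool) : cj g (C.L i) = C.L (!i) := by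
  have k : ∀ g, C.Sw g → cj g (C.L true) = C.L false := fun g h => by
    rw [← mul_inv_cancel_left C.x g, cj_mul, cj_eq_iff.2 (B_L _ (sw_x.inv.mul h)), C.xL]
  cases i
  · rw [← k _ h.inv, cj_cj_inv]; rfl
  · exact k g h
theorem Sw.Z (h : C.Sw g) (i : Bool) : cj g (C.Z i) = C.Z (!i) := by
  rw [Cg.Z, cj_inf, cj_cent, h.V, h.L]; rfl
theorem Sw.conj (h : C.Sw g) (hx : x ∈ C.Z i) : g * x * g⁻¹ ∈ C.Z (!i) := h.Z i ▸ conj_mem_cj hx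
theorem Sw.fix (h : C.Sw g) (hx : x ∈ C.Z i) (k : x ∈ 𝒞₁ g) : x = 1 :=
  Z_one hx (by have := h.conj hx; rwa [← mem_cent1.1 k, mul_inv_cancel_right] at this)
theorem Sw.fixD (h : C.Sw g) (hx : x ∈ C.J) (e : x * x = 1) (k : x ∈ 𝒞₁ g) : x ∈ C.D := by
  obtain ⟨i, hi⟩ := inv_V hx e
  have := h.V i ▸ conj_mem_cj (g := g) hi
  rw [← mem_cent1.1 k, mul_inv_cancel_right] at this
  exact mem_D hi this
theorem NJ_D : 𝒩 C.J ≤ 𝒩 C.D := fun g h => by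
  by_cases k : g ∈ C.B
  · exact B_D k
  · exact cj_eq_iff.1 (by rw [D, cj_inf, Sw.V ⟨h, k⟩, Sw.V ⟨h, k⟩, inf_comm]; rfl)

theorem lin0 (hg : g ∈ C.B) (k : ∀ v ∈ C.D, C.p i (g * v * g⁻¹) = C.p i v) : ∃ b d, C.Ac i g 1 b 0 d :=
  (C.sb i).lin0 (B_V i hg) (B_L i hg) hg.1 fun v hv e => k v ((mem_D' hv).2 e)

theorem te_J (hg : g ∈ 𝒩 C.J) (h : Te g) (k : C.Ac i g a s 0 d) : g ∈ C.J := by
  obtain ⟨rfl, rfl⟩ := (C.mo i).te k h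
  obtain ⟨y, hy, e⟩ := (C.sb i).exJ s
  exact (mul_mem_cancel_right hy).1 (C.VJ i (C.syl i _ (mul_mem hg (le_norm _ hy)) (h.mul pJ hg hy)
    ((k.mul e).congr (by ring) (by grind) (by ring) (by ring))))

/-- an element carrying `L i` into `L j` and centralizing a point of the line normalizes `J` -/
theorem NJ_fix (e : cj g (C.L i) ≤ C.L j) (hx : x ∈ C.D) (x1 : g * x * g⁻¹ ∈ C.D)
    (x2 : g * x * g⁻¹ ∉ C.Z j) : g ∈ 𝒩 C.J := H8.mem_normalizer_of_forall fun y hy => by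
  have h1 := C.DV j x1
  have h2 := (mem_D' h1).1 x1
  refine (C.sb j).fixJ (e (conj_mem_cj (C.JL i hy))) h1 (fun k => x2 ((mem_Z h1).2 (Prod.ext k h2))) h2 ?_
  rw [show g * y * g⁻¹ * (g * x * g⁻¹) * (g * y * g⁻¹)⁻¹ = g * (y * x * y⁻¹) * g⁻¹ by group,
    ← mem_cent.1 (JD hy) x hx, mul_inv_cancel_right]

theorem ex_h (i : Bool) (ha : a ≠ 0) : ∃ h ∈ C.L i, h ∈ C.B ∧ C.Ac i h a 0 0 a⁻¹ := by
  obtain ⟨h, hh, e⟩ := (C.sb i).su a 0 0 a⁻¹ (by simp [ha])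
  obtain ⟨v, hv, e'⟩ := (C.mo i).sur (1, 0)
  have h1 := conj_mem_of_norm e.1 hv
  exact ⟨h, hh, LB hh (NJ_fix (cj_eq_of_mem hh).le ((mem_D' hv).2 (by rw [e'])) ((mem_D' h1).2
    (by rw [e.2 v hv, e']; simp)) fun k => by simpa [e.2 v hv, e', ha] using (mem_Z h1).1 k), e⟩

theorem B_ac (h : g ∈ C.L i) (h' : g ∈ C.B) : ∃ a s, a ≠ 0 ∧ C.Ac i g a s 0 a⁻¹ := by
  obtain ⟨a, b, e, d, k, k'⟩ := (C.sb i).ex g h
  obtain ⟨v, hv, e'⟩ := (C.mo i).sur (1, 0)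
  have := (mem_D' (conj_mem_of_norm k'.1 hv)).1 (conj_mem_of_norm (B_D h') ((mem_D' hv).2 (by rw [e'])))
  rw [k'.2 v hv, e'] at this
  simp at this
  subst this
  have a0 : a ≠ 0 := by rintro rfl; simp at k
  exact ⟨a, b, a0, k'.congr rfl rfl rfl (by field_simp; grind)⟩

end Cg

end Cfsg.PU
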