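import Cfsg.Agent.PU.B1

/-! The torus and the Weyl elements. -/

set_option autoImplicit false
set_option linter.unusedSectionVars false

namespace Cfsg.PU

open Subgroup Cfsg.L0 Cfsg.FT Cfsg.LT

namespace Cg

variable {G : Type*} [Group G] [Finite G] {F : Type*} [Field F] [Fintype F] [CharP F 2]
  {C : Cg F G} {i j : Bool} {f g g' h n u v w x y z : G} {a d l s t : F} {A P Y : Subgroup G}

variable (C) in
def E : Subgroup G := C.L true ⊓ C.B ⊔ C.L false ⊓ C.B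

variable (C) in
/-- the Borel subgroup of each side acts by scalars on the line of the other side -/
def Lin : Prop := ∀ i, ∀ h ∈ C.L (!i), h ∈ C.B → ∃ l, ∀ v ∈ C.D, C.p i (h * v * h⁻¹) = (l * (C.p i v).1, 0)

theorem E_B : C.E ≤ C.B := sup_le inf_le_right inf_le_right
theorem mem_E (h : g ∈ C.L i) (h' : g ∈ C.B) : g ∈ C.E := by
  cases i; exacts [mem_sup_right ⟨h, h'⟩, mem_sup_left ⟨h, h'⟩]
theorem JE : C.J ≤ C.E := fun _ h => mem_E (C.JL true h) (JB h)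
theorem NJ_B : 𝒩 C.J ≤ 𝒩 C.B := fun g h => H8.mem_normalizer_of_forall fun y hy => by
  by_cases k : g ∈ C.B
  exacts [mul_mem (mul_mem k hy) (inv_mem k), (Sw.mulB ⟨h, k⟩ hy).mul (Sw.inv ⟨h, k⟩)]
theorem NJ_E : 𝒩 C.J ≤ 𝒩 C.E := fun g h => by
  by_cases k : g ∈ C.B
  · exact le_norm_sup (le_norm_inf (B_L _) (le_norm _)) (le_norm_inf (B_L _) (le_norm _)) k
  · exact cj_eq_iff.1 (by
      rw [E, cj_sup, cj_inf, cj_inf, Sw.L ⟨h, k⟩, Sw.L ⟨h, k⟩, cj_eq_iff.2 (NJ_B h), sup_comm]; rfl)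

theorem tri_B (hg : g ∈ C.L i) (e : C.Ac i g a s 0 d) : g ∈ C.B := by
  obtain ⟨v, hv, e'⟩ := (C.mo i).sur (1, 0)
  have h1 := conj_mem_of_norm e.1 hv
  exact LB hg (NJ_fix (cj_eq_of_mem hg).le ((mem_D' hv).2 (by rw [e'])) ((mem_D' h1).2
    (by rw [e.2 v hv, e']; simp)) fun k => by
      simpa [e.2 v hv, e', ((C.mo i).ne e).1] using (mem_Z h1).1 k)

theorem E_ac (lin : C.Lin) (i : Bool) (hg : g ∈ C.E) : ∃ a s d, C.Ac i g a s 0 d := by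
  let T : Subgroup G :=
    { carrier := {g | ∃ a s d, C.Ac i g a s 0 d}
      mul_mem' := fun ⟨_, _, _, h⟩ ⟨_, _, _, h'⟩ => ⟨_, _, _, (h.mul h').congr rfl rfl (by ring) rfl⟩
      one_mem' := ⟨_, _, _, ac_cent (one_mem _)⟩
      inv_mem' := fun ⟨_, _, _, h⟩ => ⟨_, _, _, (C.mo i).inv0 h⟩ }
  have k1 : C.L i ⊓ C.B ≤ T := fun g h => by
    obtain ⟨a, s, -, e⟩ := B_ac h.1 h.2; exact ⟨_, _, _, e⟩
  have k2 : C.L (!i) ⊓ C.B ≤ T := fun g h => by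
    obtain ⟨l, e⟩ := lin i g h.1 h.2
    have l0 : l ≠ 0 := by
      rintro rfl
      obtain ⟨v, hv, e'⟩ := (C.mo i).sur (1, 0)
      have := e _ (conj_mem_of_norm' (B_D h.2) ((mem_D' hv).2 (by rw [e'])))
      simp [mul_assoc, e'] at this
    obtain ⟨m, m1, m2, m3⟩ := C.ex_h i (inv_ne_zero l0)
    refine (mul_mem_cancel_left (k1 ⟨m1, m2⟩)).1 ?_
    obtain ⟨b, d, k⟩ := lin0 (i := i) (mul_mem m2 h.2) fun v hv => by
      rw [show m * g * v * (m * g)⁻¹ = m * (g * v * g⁻¹) * m⁻¹ by group,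
        m3.2 _ (C.DV i (conj_mem_of_norm (B_D h.2) hv)), e v hv]
      ext <;> simp [l0, (mem_D' (C.DV i hv)).1 hv]
    exact ⟨_, _, _, k⟩
  cases i
  exacts [sup_le k2 k1 hg, sup_le k1 k2 hg]

variable (C) in
structure Tor0 (Y : Subgroup G) : Prop where
  lin : C.Lin
  sd : SD C.J Y C.E
  odd : ¬ 2 ∣ ♯Y

theorem ex_tor0 (lin : C.Lin) : ∃ Y, C.Tor0 Y := by
  have s : H8.IsSyl 2 C.J C.E := H8.isSyl_of_maximal JE pJ fun Q hQ _ h x hx => by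
    obtain ⟨a, s, d, e⟩ := E_ac lin true (h hx)
    exact te_J (E_B (h hx)).1 (te_of hQ hx) e
  obtain ⟨Y, h⟩ := exists_sd ⟨JE, E_B.trans inf_le_left⟩ (cop_of_pgroup Nat.prime_two pJ s.not_dvd)
  exact ⟨Y, lin, h, h.ri ▸ s.not_dvd⟩

theorem ex_l (q : 2 < Fintype.card F) : ∃ l : F, l ≠ 0 ∧ l * l ≠ 1 := by
  simpa [pow_two] using exists_big (n := 2) (F := F) (by omega) q |>.imp fun l h => by
    refine ⟨h.1, fun k => h.2 ?_⟩
    have : l ^ 2 ^ 1 = 1 := by rw [pow_one, pow_two, k]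
    simpa using eq_one_of_pow this

namespace Tor0
variable (T : C.Tor0 Y)
include T

theorem YB : Y ≤ C.B := T.sd.le_right.trans E_B
theorem cj (hu : u ∈ C.J) : C.Tor0 (cj u Y) :=
  ⟨T.lin, by simpa [cj_eq_of_mem hu, cj_eq_of_mem (JE hu)] using T.sd.cj u, by rw [card_cj]; exact T.odd⟩
theorem oo (hy : y ∈ Y) : Odd (orderOf y) :=
  Nat.not_even_iff_odd.1 fun k => T.odd (k.two_dvd.trans (orderOf_dvd hy))
theorem dec (hg : g ∈ C.L i) (h : g ∈ C.B) : ∃ x ∈ C.J, ∃ y ∈ Y, y ∈ C.L i ∧ x * y = g := by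
  obtain ⟨x, hx, y, hy, rfl⟩ := T.sd.mem (mem_E hg h)
  exact ⟨x, hx, y, hy, (mul_mem_cancel_left (C.JL i hx)).1 hg, rfl⟩

theorem dg (l1 : l * l ≠ 1) (hh : h ∈ Y) (e : C.Ac i h l 0 0 l⁻¹) (hy : y ∈ Y) :
    ∃ a d, C.Ac i y a 0 0 d := by
  obtain ⟨a, s, d, k⟩ := E_ac T.lin i (T.sd.le_right hy)
  obtain ⟨a0, d0⟩ := (C.mo i).ne k
  have l0 := ((C.mo i).ne e).1
  have := (C.mo i).odd ((((k.mul e).mul ((C.mo i).inv0 k)).mul ((C.mo i).inv0 e)).congr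
    (by field_simp; ring) rfl (by ring) (by field_simp; ring))
    (T.oo (mul_mem (mul_mem (mul_mem hy hh) (inv_mem hy)) (inv_mem hh)))
  refine ⟨a, d, k.congr rfl ?_ rfl rfl⟩
  field_simp at this
  grind

theorem step (q : 2 < Fintype.card F) (i : Bool) :
    ∃ u ∈ C.V (!i), ∀ y ∈ L0.cj u Y, ∃ a d, C.Ac i y a 0 0 d := by
  obtain ⟨l, l0, l1⟩ := ex_l q
  obtain ⟨m, m1, m2, m3⟩ := C.ex_h i l0
  obtain ⟨x, hx, y, hy, -, rfl⟩ := T.dec m1 m2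
  have e := ((C.mo i).inv0 (b_ac i hx)).mul m3
  rw [inv_mul_cancel_left] at e
  obtain ⟨u, hu, k⟩ := C.sr i (C.b i x / (l * l + 1))
  have : l * l + 1 ≠ 0 := by grind
  exact ⟨u, hu, fun y' h' => (T.cj (C.VJ _ hu)).dg l1 (conj_mem_cj hy)
    (((k.mul e).mul ((C.mo i).inv0 k)).congr (by ring) (by field_simp; grind) (by ring) (by ring)) h'⟩

theorem fr (hg : g ∈ 𝒩 C.J) : ∃ x ∈ C.J, ∃ n ∈ 𝒩 Y, x * n = g :=
  (mkCA_p' Nat.prime_two T.sd.norm pJ T.odd).exists_mul_norm hg (T.sd.sup ▸ NJ_E hg)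

end Tor0

variable (C) in
structure Tor (Y : Subgroup G) : Prop extends C.Tor0 Y where
  q : 2 < Fintype.card F
  d : ∀ i, ∀ y ∈ Y, ∃ a d, C.Ac i y a 0 0 d

theorem ex_tor (lin : C.Lin) (q : 2 < Fintype.card F) : ∃ Y, C.Tor Y := by
  obtain ⟨Y, T⟩ := ex_tor0 lin
  obtain ⟨u, hu, k⟩ := T.step q true
  have T' := T.cj (C.VJ _ hu)
  obtain ⟨v, hv, k'⟩ := T'.step q false
  refine ⟨_, T'.cj (C.VJ _ hv), q, fun i => ?_⟩
  cases i
  · exact k'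
  rintro _ ⟨y, hy, rfl⟩
  obtain ⟨a, d, e⟩ := k y hy
  have := ac_cent (p := C.p true) ((C.mo true).abel hv)
  exact ⟨a, d, ((this.mul e).mul (this.inv1 (by simp))).congr (by ring) (by ring) (by ring) (by ring)⟩

namespace Tor
variable (T : C.Tor Y)
include T

theorem exh (i : Bool) (ha : a ≠ 0) : ∃ h ∈ Y, h ∈ C.L i ∧ C.Ac i h a 0 0 a⁻¹ := by
  obtain ⟨m, m1, m2, m3⟩ := C.ex_h i ha
  obtain ⟨x, hx, y, hy, h, rfl⟩ := T.dec m1 m2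
  obtain ⟨a', d', e⟩ := T.d i y hy
  have := (C.mo i).uniq m3 ((b_ac i hx).mul e)
  exact ⟨y, hy, h, e.congr (by grind) rfl rfl (by grind)⟩

theorem NJ1 (hx : x ∈ C.J) (h : x ∈ 𝒩 Y) : x = 1 := by
  have c : x ∈ 𝒞 Y := le_cent_of_inf_eq_bot (A := C.J ⊓ 𝒩 Y) inf_le_right
    (le_norm_inf T.sd.norm (le_norm_norm (le_norm _))) (eq_bot_of_le T.sd.inf
      (inf_le_inf_right _ inf_le_left)) ⟨hx, h⟩
  obtain ⟨l, l0, l1⟩ := ex_l T.q
  have k : ∀ i, x ∈ C.V i := fun i => by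
    obtain ⟨m, m1, -, e⟩ := T.exh i l0
    have := b_conj e (T.YB m1).1 hx
    rw [mem_cent.1 c m m1, mul_inv_cancel_right] at this
    exact (b_zero hx).1 (by field_simp at this; grind)
  have k' : ∀ i, x ∈ C.Z i := fun i => by
    obtain ⟨m, m1, -, e⟩ := T.exh i l0
    have := e.2 x (k i)
    rw [mem_cent.1 c m m1, mul_inv_cancel_right, Prod.ext_iff] at this
    exact (mem_Z (k i)).2 (Prod.ext (show _ = (0 : F) by grind) ((C.dd i x (k i)).1 (k _)))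
  exact Z_one (k' true) (k' _)

theorem ex_w (i : Bool) : ∃ w ∈ C.L i, w ∈ 𝒩 Y ∧ C.Ac i w 0 1 1 0 := by
  obtain ⟨w, hw, e⟩ := (C.sb i).exW
  obtain ⟨v, hv, n, hn, rfl⟩ := (mkCA_p' Nat.prime_two (T.YB.trans (B_V i)) (C.mo i).pg
    T.odd).exists_mul_norm e.1 (mem_norm_of_cj_le (by
      rw [cj_sup, cj_eq_iff.2 e.1]
      refine sup_le le_sup_left ?_
      rintro _ ⟨y, hy, rfl⟩
      obtain ⟨a, d, k⟩ := T.d i y hy
      have h1 : w * y * w⁻¹ * y⁻¹ ∈ C.L i := by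
        have := mul_mem hw (conj_mem_of_norm (B_L i (T.YB hy)) (inv_mem hw))
        simpa [mul_assoc] using this
      have h2 := ((e.mul k).mul (e.inv1 (by simp))).mul ((C.mo i).inv0 k)
      obtain ⟨x, hx, y', h3, -, h4⟩ := T.dec h1 (tri_B h1 (h2.congr rfl rfl (by ring) rfl))
      obtain ⟨a', d', k'⟩ := T.d i y' h3
      have h5 := ((C.mo i).uniq h2 (h4 ▸ (b_ac i hx).mul k')).2.1
      have h6 := ((C.mo i).ne k').2
      have := mul_mem (mul_mem (mem_sup_left ((b_zero (i := i) hx).1 (by simp at h5; grind)))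
        (mem_sup_right h3)) (mem_sup_right hy : y ∈ C.V i ⊔ Y)
      rwa [h4, inv_mul_cancel_right] at this))
  have := (ac_cent (p := C.p i) ((C.mo i).abel (inv_mem hv))).mul e
  rw [inv_mul_cancel_left] at this
  exact ⟨n, (mul_mem_cancel_left (C.JL i (C.VJ i hv))).1 hw, hn,
    this.congr (by ring) (by ring) (by ring) (by ring)⟩

theorem opp (h1 : n ∈ C.B) (h2 : n ∈ 𝒩 Y) (hv : v ∈ C.V i) (k : (C.p i v).1 = 0) :
    (C.p i (n * v * n⁻¹)).1 = 0 := by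
  by_contra s0
  obtain ⟨c, hc, e⟩ := (C.sb i).su 1 0 1 1 (by simp)
  have hg := conj_mem_of_norm (B_L i h1) hc
  obtain ⟨a, b, e', d, k1, k2⟩ := (C.sb i).ex _ hg
  have key : ∀ v ∈ C.V i, (C.p i v).1 = 0 → _ = C.p i (n * v * n⁻¹) := fun v hv k => by
    refine (k2.2 _ (conj_mem_of_norm (B_V i h1) hv)).symm.trans ?_
    rw [show n * c * n⁻¹ * (n * v * n⁻¹) * (n * c * n⁻¹)⁻¹ = n * (c * v * c⁻¹) * n⁻¹ by group]
    exact (C.mo i).cong (B_V i h1) (B_L i h1) (conj_mem_of_norm e.1 hv) hv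
      (by rw [e.2 v hv]; ext <;> simp [k])
  have hv' := conj_mem_of_norm (B_V i h1) hv
  have t0 : (C.p i (n * v * n⁻¹)).2 ≠ 0 := fun t0 => by
    have := conj_mem_of_norm' (B_D h1) ((mem_D' hv').2 t0)
    rw [show n⁻¹ * (n * v * n⁻¹) * n = v by group] at this
    exact s0 (by rw [(mem_Z hv').1 (conj_mem_of_norm (B_Z i h1) ((mem_Z hv).2
      (Prod.ext k ((mem_D' hv).1 this))))]; rfl)
  obtain ⟨l, l0, l1⟩ := ex_l T.q
  obtain ⟨m, m1, -, m2⟩ := T.exh i l0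
  obtain ⟨a', d', m3⟩ := T.d i _ (conj_mem_of_norm' h2 m1)
  have k3 := key v hv k
  have k4 := key _ (conj_mem_of_norm m3.1 hv) (by rw [m3.2 v hv]; simp [k])
  rw [show n * (n⁻¹ * m * n * v * (n⁻¹ * m * n)⁻¹) * n⁻¹ = m * (n * v * n⁻¹) * m⁻¹ by group,
    m2.2 _ hv'] at k4
  rw [Prod.ext_iff] at k3 k4
  simp only [zero_mul, add_zero, zero_add] at k3 k4
  field_simp at k4
  have := conj_mem_of_norm' (B_V i h1) ((C.sb i).kr _ hg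
    (k2.congr (by grind) (by grind) (by grind) (by grind)))
  rw [show n⁻¹ * (n * c * n⁻¹) * n = c by group] at this
  simpa using ((C.mo i).uniq e (ac_cent ((C.mo i).abel this))).2.2.1

theorem wB (hw : w ∈ C.L i) (e : C.Ac i w 0 1 1 0) (h1 : n ∈ C.B) (h2 : n ∈ 𝒩 Y) : w⁻¹ * n * w ∈ C.B := by
  have m1 := mul_mem (mul_mem (inv_mem e.1) (B_V i h1)) e.1
  have m2 := mul_mem (mul_mem (inv_mem (le_norm _ hw)) (B_L i h1)) (le_norm _ hw)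
  obtain ⟨v, hv, e'⟩ := (C.mo i).sur (1, 0)
  have h3 := conj_mem_of_norm e.1 hv
  refine mem_B (NJ_fix (cj_eq_iff.2 m2).le ((mem_D' hv).2 (by rw [e'])) ((mem_D'
    (conj_mem_of_norm m1 hv)).2 ?_) fun k => ?_) m1
  · rw [show w⁻¹ * n * w * v * (w⁻¹ * n * w)⁻¹ = w⁻¹ * (n * (w * v * w⁻¹) * n⁻¹) * w⁻¹⁻¹ by group,
      (e.inv1 (by simp)).2 _ (conj_mem_of_norm (B_V i h1) h3), T.opp h1 h2 h3 (by rw [e.2 v hv, e']; simp)]
    simp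
  · have := conj_mem_of_norm' (le_norm_inf (zpowers_le.2 m1) (le_norm_cent (zpowers_le.2 m2))
      (mem_zpowers _)) k
    rw [show ∀ g : G, g⁻¹ * (g * v * g⁻¹) * g = v by intro; group] at this
    simpa [e'] using (mem_Z hv).1 this

theorem fc (i : Bool) (a1 : A ≤ C.D) (a2 : A ≠ ⊥) (a3 : ∀ x ∈ A, x ∈ C.Z (!i) → x = 1) (a4 : C.B ≤ 𝒩 A)
    (h1 : f ∈ C.B) (h2 : f ∈ 𝒩 Y) (hf : Te f) : ∃ s c β γ, s ∈ C.V (!i) ∧ s ∈ 𝒞₁ f ∧ β ≠ 0 ∧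
      C.Ac i s 1 β 0 1 ∧ c ∈ C.L i ∧ c ∈ 𝒞₁ f ∧ c * c = 1 ∧ γ ≠ 0 ∧ C.Ac i c 1 0 γ 1 := by
  obtain ⟨u, u1, u2, u3⟩ := T.ex_w (!i)
  obtain ⟨w, w1, w2, w3⟩ := T.ex_w i
  have nm : ∀ {g f : G} {A : Subgroup G}, g⁻¹ * f * g ∈ 𝒩 A → f ∈ 𝒩 (cj g A) := fun k => by
    rwa [← cj_norm, mem_cj]
  have k1 : cj u A ≤ C.V (!i) := cj_le_of_le (a1.trans (C.DV _)) u3.1
  have k2 : ∀ s ∈ cj u A, s ≠ 1 → C.b i s ≠ 0 := by
    rintro _ ⟨x, hx, rfl⟩ s1 k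
    have hs := k1 ⟨x, hx, rfl⟩
    have h3 := C.DV (!i) (a1 hx)
    have : (C.p (!i) (u * x * u⁻¹)).2 = 0 := (mem_D' hs).1 (mem_D ((b_zero (C.VJ _ hs)).1 k) hs)
    rw [u3.2 x h3] at this
    exact s1 (by rw [a3 x hx ((mem_Z h3).2 (Prod.ext (by simpa using this) ((mem_D' h3).1 (a1 hx)))),
      map_one])
  have p1 := (C.mo _).pg.to_le k1
  have n1 : cj u A ≠ ⊥ := by rwa [Ne, cj_eq_bot_iff]
  obtain ⟨s, s1, s2, s3, -⟩ := ex_fix1 hf p1 (nm (a4 (T.wB u1 u3 h1 h2))) n1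
  obtain ⟨_, ⟨c, c1, rfl⟩, c2, c3, c4⟩ := ex_fix1 hf (H8.isPGroup_cj p1 w) (nm (nm (a4 (T.wB u1 u3
    (T.wB w1 w3 h1 h2) (mul_mem (mul_mem (inv_mem w2) h2) w2))))) (by rwa [Ne, cj_eq_bot_iff])
  have c5 := C.VJ _ (k1 c1)
  exact ⟨s, _, _, _, k1 s1, s3, k2 s s1 s2, b_ac i (C.VJ _ (k1 s1)),
    conj_mem_of_norm (le_norm _ w1) (C.JL i c5), c3, c4, k2 c c1 fun k => c2 (by rw [k, map_one]),
    ((w3.mul (b_ac i c5)).mul (w3.inv1 (by simp))).congr (by ring) (by ring) (by ring) (by ring)⟩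

end Tor

end Cg

end Cfsg.PU
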