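import Cfsg.Agent.PU.B2

/-! Consequences of the torus; weak closure; the field of order two. -/

set_option autoImplicit false
set_option linter.unusedSectionVars false

namespace Cfsg.PU

open Subgroup Cfsg.L0 Cfsg.FT Cfsg.LT

namespace Cg

variable {G : Type*} [Group G] [Finite G] {F : Type*} [Field F] [Fintype F] [CharP F 2]
  {C : Cg F G} {i j : Bool} {e f g g' h n u v w x y z z' : G} {a d l s t : F} {A P Y : Subgroup G}

variable (C) in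
def BJ : Prop := ∀ t ∈ C.B, Te t → t ∈ C.J

theorem Tor.te1 (T : C.Tor Y) (h : ∀ f ∈ C.B, f ∈ 𝒩 Y → f * f = 1 → f = 1) (h1 : n ∈ C.B) (h2 : n ∈ 𝒩 Y)
    (h3 : Te n) : n = 1 := by_contra fun k => by
  obtain ⟨y, hy, y1, y2⟩ := h3.ex_inv k
  exact y1 (h y (zpowers_le.2 h1 hy) (zpowers_le.2 h2 hy) y2)

theorem Tor.bj (T : C.Tor Y) (h : ∀ f ∈ C.B, f ∈ 𝒩 Y → f * f = 1 → f = 1) : C.BJ := fun t ht k => by
  obtain ⟨x, hx, n, hn, rfl⟩ := T.fr ht.1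
  have := k.mul' pJ ht.1 (inv_mem hx)
  rw [inv_mul_cancel_left] at this
  rw [T.te1 h ((mul_mem_cancel_left (JB hx)).1 ht) hn this, mul_one]; exact hx

theorem Tor.ex_sw (T : C.Tor Y) (h : ∀ f ∈ C.B, f ∈ 𝒩 Y → f * f = 1 → f = 1) :
    ∃ f, C.Sw f ∧ f * f = 1 := by
  obtain ⟨x, hx, n, hn, e⟩ := T.fr C.xJ
  have s : C.Sw n := ⟨(mul_mem_cancel_left (le_norm _ hx)).1 (e ▸ C.xJ),
    fun k => sw_x.2 (e ▸ mul_mem (JB hx) k)⟩
  obtain ⟨m, k, h1, h2⟩ := H8.exists_pow_pElt 2 n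
  obtain ⟨r, rfl⟩ := Nat.coprime_two_right.1 h1
  have s' : C.Sw (n ^ (2 * r + 1)) := by
    rw [pow_succ', pow_mul, pow_two]; exact s.mulB (pow_mem (s.mul s) r)
  exact ⟨_, s', T.te1 h (s'.mul s') (mul_mem (pow_mem hn _) (pow_mem hn _))
    (te_of (Te.pg ⟨k, h2⟩) (mul_mem (mem_zpowers _) (mem_zpowers _)))⟩

theorem BJ.sw (h : C.BJ) (hx : x ∈ 𝒩 C.J) (k : Te x) (n : x ∉ C.J) : C.Sw x := ⟨hx, fun e => n (h x e k)⟩

theorem BJ.fin (h : C.BJ) (hf : C.Sw f) (f2 : f * f = 1) (h1 : ∀ e, C.Sw e → e * e = 1 → 𝒞₁ e ≤ 𝒩 C.J)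
    (h2 : ∀ e ∈ C.D, e ≠ 1 → e ∈ 𝒞₁ f → 𝒞₁ e ≤ 𝒩 C.J) (w2 : w * w = 1) (hw : w ∉ 𝒩 C.J) :
    ∃ g, g * w * g⁻¹ = f := (dih w2 f2).elim id fun ⟨y, y1, y2, y3, y4⟩ => (hw (by
  by_cases k : y ∈ C.J
  exacts [h2 y (hf.fixD k y2 y3) y1 y3 y4, h1 y (h.sw (h1 f hf f2 y3) (te_sq y2) k) y2 y4])).elim

theorem BJ.ri (h : C.BJ) (hP : IsPGroup 2 P) (k : P ≤ 𝒩 C.J) : C.J.relIndex P ≤ 2 :=
  ri_two fun x hx y hy x1 y1 => h _ ((h.sw (k hx) (te_of hP hx) x1).inv.mul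
    (h.sw (k hy) (te_of hP hy) y1)) (te_of hP (mul_mem (inv_mem hx) hy))

theorem ri_Z (i : Bool) : (C.Z i).relIndex (C.V i) = Fintype.card F * Fintype.card F := by
  have : (Set.univ : Set (F × F)).ncard = Fintype.card F * Fintype.card F := by
    simp [Set.ncard_univ]
  rw [← this]
  refine le_antisymm (ri_le (C.p i) (Set.toFinite _) (fun x hx y hy e => ?_) fun _ _ => trivial)
    (le_ri (C.p i) (fun x hx y hy e => ?_) fun t _ => (C.mo i).sur t)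
  · rw [(C.mo i).inv hx]; exact ⟨mul_mem hx hy, (C.mo i).eq hx hy e⟩
  · rw [(C.mo i).inv hx, mem_Z (mul_mem hx hy), (C.mo i).add x hx y hy, Prod.ext_iff] at e
    simp at e
    ext <;> grind

theorem card_VZ (i : Bool) : ♯(C.V i) = ♯(C.Z i) * (Fintype.card F * Fintype.card F) := by
  rw [← C.ri_Z i]; exact (card_mul_ri inf_le_left).symm

theorem card_le_q (h : A ≤ C.D) (k : ∀ x ∈ A, x ∈ C.Z i → x = 1) : ♯A ≤ Fintype.card F := by
  simpa [Set.ncard_univ] using card_le_set (A := A) (fun x => (C.p i x).1) (Set.toFinite Set.univ)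
    (fun x hx y hy e => by
      have h1 := C.DV i (h hx)
      have h2 := C.DV i (h hy)
      rw [← (C.mo i).inv h1]
      exact inv_eq_of_mul_eq_one_right (k _ (mul_mem hx hy) ⟨mul_mem h1 h2, (C.mo i).eq h1 h2 (Prod.ext e
        (by rw [(mem_D' h1).1 (h hx), (mem_D' h2).1 (h hy)]))⟩)) fun _ _ => trivial

theorem ex_nD (i : Bool) : ∃ v ∈ C.V i, v ∉ C.D := by
  obtain ⟨v, hv, e⟩ := (C.mo i).sur (0, 1)
  exact ⟨v, hv, fun k => by simpa [e] using (mem_D' hv).1 k⟩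

theorem two (q : Fintype.card F = 2) (x : F) : x = 0 ∨ x = 1 := by
  have := FiniteField.pow_card x
  rw [q] at this; grind

theorem bj_two (q : Fintype.card F = 2) : C.BJ := fun t ht k => by
  obtain ⟨b, d, e⟩ := lin0 (i := true) ht fun v hv => by
    have h1 := conj_mem_of_norm (B_D ht) hv
    have h2 : t * v * t⁻¹ ∈ C.Z true ↔ v ∈ C.Z true := (mem_normalizer_iff.1 (B_Z true ht) v).symm
    rw [mem_Z h1.1, mem_Z hv.1, Prod.ext_iff, Prod.ext_iff, (mem_D' h1.1).1 h1, (mem_D' hv.1).1 hv] at h2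
    refine Prod.ext ?_ (by rw [(mem_D' h1.1).1 h1, (mem_D' hv.1).1 hv])
    rcases two q (C.p true v).1 with a | a <;> rcases two q (C.p true (t * v * t⁻¹)).1 with b | b <;>
      simp_all
  exact te_J ht.1 k e

theorem sec_L2 (q : Fintype.card F = 2) (hZ : C.Z true = ⊥) : SectionalPRankLE 2 4 G := by
  obtain ⟨S, hS, hJ⟩ := H8.exists_isSyl_ge (pJ (C := C)) le_top
  have m := C.mo true
  have inj : ∀ u ∈ C.V true, ∀ v ∈ C.V true, C.p true u = C.p true v → u = v := fun u hu v hv e => by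
    rw [← m.inv hu]; exact inv_eq_of_mul_eq_one_right (eq_one_of_mem hZ ⟨mul_mem hu hv, m.eq hu hv e⟩)
  obtain ⟨v, hv, v1⟩ := C.ex_nD true
  obtain ⟨z, z1, z2, z3, -⟩ := ex_fix hS.isPGroup hS.isPGroup (le_norm _)
    (ne_bot_of_mem (hJ (C.VJ _ hv)) fun k => v1 (k ▸ one_mem _))
  have z4 := C.CV true (cent_anti ((C.VJ _).trans hJ) z3)
  obtain ⟨t, ht, t1, t2⟩ : ∃ t ∈ C.V true, C.p true t ≠ 0 ∧ C.p true t ≠ C.p true z := by
    obtain ⟨u, hu, e⟩ := m.sur (1, 0)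
    obtain ⟨u', hu', e'⟩ := m.sur (0, 1)
    by_cases k : C.p true z = (1, 0)
    exacts [⟨u', hu', by simp [e'], by simp [e', k]⟩, ⟨u, hu, by simp [e], e ▸ Ne.symm k⟩]
  have z5 : C.p true z ≠ 0 := fun k => z2 (inj z z4 1 (one_mem _) (k.trans m.one.symm))
  refine sec_inv hS (hJ (C.VJ _ ht)) (vsq ht) (fun k => t1 (k ▸ m.one)) (le_trans (card_le
    (fun x hx => C.CV true (mem_cent.2 fun u hu => ?_))) ?_)
  · have c1 := (mem_cent1.1 hx.2).symm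
    have c2 := (mem_cent.1 z3 x hx.1).symm
    have : C.p true u = C.p true 1 ∨ C.p true u = C.p true t ∨ C.p true u = C.p true z ∨
        C.p true u = C.p true (t * z) := by
      rw [m.one, m.add t ht z z4]
      revert t1 t2 z5
      generalize C.p true u = a; generalize C.p true t = b; generalize C.p true z = c
      obtain ⟨a, a'⟩ := a; obtain ⟨b, b'⟩ := b; obtain ⟨c, c'⟩ := c
      rcases two q a with rfl | rfl <;> rcases two q a' with rfl | rfl <;> rcases two q b with rfl | rfl <;>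
        rcases two q b' with rfl | rfl <;> rcases two q c with rfl | rfl <;> rcases two q c' with rfl | rfl <;>
        simp [CharTwo.add_self_eq_zero]
    rcases this with k | k | k | k
    · simp [inj u hu 1 (one_mem _) k]
    · rw [inj u hu t ht k, c1]
    · rw [inj u hu z z4 k, c2]
    · rw [inj u hu _ (mul_mem ht z4) k, mul_assoc, c2, ← mul_assoc, c1, mul_assoc]
  · rw [card_VZ, hZ, card_bot', q]

variable (hZ : C.Z true ≠ ⊥)
include hZ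

theorem Z_nb (i : Bool) : C.Z i ≠ ⊥ := by
  cases i
  · rw [Ne, ← cj_eq_bot_iff (g := C.x), sw_x.Z] at hZ; exact hZ
  · exact hZ

theorem BJ.wcl (h : C.BJ) (k : cj g (C.V i) ≤ 𝒩 C.J) : ∃ j, cj g (C.V i) = C.V j := by
  refine cj_V (by_contra fun n => ?_)
  obtain ⟨e, e1, e2⟩ := SetLike.not_le_iff_exists.1 n
  have sq : ∀ x ∈ cj g (C.V i), x * x = 1 := by rintro _ ⟨x, hx, rfl⟩; exact conj_sq (vsq hx) g
  have s := h.sw (k e1) (te_sq (sq e e1)) e2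
  have c : ∀ x ∈ C.J ⊓ cj g (C.V i), x ∈ 𝒞₁ e := fun x hx => mem_cent1.2 ((Cf.elem sq).2 x hx.2 e e1)
  have h1 := card_le_q (i := true) (A := C.J ⊓ cj g (C.V i)) (fun x hx => s.fixD hx.1 (sq x hx.2) (c x hx))
    fun x hx k => s.fix k (c x hx)
  have h2 := card_le_ri (h.ri (Cf.elem sq).1 k)
  have h4 := one_lt_card (Z_nb hZ i)
  have h5 : 1 < Fintype.card F := Fintype.one_lt_card
  rw [card_cj, card_VZ] at h2
  nlinarith

theorem BJ.two_NJ (h : C.BJ) (hP : IsPGroup 2 P) (k : C.J ≤ P) : P ≤ 𝒩 C.J :=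
  le_of_norm hP fun _ _ hy => NJ_of fun i => h.wcl hZ ((cj_le_of_le (le_inf ((C.VJ i).trans k)
    ((C.VJ i).trans (le_norm _))) hy).trans inf_le_right)

theorem sec_S2 (q : Fintype.card F = 2) : SectionalPRankLE 2 4 G := by
  obtain ⟨S, hS, hJ⟩ := H8.exists_isSyl_ge (pJ (C := C)) le_top
  obtain ⟨u, hu, u1⟩ := C.ex_nD true
  obtain ⟨v, hv, v1⟩ := C.ex_nD false
  have h := bj_two (C := C) q
  refine sec32 hS ?_ (hJ (mul_mem (C.VJ _ hu) (C.VJ _ hv))) fun k => ?_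
  · have h1 := card_le_ri (h.ri hS.isPGroup (h.two_NJ hZ hS.isPGroup hJ))
    have h2 := card_le_ri (ri_le (A := C.J) (B := C.V true) (C.b true) (Set.toFinite Set.univ)
      (fun x hx y hy e => (b_zero (mul_mem (inv_mem hx) hy)).1 (by
        have := b_mul true hx (mul_mem (inv_mem hx) hy)
        rw [mul_inv_cancel_left] at this; grind)) fun _ _ => trivial)
    have h3 := C.card_VZ true
    have h4 := card_le_q (i := false) (C.ZD true) fun x h h' => Z_one h h'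
    rw [inf_eq_left.2 hJ] at h1
    rw [inf_eq_left.2 (C.VJ _), Set.ncard_univ, Nat.card_eq_fintype_card (α := F)] at h2
    rw [q] at *
    omega
  · obtain ⟨i, hi⟩ := inv_V (mul_mem (C.VJ _ hu) (C.VJ _ hv)) k
    cases i
    exacts [u1 ⟨hu, (mul_mem_cancel_right hv).1 hi⟩, v1 ⟨(mul_mem_cancel_left hu).1 hi, hv⟩]

omit hZ in
theorem Z_trans (h : z ∈ C.Z i) (z1 : z ≠ 1) (hs : s ≠ 0) :
    ∃ h ∈ C.L (!i), h ∈ C.B ∧ (C.p (!i) (h * z * h⁻¹)).1 = s := by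
  have k := Z_ne (i := !i) (by rwa [Bool.not_not]) z1
  obtain ⟨m, m1, m2, e⟩ := C.ex_h (!i) (div_ne_zero hs k)
  exact ⟨m, m1, m2, by rw [e.2 z (C.DV _ (ZD _ h))]; simp [k]⟩

omit hZ in
theorem Z_eq (h : z ∈ C.Z i) (h' : z' ∈ C.Z i) (e : (C.p (!i) z).1 = (C.p (!i) z').1) : z = z' := by
  have h1 := C.DV (!i) (ZD _ h)
  have h2 := C.DV (!i) (ZD _ h')
  rw [← (C.mo _).inv h1]
  exact inv_eq_of_mul_eq_one_right (Z_one (mul_mem h h') ⟨mul_mem h1 h2, (C.mo _).eq h1 h2 (Prod.ext e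
    (by rw [(mem_D' h1).1 (ZD _ h), (mem_D' h2).1 (ZD _ h')]))⟩)

omit hZ in
theorem Z_conj (h : z ∈ C.Z i) (z1 : z ≠ 1) (h' : z' ∈ C.Z i) (z2 : z' ≠ 1) :
    ∃ h ∈ C.L (!i), h ∈ C.B ∧ h * z * h⁻¹ = z' := by
  obtain ⟨m, m1, m2, e⟩ := Z_trans h z1 (Z_ne (i := !i) (by rwa [Bool.not_not]) z2)
  exact ⟨m, m1, m2, Z_eq (conj_mem_of_norm (B_Z i m2) h) h' e⟩

theorem ex_Z (i : Bool) (s : F) : ∃ z ∈ C.Z i, (C.p (!i) z).1 = s := by
  by_cases s0 : s = 0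
  · exact ⟨1, one_mem _, by rw [s0, (C.mo _).one]; rfl⟩
  obtain ⟨z, h, z1⟩ := exists_ne_one (Z_nb hZ i)
  obtain ⟨m, -, m2, e⟩ := Z_trans h z1 s0
  exact ⟨_, conj_mem_of_norm (B_Z i m2) h, e⟩

theorem D_dec (i : Bool) (h : x ∈ C.D) : ∃ z ∈ C.Z i, ∃ z' ∈ C.Z (!i), x = z * z' := by
  obtain ⟨z, hz, e⟩ := ex_Z hZ i (C.p (!i) x).1
  have h1 := C.DV (!i) (ZD _ hz)
  have h2 := C.DV (!i) h
  exact ⟨z, hz, z * x, ⟨mul_mem h1 h2, (C.mo _).eq h1 h2 (Prod.ext e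
    (by rw [(mem_D' h1).1 (ZD _ hz), (mem_D' h2).1 h]))⟩, by rw [← mul_assoc, vsq h1, one_mul]⟩

theorem CZ (h : z ∈ C.Z i) (z1 : z ≠ 1) : 𝒞₁ z ≤ 𝒩 (C.V i) := by
  obtain ⟨y, hy, y1, k⟩ := C.cz i (Z_nb hZ i)
  obtain ⟨m, -, m2, rfl⟩ := Z_conj hy y1 h z1
  rw [← cj_cent1, ← cj_eq_iff.2 (B_V i m2), ← cj_norm]
  exact cj_mono m k

theorem lin_S : C.Lin := fun i m m1 m2 => ⟨1, fun v hv => by
  obtain ⟨z, hz, z', hz', rfl⟩ := D_dec hZ i hv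
  have h1 := conj_mem_of_norm (B_Z i m2) hz
  have h2 := C.DV i (ZD _ hz')
  rw [← conj_mul, mem_cent.1 hz'.2 m m1, mul_inv_cancel_right, (C.mo i).add _ h1.1 _ h2,
    (C.mo i).add _ hz.1 _ h2, (mem_Z h1.1).1 h1, (mem_Z hz.1).1 hz]
  ext <;> simp [(mem_D' h2).1 (ZD _ hz')]⟩

end Cg

end Cfsg.PU
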