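import Cfsg.Agent.PU.B3

/-! The symplectic configuration does not occur over fields with more than two elements. -/

set_option autoImplicit false
set_option linter.unusedSectionVars false

namespace Cfsg.PU

open Subgroup Cfsg.L0 Cfsg.FT Cfsg.LT

namespace Cg

variable {G : Type*} [Group G] [Finite G] {F : Type*} [Field F] [Fintype F] [CharP F 2]
  {C : Cg F G} {i j : Bool} {c c' e f g g' h n r u v w x y z z' : G} {A P R Y : Subgroup G}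

variable (C) in
def Ct (c : G) : Prop := c ∈ C.D ∧ ∀ i, c ∉ C.Z i

theorem Ct.ne (h : C.Ct c) : c ≠ 1 := fun k => h.2 true (k ▸ one_mem _)
theorem dsq (h : c ∈ C.D) : c * c = 1 := vsq h.1

theorem Sw.ct (h : C.Sw e) (e2 : e * e = 1) (hz : z ∈ C.Z true) (z1 : z ≠ 1) :
    C.Ct (z * (e * z * e⁻¹)) ∧ z * (e * z * e⁻¹) ∈ 𝒞₁ e := by
  have h1 := h.conj hz
  have k : z * (e * z * e⁻¹) ∈ 𝒞₁ e := by
    rw [mem_cent1]
    nth_rewrite 2 [mem_cent.1 (JD (C.DJ (ZD _ h1))) z (ZD _ hz)]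
    simp only [inv_eq_of_mul_eq_one_left e2, ← mul_assoc, e2, one_mul]
    rw [mul_assoc _ e, e2, mul_one]
  refine ⟨⟨mul_mem (ZD _ hz) (ZD _ h1), fun i hi => z1 (Z_one hz ?_)⟩, k⟩
  rw [eq_inv_of_mul_eq_one_left (h.fix hi k)]; exact inv_mem h1

variable (q : 2 < Fintype.card F) (hZ : C.Z true ≠ ⊥)
include q hZ

theorem Tor.noI (T : C.Tor Y) (h1 : f ∈ C.B) (h2 : f ∈ 𝒩 Y) (f2 : f * f = 1) : f = 1 := by
  by_contra f1
  obtain ⟨R, pR, RC, n, ch⟩ := C.ch.core f2 f1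
  choose s c β γ s1 s2 s3 s4 c1 c2 c3 c4 c5 using fun i => T.fc i (ZD i) (Z_nb hZ i)
    (fun x => Z_one) (B_Z i) h1 h2 (te_sq f2)
  have RL : ∀ i, R ⊓ C.L i ≤ C.V i := fun i => (C.sb i).n2 pR (n (s2 i)) (te_sq (vsq (s1 i))) (s4 i)
    (s3 i) (n (c2 i)) (te_sq (c3 i)) (c5 i) (c4 i)
  have RD : ∀ i, ∀ r ∈ R, r ∈ C.V i → r ∈ C.D := fun i r a b => mem_D b (RL _ ⟨a, C.JL _ (C.VJ i b)⟩)
  have RZ : ∀ i, ∀ r ∈ R, r ∈ C.V i → r ∈ C.Z i := fun i r a b => by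
    have k := conj_mem_of_norm (c5 i).1 b
    have k1 := (mem_D' k).1 (RD i _ (conj_mem_of_norm (n (c2 i)) a) k)
    have k2 := (mem_D' b).1 (RD i r a b)
    rw [(c5 i).2 r b, k2] at k1
    exact (mem_Z b).2 (Prod.ext (by simpa [c4 i] using k1) k2)
  obtain ⟨z, z1, z2, z3, z4⟩ := ex_fix1 (te_sq f2) ((C.mo true).pg.to_le inf_le_left) (B_Z true h1) hZ
  obtain ⟨N, o⟩ := exists_two_pow_odd (s true * c true)
  have m1 := pow_mem (mul_mem (C.JL true (C.VJ _ (s1 true))) (c1 true)) (2 ^ N)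
  have m2 := pow_mem (mul_mem (s2 true) (c2 true)) (2 ^ N)
  have := (C.mo true).tr ((s4 true).mul (c5 true)) ⟨N, axb pR n ch (pg_zp z4) (zpowers_le.2 z3) m2 o
    (by rw [cent_zpowers]; exact mem_cent1.2 (mem_cent.1 z1.2 _ m1)) fun r hr => ?_⟩
  · have := s3 true; have := c4 true; grind
  generalize (s true * c true) ^ 2 ^ N = ρ at *
  have k1 : r * ρ * r⁻¹ * ρ⁻¹ ∈ R := by
    have := mul_mem (mem_inf.1 hr).1 (conj_mem_of_norm (n m2) (inv_mem (mem_inf.1 hr).1))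
    simpa [mul_assoc] using this
  have k3 : r ∈ 𝒞₁ z := by rw [← cent_zpowers]; exact (mem_inf.1 hr).2
  have k2 := RL true (mem_inf.2 ⟨k1, mul_mem (conj_mem_of_norm (C.NL2 q true (CZ hZ z1 z2 k3)) m1)
    (inv_mem m1)⟩)
  have := Z_one (RZ _ _ k1 k2) (RZ _ _ k1 (C.DV _ (RD _ _ k1 k2)))
  rw [mul_inv_eq_one, mul_inv_eq_iff_eq_mul] at this
  exact mem_cent1.2 this

omit q in
theorem Ct.conj (h : C.Ct c) (h' : C.Ct c') : ∃ g ∈ C.B, g * c * g⁻¹ = c' := by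
  obtain ⟨z, z1, y, y1, rfl⟩ := D_dec hZ true h.1
  obtain ⟨z', z2, y', y2, rfl⟩ := D_dec hZ true h'.1
  obtain ⟨m, m1, m2, rfl⟩ := Z_conj z1 (fun k => h.2 false (by simpa [k] using y1)) z2
    (fun k => h'.2 false (by simpa [k] using y2))
  obtain ⟨n, n1, n2, rfl⟩ := Z_conj y1 (fun k => h.2 true (by simpa [k] using z1)) y2
    (fun k => h'.2 true (by simpa [k] using z2))
  refine ⟨n * m, mul_mem n2 m2, ?_⟩
  have e1 := mem_cent.1 y1.2 m m1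
  have e2 := mem_cent.1 z2.2 n n1
  calc _ = n * (m * z * m⁻¹) * n⁻¹ * (n * (m * y * m⁻¹) * n⁻¹) := by group
    _ = _ := by rw [e1, e2, mul_inv_cancel_right, mul_inv_cancel_right]

theorem ex_Z2 (i : Bool) : ∃ z ∈ C.Z i, ∃ z' ∈ C.Z i, z ≠ 1 ∧ z' ≠ 1 ∧ z * z' ≠ 1 := by
  obtain ⟨l, l0, l1⟩ := ex_l q
  obtain ⟨z, hz, e⟩ := ex_Z hZ i 1
  obtain ⟨z', hz', e'⟩ := ex_Z hZ i l
  have k := (C.mo (!i)).one
  refine ⟨z, hz, z', hz', ?_, ?_, fun h => l1 ?_⟩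
  · rintro rfl; simp [k] at e
  · rintro rfl; simp [k] at e'; exact l0 e'.symm
  · rw [← e', ← inv_eq_of_mul_eq_one_right h, (C.mo i).inv hz.1, e, mul_one]

theorem Z_le_cm : C.Z true ≤ ⁅C.V false, C.V true⁆ := by
  have n : C.B ≤ 𝒩 ⁅C.V false, C.V true⁆ := le_norm_comm (B_V _) (B_V _)
  obtain ⟨l, l0, l1⟩ := ex_l q
  obtain ⟨u, hu, e⟩ := (C.mo false).sur (0, 1)
  obtain ⟨v, hv, e'⟩ := C.sr false 1
  have h1 := (C.mo false).cm e' hu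
  have h2 : v * u * v⁻¹ * u ∈ ⁅C.V false, C.V true⁆ := by
    rw [commutator_comm]
    simpa [commutatorElement_def, (C.mo _).inv hu] using commutator_mem_commutator hv hu
  have h3 := mul_mem (conj_mem_of_norm e'.1 hu) hu
  obtain ⟨z, z1, y, y1, k⟩ := D_dec hZ true ((mem_D' h3).2 (by rw [h1]))
  obtain ⟨m, m1, m2, m3⟩ := C.ex_h false l0
  have h4 := mul_mem (conj_mem_of_norm (n m2) h2) (inv_mem h2)
  have h5 : m * (v * u * v⁻¹ * u) * m⁻¹ * (v * u * v⁻¹ * u)⁻¹ ≠ 1 := fun k => by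
    have := m3.2 _ h3
    rw [mul_inv_eq_one.1 k, h1, e] at this
    simp at this; exact l1 (by rw [← this, mul_one])
  rw [k, ← conj_mul, mem_cent.1 y1.2 m m1, mul_inv_cancel_right, mul_inv_rev, mul_assoc,
    mul_inv_cancel_left] at h4 h5
  intro x hx
  by_cases x1 : x = 1
  · exact x1 ▸ one_mem _
  obtain ⟨g, -, g1, rfl⟩ := Z_conj (mul_mem (conj_mem_of_norm (B_Z _ m2) z1) (inv_mem z1)) h5 hx x1
  exact conj_mem_of_norm (n g1) h4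

variable (bj : C.BJ) (hf : C.Sw f) (f2 : f * f = 1)
include bj hf f2

omit q in
theorem not_conj (h : C.Ct c) (hz : z ∈ C.Z i) : g * z * g⁻¹ ≠ c := fun k => by
  obtain ⟨y, y1, y2⟩ := exists_ne_one hZ
  obtain ⟨h1, h2⟩ := hf.ct f2 y1 y2
  obtain ⟨m, -, e⟩ := h.conj hZ h1
  have s : H8.IsSyl 2 C.J (𝒩 (C.V i)) := H8.isSyl_of_maximal (JB.trans (B_V i)) pJ
    fun Q hQ a b x hx => bj x (mem_B (bj.two_NJ hZ hQ a hx) (b hx)) (te_of hQ hx)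
  have := (s.cj (m * g)).card_le (pgroup_sup (zpowers_le.2 hf.1) pJ (pg_zp f2)) (le_trans
    (sup_le (JD.trans (cent_le_cent1 h1.1)) (zpowers_le.2 (mem_cent1_comm.1 h2))) (by
      rw [← e, ← k, show m * (g * z * g⁻¹) * m⁻¹ = m * g * z * (m * g)⁻¹ by group, ← cj_cent1]
      exact cj_mono _ (CZ hZ hz fun a => h.ne (by rw [← k, a]; group))))
  rw [card_cj] at this
  exact hf.2 (JB ((eq_of_card_le le_sup_left this).ge (mem_sup_right (mem_zpowers f))))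

omit bj f2 in
theorem TI (hz : z ∈ C.Z i) (z1 : z ≠ 1) (k : g * z * g⁻¹ ∈ C.Z j) : cj g (C.L i) = C.L j := by
  have key : ∀ g, g * z * g⁻¹ ∈ C.Z i → cj g (C.L i) = C.L i := fun g k => by
    obtain ⟨m, -, m2, e⟩ := Z_conj hz z1 k (mt conj_eq_one_iff.1 z1)
    refine cj_eq_iff.2 ((mul_mem_cancel_left (inv_mem (B_L i m2))).1 (C.NL2 q i (CZ hZ hz z1 ?_)))
    rw [mem_cent1]
    calc _ = m⁻¹ * (g * z * g⁻¹) * g := by group
      _ = _ := by rw [← e]; group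
  by_cases ji : j = i
  · exact ji ▸ key g (ji ▸ k)
  obtain rfl := Bool.eq_not_iff.2 ji
  have := key (f * g) (by simpa [mul_assoc] using hf.conj k)
  rw [← inv_mul_cancel_left f g, cj_mul, this, hf.inv.L]

theorem Ct.cent (h : C.Ct c) : 𝒞₁ c ≤ 𝒩 C.J := fun g hg => by
  obtain ⟨R, pR, RC, n, ch⟩ := C.ch.core (dsq h.1) h.ne
  have JC : C.J ≤ 𝒞₁ c := JD.trans (cent_le_cent1 h.1)
  have RJ : R ≤ 𝒩 C.J := le_sup_left.trans (bj.two_NJ hZ (pgroup_sup (JC.trans n) pR pJ) le_sup_right)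
  have e : g * c * g⁻¹ = c := by rw [mem_cent1.1 hg, mul_inv_cancel_right]
  have fin : ∀ {i j}, cj g (C.L i) = C.L j → g ∈ 𝒩 C.J := fun k =>
    NJ_fix k.le h.1 (e.symm ▸ h.1) (e.symm ▸ h.2 _)
  by_cases k0 : ∃ i, R ≤ C.V i
  · obtain ⟨i, k⟩ := k0
    obtain rfl := le_antisymm k (le_trans (le_inf ((C.VJ i).trans JC) ((C.mo i).abel.trans (cent_anti k))) ch)
    exact fin (cj_eq_iff.2 (C.NL2 q i (n hg)))
  obtain ⟨a, a1, a', a2, a3, a4, a5⟩ := ex_Z2 q hZ true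
  suffices k : g * a * g⁻¹ ∈ C.D by
    obtain ⟨j, k'⟩ : ∃ j, g * a * g⁻¹ ∈ C.Z j := by_contra fun k' =>
      not_conj hZ bj hf f2 ⟨k, not_exists.1 k'⟩ a1 rfl
    exact fin (TI q hZ hf a1 a3 k')
  have s2 := conj_sq (vsq a1.1) g
  by_cases k1 : R ≤ C.J
  · have b1 : a ∈ 𝒞 R := cent_symm (k1.trans JD) (ZD _ a1)
    obtain ⟨i, hi⟩ := inv_V (k1 (conj_mem_of_norm (n hg) (ch ⟨JC (C.DJ (ZD _ a1)), b1⟩))) s2
    obtain ⟨r, r1, r2⟩ := SetLike.not_le_iff_exists.1 (not_exists.1 k0 i)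
    exact (nc hi (k1 r1) (mem_cent.1 (conj_mem_of_norm (norm_le_norm_cent _ (n hg)) b1) r r1)).resolve_right r2
  obtain ⟨r, r1, r2⟩ := SetLike.not_le_iff_exists.1 k1
  have sr := bj.sw (RJ r1) (te_of pR r1) r2
  have ρ : ∀ i, ∀ v ∈ C.V (!i), ∃ u ∈ C.V i, u * v ∈ R := fun i v hv => by
    have h1 : r⁻¹ * v * r⁻¹⁻¹ ∈ C.V i := by
      have := conj_mem_cj (g := r⁻¹) hv
      rwa [sr.inv.V, Bool.not_not] at this
    refine ⟨_, inv_mem h1, ?_⟩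
    convert mul_mem (conj_mem_of_norm' (n (JC (C.VJ i h1))) r1) (inv_mem r1) using 1
    group
  have ZR : C.Z true ≤ R := (Z_le_cm q hZ).trans (commutator_le.2 fun u hu v hv => by
    obtain ⟨w, hw, k⟩ := ρ false v hv
    have h1 := mem_cent.1 ((C.mo _).abel hw) _ (mul_mem hu (conj_mem_of_norm
      (B_V false (JB (C.VJ _ hv))) (inv_mem hu)))
    have h2 := mem_cent.1 ((C.mo _).abel hw) _ hu
    convert mul_mem (conj_mem_of_norm (n (JC (C.VJ _ hu))) k) (inv_mem k) using 1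
    calc _ = u * (v * u⁻¹ * v⁻¹) * w * w⁻¹ := by rw [commutatorElement_def]; group
      _ = w * u * (v * u⁻¹ * v⁻¹) * w⁻¹ := by rw [h1]; group
      _ = _ := by rw [← h2]; group)
  have I : ∀ x ∈ R, ∀ y ∈ R, x ∈ 𝒞₁ (g * a * g⁻¹) ∨ y ∈ 𝒞₁ (g * a * g⁻¹) ∨ x * y ∈ 𝒞₁ (g * a * g⁻¹) :=
    fun x hx y hy => by
      have h1 := conj_mem_of_norm' (n hg) hx
      have h2 := conj_mem_of_norm' (n hg) hy
      have h3 : ∀ x, g⁻¹ * x * g ∈ C.J → x ∈ 𝒞₁ (g * a * g⁻¹) := fun x hx =>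
        cj_cent1 g a ▸ mem_cj.2 (cent_le_cent1 (ZD _ a1) (JD hx))
      by_cases x1 : g⁻¹ * x * g ∈ C.J
      · exact .inl (h3 x x1)
      by_cases y1 : g⁻¹ * y * g ∈ C.J
      · exact .inr (.inl (h3 y y1))
      refine .inr (.inr (h3 _ ?_))
      convert bj _ ((bj.sw (RJ h1) (te_of pR h1) x1).mul (bj.sw (RJ h2) (te_of pR h2) y1))
        (te_of pR (mul_mem h1 h2)) using 1
      group
  have b1 := conj_mem_of_norm (n hg) (ZR a1)
  generalize g * a * g⁻¹ = b at *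
  by_contra b2
  by_cases b3 : b ∈ C.J
  · obtain ⟨i, hi⟩ := inv_V b3 s2
    obtain ⟨l, l0, l1⟩ := ex_l q
    have key : ∀ t, ∃ x ∈ R, x ∈ C.J ∧ C.b i x = t := fun t => by
      obtain ⟨v, hv, e⟩ := C.ex_b i t
      obtain ⟨u, hu, k⟩ := ρ i v hv
      exact ⟨_, k, mul_mem (C.VJ _ hu) (C.VJ _ hv), by
        rw [b_mul _ (C.VJ _ hu) (C.VJ _ hv), e, (b_zero (C.VJ _ hu)).2 hu, zero_add]⟩
    obtain ⟨x, x1, x2, x3⟩ := key 1
    obtain ⟨y, y1, y2, y3⟩ := key l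
    have k : ∀ x ∈ C.J, x ∈ 𝒞₁ b → C.b i x = 0 := fun x h h' =>
      (b_zero h).2 ((nc hi h (mem_cent1.1 h')).resolve_left b2)
    have := b_mul i x2 y2
    rcases I x x1 y y1 with m | m | m
    · have := k x x2 m; grind
    · have := k y y2 m; grind
    · have := k _ (mul_mem x2 y2) m; grind
  · have s := bj.sw (RJ b1) (te_sq s2) b3
    rcases I a (ZR a1) a' (ZR a2) with m | m | m
    exacts [a3 (s.fix a1 m), a4 (s.fix a2 m), a5 (s.fix (mul_mem a1 a2) m)]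

theorem sw_cent : 𝒞₁ f ≤ 𝒩 C.J := by
  obtain ⟨R, pR, RC, n, ch⟩ := C.ch.core f2 fun k => hf.2 (k ▸ one_mem _)
  have dec : ∀ y ∈ 𝒩 C.J, y ∈ 𝒞₁ f → Te y → y ∈ C.J ∨ y * f ∈ C.J := fun y hy c t =>
    (em _).imp_right fun k => bj _ ((bj.sw hy t k).mul hf)
      (t.mul (pg_zp f2) (norm_zp f2 ▸ c) (mem_zpowers f))
  obtain ⟨z, z1, z', z2, z3, z4, z5⟩ := ex_Z2 q hZ true
  have key : ∀ g ∈ 𝒞₁ f, (∀ c ∈ C.D ⊓ 𝒞₁ f, g * c * g⁻¹ ∈ 𝒩 C.J) → g ∈ 𝒩 C.J := fun g hg k => by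
    have k1 : ∀ c, C.Ct c → g * c * g⁻¹ ∈ C.D → g ∈ 𝒩 C.J := fun c h h' => by
      obtain ⟨m, m1, e⟩ := h.conj hZ ⟨h', fun i k => not_conj hZ bj hf f2 (g := g⁻¹) h k (by group)⟩
      refine (mul_mem_cancel_left (inv_mem (mem_inf.1 m1).1)).1 (h.cent q hZ bj hf f2 (mem_cent1.2 ?_))
      calc _ = m⁻¹ * (g * c * g⁻¹) * g := by group
        _ = _ := by rw [← e]; group
    have k2 : ∀ c, C.Ct c → c ∈ 𝒞₁ f → g ∉ 𝒩 C.J → g * c * g⁻¹ * f ∈ C.D := fun c h h' n => by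
      have c1 := mul_mem (mul_mem hg h') (inv_mem hg)
      have c2 := conj_sq (dsq h.1) g
      refine (dec _ (k c ⟨h.1, h'⟩) c1 (te_sq c2)).elim (fun a => (n (k1 c h (hf.fixD a c2 c1))).elim)
        fun a => hf.fixD a ?_ (mul_mem c1 (self_mem_cent1 f))
      rw [mul_assoc, ← mul_assoc f, ← mem_cent1.1 c1, mul_assoc _ f, f2, mul_one, c2]
    by_contra n
    obtain ⟨a1, a2⟩ := hf.ct f2 z1 z3
    obtain ⟨b1, b2⟩ := hf.ct f2 z2 z4
    obtain ⟨c1, -⟩ := hf.ct f2 (mul_mem z1 z2) z5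
    refine n (k1 _ c1 ?_)
    have e1 := mem_cent.1 (JD (C.DJ (ZD _ (hf.conj z1)))) z' (ZD _ z2)
    have e2 := mem_cent1.1 (mul_mem (mul_mem hg b2) (inv_mem hg))
    convert mul_mem (k2 _ a1 a2 n) (k2 _ b1 b2 n) using 1
    rw [e2, mul_assoc _ f, ← mul_assoc f f, f2, one_mul]
    calc _ = g * (z * (z' * (f * z * f⁻¹)) * (f * z' * f⁻¹)) * g⁻¹ := by group
      _ = _ := by rw [e1]; group
  have X1 : C.D ⊓ 𝒞₁ f ≤ 𝒩 C.J := inf_le_left.trans (C.DJ.trans (le_norm _))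
  have PC := sup_le RC (inf_le_right : C.D ⊓ 𝒞₁ f ≤ _)
  have RJ : R ≤ 𝒩 C.J := le_sup_left.trans (le_of_norm (pgroup_sup (inf_le_right.trans n) pR
    (pJ.to_le (inf_le_left.trans C.DJ))) fun y hy k => key y (PC hy) fun c hc =>
      (conj_mem_of_norm k ⟨mem_sup_right hc, X1 hc⟩).2)
  exact fun g hg => key g hg fun c hc => RJ (conj_mem_of_norm (n hg) (ch ⟨hc.2, mem_cent.2 fun r hr =>
    mem_cent1.1 ((dec r (RJ hr) (RC hr) (te_of pR hr)).elim (fun a => cent_le_cent1 hc.1 (JD a)) fun a =>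
      (mul_mem_cancel_right (mem_cent1_comm.1 hc.2)).1 (cent_le_cent1 hc.1 (JD a)))⟩))

omit bj hf f2 in
theorem false_S : False := by
  obtain ⟨Y, T⟩ := ex_tor (lin_S hZ) q
  have nI := fun f => T.noI (f := f) q hZ
  have bj := T.bj nI
  obtain ⟨f, hf, f2⟩ := T.ex_sw nI
  obtain ⟨a, a1, a2⟩ := exists_ne_one hZ
  obtain ⟨u, -, u1⟩ := (C.sb false).exW
  obtain ⟨w, w1, w2⟩ := (C.sb true).exW
  have h1 := C.DV false (ZD _ a1)
  have h2 := conj_mem_of_norm u1.1 h1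
  obtain ⟨g, e⟩ := bj.fin hf f2 (fun e h e2 => sw_cent q hZ bj h e2) (fun e h e1 e2 =>
    Ct.cent q hZ bj hf f2 ⟨h, fun i k => e1 (hf.fix k e2)⟩) (conj_sq (vsq h2) w) fun k => by
      obtain ⟨_, _, -, k'⟩ := B_ac (i := true) (conj_mem_of_norm (le_norm _ w1) (C.JL _ (C.VJ _ h2)))
        (LB (conj_mem_of_norm (le_norm _ w1) (C.JL _ (C.VJ _ h2))) k)
      have := ((C.mo _).uniq k' ((w2.mul (b_ac true (C.VJ _ h2))).mul (w2.inv1 (by simp)))).2.2.1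
      have := (mem_D' h2).1 (mem_D ((b_zero (i := true) (C.VJ _ h2)).1 (by simpa using this.symm)) h2)
      rw [u1.2 a h1] at this
      exact Z_ne (i := false) a1 a2 (by simpa using this)
  have k : cj (g * w * u) (C.V true) ≤ 𝒞₁ f := by
    rw [← e, show g * (w * (u * a * u⁻¹) * w⁻¹) * g⁻¹ = g * w * u * a * (g * w * u)⁻¹ by group,
      ← cj_cent1]
    exact cj_mono _ ((C.mo _).abel.trans (cent_le_cent1 a1.1))
  obtain ⟨j, k'⟩ := bj.wcl hZ (k.trans (sw_cent q hZ bj hf f2))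
  exact hf.2 (JB (C.VJ j (C.CV j (le_cent1_iff.1 (k' ▸ k)))))

end Cg

end Cfsg.PU
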