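import Cfsg.Agent.PU.B4

/-! The linear configuration; conclusion. -/

set_option autoImplicit false
set_option linter.unusedSectionVars false

namespace Cfsg.PU

open Subgroup Cfsg.L0 Cfsg.FT Cfsg.LT

variable {G : Type*} [Group G] [Finite G] {F : Type*} [Field F] [Fintype F] [CharP F 2]

theorem Sb.max {K L V W J Q : Subgroup G} {p : G → F × F} (h : Sb K L V W J p) (hQ : IsPGroup 2 Q)
    (a : J ≤ Q) (b : Q ≤ L) : Q ≤ J := fun x hx => by
  obtain ⟨a', b', e, d, -, k⟩ := h.ex x (b hx)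
  obtain ⟨s, hs, k'⟩ := h.exJ 1
  have h1 := h.tr k (te_of hQ hx)
  have h2 := h.tr (k.mul k') (te_of hQ (mul_mem hx (a hs)))
  obtain rfl : e = 0 := by grind
  obtain ⟨rfl, rfl⟩ := h.te k (te_of hQ hx)
  exact (h.memJ x).2 ⟨b hx, _, k⟩

namespace Cg

variable {C : Cg F G} {i j : Bool} {c c' e f g g' h n r u v w x y z z' : G} {A P R Y : Subgroup G}

variable (C) in
noncomputable def vv (i : Bool) (s t : F) : G := ((C.mo i).sur (s, t)).choose

theorem vv_mem (i : Bool) (s t : F) : C.vv i s t ∈ C.V i := ((C.mo i).sur (s, t)).choose_spec.1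
theorem vv_p (i : Bool) (s t : F) : C.p i (C.vv i s t) = (s, t) := ((C.mo i).sur (s, t)).choose_spec.2

theorem NLV (i : Bool) : 𝒩 (C.L i) ≤ 𝒩 (C.V i) := fun g hg => by
  obtain ⟨s, hs, k⟩ := (C.sb i).exJ 1
  obtain ⟨w, hw, e⟩ := (C.sb i).exW
  have n : C.L i ≤ 𝒩 (cj g (C.V i)) := by
    rw [← cj_norm, ← cj_eq_iff.2 hg]; exact cj_mono g (C.LV i)
  exact mem_norm_of_cj_le ((le_inf le_rfl (cj_le_of_le ((C.VJ i).trans (C.JL i)) hg)).trans
    ((C.sb i).n2 (H8.isPGroup_cj (C.mo i).pg g) (n (C.JL i hs)) (te_of pJ hs) k one_ne_zero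
      (n (conj_mem_of_norm (le_norm _ hw) (C.JL i hs))) ((te_of pJ hs).conj w)
      (((e.mul k).mul (e.inv1 (by simp))).congr (by ring) (by ring) (by ring) (by ring)) one_ne_zero))

theorem J_eq (i : Bool) : C.J = C.V i ⊔ C.V (!i) :=
  le_antisymm (J_le fun j x hx => (or_V hx i).elim mem_sup_left mem_sup_right) (sup_le (C.VJ _) (C.VJ _))

variable (hZ : C.Z true = ⊥)
include hZ

theorem Z_bot (h : x ∈ C.Z i) : x = 1 := by
  cases i
  · rw [← cj_eq_bot_iff (g := C.x), sw_x.Z] at hZ; exact eq_one_of_mem hZ h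
  · exact eq_one_of_mem hZ h

theorem p_inj (hu : u ∈ C.V i) (hv : v ∈ C.V i) (e : C.p i u = C.p i v) : u = v := by
  rw [← (C.mo i).inv hu]
  exact inv_eq_of_mul_eq_one_right (Z_bot hZ ⟨mul_mem hu hv, (C.mo i).eq hu hv e⟩)

theorem vv_eq (hu : u ∈ C.V i) : u = C.vv i (C.p i u).1 (C.p i u).2 :=
  p_inj hZ hu (vv_mem _ _ _) (vv_p _ _ _).symm

theorem ac_vv {a b e d : F} : C.Ac i g a b e d ↔ LT.Ac (C.vv i) g a b e d := by
  refine ⟨fun h s t => p_inj hZ (conj_mem_of_norm h.1 (vv_mem _ _ _)) (vv_mem _ _ _)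
    (by rw [h.2 _ (vv_mem _ _ _), vv_p, vv_p]), fun h => ⟨H8.mem_normalizer_of_forall fun x hx => ?_,
      fun x hx => ?_⟩⟩
  · rw [vv_eq hZ hx, h]; exact vv_mem _ _ _
  · nth_rewrite 1 [vv_eq hZ hx]; rw [h, vv_p]

theorem sd (i : Bool) : Sd (C.L i) (C.V i) C.J (C.vv i) where
  add s t s' t' := p_inj hZ (vv_mem _ _ _) (mul_mem (vv_mem _ _ _) (vv_mem _ _ _))
    (by rw [(C.mo i).add _ (vv_mem _ _ _) _ (vv_mem _ _ _), vv_p, vv_p, vv_p]; rfl)
  inj s t e := by simpa [e, (C.mo i).one] using (vv_p (C := C) i s t).symm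
  memV x := ⟨fun h => ⟨_, _, vv_eq hZ h⟩, fun ⟨_, _, e⟩ => e ▸ vv_mem _ _ _⟩
  VL := (C.VJ i).trans (C.JL i)
  ex g hg := by simpa [← ac_vv hZ] using (C.sb i).ex g hg
  sur := by simpa [← ac_vv hZ] using (C.sb i).su
  ker := by simpa [← ac_vv hZ] using (C.sb i).kr
  memJ := by simpa [← ac_vv hZ] using (C.sb i).memJ
  syl := H8.isSyl_of_maximal (C.JL i) pJ fun Q => (C.sb i).max

theorem lin_L : C.Lin := fun i h h1 h2 => by
  obtain ⟨w, k, e1, e2, -⟩ := (sd hZ i).norm (sd hZ (!i)) (J_eq i)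
  obtain ⟨a, b, c, d, -, e⟩ := k.ex h h1
  refine ⟨a, fun v hv => ?_⟩
  have h3 := C.DV i (conj_mem_of_norm (B_D h2) hv)
  have h4 := C.DV i hv
  rw [vv_eq hZ h4, (mem_D' h4).1 hv, ← e1, e] at h3 ⊢
  rw [((sd hZ i).uniq (e2 _ _) ((sd hZ i).ac_iff.2 ((C.mo i).abel h3))).2.1, e1, e1, vv_p, vv_p]
  simp

theorem ex_cf (q : 2 < Fintype.card F) : ∃ C' : Cf F G, C'.V = C.V ∧ C'.J = C.J ∧ C'.Cv := by
  obtain ⟨w, k, e1, e2, e3⟩ := (sd hZ true).norm (sd hZ false) (J_eq true)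
  exact ⟨⟨C.L, C.V, C.J, fun i => cond i (C.vv true) w, fun i => by cases i; exacts [k, sd hZ true], e1,
    fun i => by cases i; exacts [e3, e2], C.VJ, fun i => le_antisymm (C.NL2 q i) (NLV i), C.ch, q⟩,
    rfl, rfl, ⟨C.CV⟩⟩

theorem false_L (q : 4 < Fintype.card F) : False := by
  obtain ⟨C', eV, eJ, _⟩ := ex_cf hZ (by omega)
  obtain ⟨Y, T⟩ := ex_tor (lin_L hZ) (by omega)
  have nI : ∀ f ∈ C.B, f ∈ 𝒩 Y → f * f = 1 → f = 1 := fun f h1 h2 f2 => by_contra fun f1 => by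
    obtain ⟨r, r1, r2, -, r3⟩ := Cf.OI (C := C') q (eJ ▸ h1.1) (fun k => f1 (T.NJ1 (eJ ▸ k) h2)) f2
    obtain ⟨v, hv, e⟩ := (C.mo true).sur (1, 0)
    choose s c β γ s1 s2 s3 s4 c1 c2 c3 c4 c5 using fun i => T.fc i le_rfl (ne_bot_of_mem
      ((mem_D' hv).2 (by rw [e])) fun k => by simpa [k, (C.mo _).one] using e.symm) (fun x _ => Z_bot hZ) B_D h1 h2
      (te_sq f2)
    rw [eJ] at r1 r3
    have key : ∀ g ∈ 𝒞₁ f, ∀ j, g * r * g⁻¹ ∈ C.V j := fun g hg j => by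
      have k1 := (r3 g hg).1
      have k2 := b_ac j (r3 _ (mul_mem (c2 j) hg)).1
      rw [show c j * g * r * (c j * g)⁻¹ = c j * (g * r * g⁻¹) * (c j)⁻¹ by group] at k2
      have := ((C.mo j).uniq k2 (((c5 j).mul (b_ac j k1)).mul ((c5 j).inv1 (by simp)))).2.2.1
      have := c4 j
      exact (b_zero k1).1 (by grind)
    have k1 : ∀ j, r ∈ C.V j := by simpa using key 1 (one_mem _)
    have k2 := (C.dd true _ (key _ (c2 true) true)).1 (key _ (c2 true) _)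
    have k3 := (C.dd true _ (k1 _)).1 (k1 _)
    rw [(c5 _).2 r (k1 _), k3] at k2
    exact r2 (Z_bot hZ ((mem_Z (k1 true)).2 (Prod.ext (by simpa [c4] using k2) k3)))
  have bj := T.bj nI
  obtain ⟨f, hf, f2⟩ := T.ex_sw nI
  obtain ⟨a, a1, a2⟩ := C.sr true 1
  obtain ⟨w, w1, w2⟩ := (C.sb true).exW
  have h1 := conj_mem_of_norm (le_norm _ w1) (C.JL true (C.VJ _ a1))
  obtain ⟨g, e⟩ := bj.fin hf f2 (fun e h e2 => by
      obtain ⟨σ, m, d⟩ := Cf.dt_nv (C := C') (i := true) (eJ ▸ h.1) (eV ▸ fun k => h.2 ⟨h.1, k⟩)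
      exact eJ ▸ Cf.OI2 q d e2) (fun e h e1 _ => eJ ▸ Cf.CZ (C := C') q (by rwa [Cf.Z, eV]) e1)
    (conj_sq (vsq a1) w) fun k => by
      obtain ⟨_, _, -, k'⟩ := B_ac h1 (LB h1 k)
      simpa using ((C.mo _).uniq k' ((w2.mul a2).mul (w2.inv1 (by simp)))).2.2.1
  have := Cf.DN (C := C') (g := g * w) q (eJ ▸ C.VJ _ a1) (vsq a1)
  rw [show g * w * a * (g * w)⁻¹ = g * (w * a * w⁻¹) * g⁻¹ by group, e, eJ] at this
  exact hf.2 (JB (this hf.1))

omit hZ in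
theorem sec (C : Cg F G) : SectionalPRankLE 2 4 G := by
  obtain ⟨n, -, e⟩ := FiniteField.card F 2
  have h1 : Fintype.card F = 2 ∨ Fintype.card F = 4 ∨ 4 < Fintype.card F := by
    obtain ⟨_ | _ | _ | n, h⟩ := n
    · omega
    · exact .inl e
    · exact .inr (.inl e)
    · have := Nat.two_pow_pos n
      refine .inr (.inr ?_)
      rw [e]; change 4 < 2 ^ (n + 3); rw [pow_add]; omega
  by_cases hZ : C.Z true = ⊥
  · rcases h1 with q | q | q
    · exact sec_L2 q hZ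
    · obtain ⟨C', -, -, _⟩ := ex_cf hZ (by omega)
      exact C'.rank4 q
    · exact (false_L hZ q).elim
  · exact h1.elim (sec_S2 hZ) fun q => (false_S (by omega) hZ).elim

end Cg

end Cfsg.PU
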