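import Cfsg.Agent.PU.B5

/-! A block and its conjugate under the normalizer of a Sylow subgroup. -/

set_option autoImplicit false
set_option linter.unusedSectionVars false

namespace Cfsg.PU

open Subgroup Cfsg.L0 Cfsg.FT Cfsg.LT

variable {G : Type*} [Group G] [Finite G] {F : Type*} [Field F] [Fintype F] [CharP F 2]
  {A T H K U Q L J V W H' K' U' Q' L' : Subgroup G} {p p' : G → F × F} {g k s t u v x y : G} {a b e d : F}

/-- trivial action on the section -/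
def Tr (U K : Subgroup G) (g : G) : Prop := ∀ u ∈ U, g * u * g⁻¹ * u⁻¹ ∈ 𝒞 K

theorem Tr.mul (h : Tr U K g) (h' : Tr U K s) (n : g ∈ 𝒩 K) : Tr U K (g * s) := fun u hu => by
  convert mul_mem (conj_mem_of_norm (norm_le_norm_cent _ n) (h' u hu)) (h u hu) using 1; group
theorem Tr.conj (h : Tr U K g) (n : s ∈ 𝒩 K) (n' : s ∈ 𝒩 U) : Tr U K (s * g * s⁻¹) := fun u hu => by
  convert conj_mem_of_norm (norm_le_norm_cent _ n) (h _ (conj_mem_of_norm' n' hu)) using 1; group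
theorem Tr.inv (h : Tr U K g) (n : g ∈ 𝒩 K) : Tr U K g⁻¹ := fun u hu => by
  convert conj_mem_of_norm' (norm_le_norm_cent _ n) (inv_mem (h u hu)) using 1; group
theorem tr_cent (h : g ∈ 𝒞 U) : Tr U K g := fun u hu => by simp [← mem_cent.1 h u hu]
theorem Mo.toTr (h : Mo U K p) (k : Ac U p g 1 0 0 1) : Tr U K g := fun u hu => by
  rw [h.inv hu]; exact h.eq (conj_mem_of_norm k.1 hu) hu (by simpa using k.2 u hu)

structure Rw (T H K U Q : Subgroup G) : Prop where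
  syl : H8.IsSyl 2 T H
  KH : K ≤ H
  HK : H ≤ 𝒩 K
  Hle : H ≤ K ⊔ T
  NU : 𝒩 K ≤ 𝒩 U
  sq : ∀ u ∈ U, u * u = 1
  UK : U ≤ K
  UQ : U ≤ Q
  QT : Q ≤ T
  HQ : H ≤ 𝒩 Q
  QK : ⁅K, Q⁆ ≤ U
  QU : Q ≤ 𝒞 U
  faith : ∀ g ∈ K, Tr U K g → g ∈ U
  hs : ∀ t ∈ 𝒩 K, t ∈ 𝒩 Q → Te t → (∀ k ∈ K, t * k * t⁻¹ * k⁻¹ ∈ U) → t ∈ Q
  un : ∀ C : Subgroup G, IsPGroup 2 C → C ≠ ⊥ → H ≤ 𝒩 C → 𝒩 C ≤ 𝒩 K
  mq : ∃ R ≤ Q, 𝒩 K ≤ 𝒩 R ∧ 𝒞 R ≤ R
  ne : U ≠ ⊥

namespace Rw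
variable (r : Rw T H K U Q)
include r

theorem cj (hx : x ∈ 𝒩 T) : Rw T (cj x H) (cj x K) (cj x U) (cj x Q) := by
  have e := cj_eq_iff.2 hx
  obtain ⟨R, r1, r2, r3⟩ := r.mq
  refine ⟨e ▸ r.syl.cj x, cj_mono x r.KH, cj_norm x K ▸ cj_mono x r.HK,
    by rw [← e, ← cj_sup]; exact cj_mono x r.Hle, by rw [← cj_norm, ← cj_norm]; exact cj_mono x r.NU, ?_,
    cj_mono x r.UK, cj_mono x r.UQ, e ▸ cj_mono x r.QT, cj_norm x Q ▸ cj_mono x r.HQ,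
    cj_commutator x K Q ▸ cj_mono x r.QK, cj_cent x U ▸ cj_mono x r.QU, ?_, ?_, fun C h1 h2 h3 => ?_,
    ⟨_, cj_mono x r1, by rw [← cj_norm, ← cj_norm]; exact cj_mono x r2, cj_cent x R ▸ cj_mono x r3⟩,
    by rw [Ne, cj_eq_bot_iff]; exact r.ne⟩
  · rintro _ ⟨u, hu, rfl⟩; exact conj_sq (r.sq u hu) x
  · rintro _ ⟨g, hg, rfl⟩ h
    refine conj_mem_cj (r.faith g hg fun u hu => ?_)
    have := h _ (conj_mem_cj hu)
    rw [← cj_cent, mem_cj] at this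
    simpa [mul_assoc] using this
  · intro t h1 h2 h3 h4
    rw [← cj_norm, mem_cj] at h1 h2
    refine mem_cj.2 (r.hs _ h1 h2 (by simpa using h3.conj x⁻¹) fun k hk => ?_)
    simpa [mul_assoc] using mem_cj.1 (h4 _ (conj_mem_cj hk))
  · rw [← cj_norm, le_cj_iff, cj_norm]
    exact r.un _ (H8.isPGroup_cj h1 _) (by rwa [Ne, cj_eq_bot_iff]) (by rwa [← cj_norm, ← cj_le_iff])

theorem pT : IsPGroup 2 T := r.syl.isPGroup
theorem TH : T ≤ H := r.syl.le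
theorem TK : T ≤ 𝒩 K := r.TH.trans r.HK
theorem TU : T ≤ 𝒩 U := r.TK.trans r.NU
theorem TQ : T ≤ 𝒩 Q := r.TH.trans r.HQ
theorem UT : U ≤ T := r.UQ.trans r.QT
theorem pQ : IsPGroup 2 Q := r.pT.to_le r.QT
theorem abel : U ≤ 𝒞 U := r.UQ.trans r.QU
theorem NQ : 𝒩 Q ≤ 𝒩 K := r.un Q r.pQ (fun e => r.ne (eq_bot_of_le e r.UQ)) r.HQ
theorem CQ : 𝒞 Q ≤ Q := by
  obtain ⟨R, r1, -, r3⟩ := r.mq
  exact (cent_anti r1).trans (r3.trans r1)
theorem le_norm (h1 : K ≤ A) (h2 : T ≤ A) : H ≤ A := r.Hle.trans (sup_le h1 h2)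

theorem tr_Q (h1 : t ∈ 𝒩 Q) (h2 : Te t) (h3 : Tr U K t) : t ∈ Q := by
  have n := r.NQ h1
  refine r.hs t n h1 h2 fun k hk => r.faith _ (mul_mem (conj_mem_of_norm n hk) (inv_mem hk)) ?_
  have := h3.mul ((h3.inv n).conj (FT.le_norm _ hk) (r.NU (FT.le_norm _ hk))) n
  simpa [mul_assoc] using this

theorem tr_T (h : t ∈ T) (h3 : Tr U K t) : t ∈ Q := r.tr_Q (r.TQ h) (te_of r.pT h) h3

theorem tr_H (o : ∀ x ∈ H, Odd (orderOf x) → x ∈ K) (h : g ∈ H) (h3 : Tr U K g) : g ∈ Q := by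
  obtain ⟨k, hk⟩ := H8.exists_pow_coprime 2 g
  have h4 : ∀ n : ℕ, Tr U K (g ^ n) := fun n => by
    induction n with
    | zero => simpa using tr_cent (one_mem _)
    | succ n ih => rw [pow_succ']; exact h3.mul ih (r.HK h)
  have o' := Nat.coprime_two_right.1 hk
  exact r.tr_Q (r.HQ h) ⟨k, (te_sq (r.sq _ (r.faith _ (o _ (pow_mem h _) o') (h4 _)))).eq_one o'⟩ h3

theorem cm (hk : k ∈ K) (h : g ∈ Q) : k * g * k⁻¹ * g⁻¹ ∈ U := r.QK (commutator_mem_commutator hk h)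

end Rw

/-- two blocks -/
structure Tw (T H K U Q H' K' U' Q' : Subgroup G) : Prop where
  l : Rw T H K U Q
  r : Rw T H' K' U' Q'
  no : ∀ A ≤ T, H ≤ 𝒩 A → H' ≤ 𝒩 A → A = ⊥

namespace Tw
variable (w : Tw T H K U Q H' K' U' Q')
include w

theorem symm : Tw T H' K' U' Q' H K U Q := ⟨w.r, w.l, fun A h h1 h2 => w.no A h h2 h1⟩

theorem nle : ¬ U' ≤ Q := fun h => by
  have h' : U ≤ Q' := fun u hu => w.r.tr_T (w.l.UT hu) (tr_cent (cent_symm (h.trans w.l.QU) hu))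
  have k : ∀ {H K U Q U' : Subgroup G}, Rw T H K U Q → U' ≤ Q → T ≤ 𝒩 U' → H ≤ 𝒩 (U ⊔ U') :=
    fun r h n => r.le_norm (fun g hg => mem_norm_of_cj_le (by
      rw [cj_sup]
      refine sup_le (le_sup_of_le_left (cj_eq_iff.2 (r.NU (le_norm _ hg))).le) ?_
      rintro _ ⟨x, hx, rfl⟩
      simpa using mul_mem (mem_sup_left (r.cm hg (h hx))) (mem_sup_right hx))) (le_norm_sup r.TU n)
  exact w.l.ne (eq_bot_of_le (w.no _ (sup_le w.l.UT w.r.UT) (k w.l h w.r.TU)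
    (sup_comm U' U ▸ k w.r h' w.l.TU)) le_sup_left)

theorem cmU (hu : u ∈ U) (hv : v ∈ U') : v * u * v⁻¹ * u ∈ U ⊓ U' :=
  ⟨mul_mem (conj_mem_of_norm (w.l.TU (w.r.UT hv)) hu) hu, by
    have := mul_mem hv (conj_mem_of_norm (w.r.TU (w.l.UT hu)) (inv_mem hv))
    rwa [inv_eq_of_mul_eq_one_left (w.l.sq u hu), ← mul_assoc, ← mul_assoc] at this⟩

end Tw

theorem ac_cj : Ac (cj x V) (fun g => p (x⁻¹ * g * x)) g a b e d ↔ Ac V p (x⁻¹ * g * x) a b e d := by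
  rw [Ac, Ac, ← cj_norm, mem_cj]
  refine and_congr_right fun _ => ⟨fun h v hv => ?_, ?_⟩
  · simpa [mul_assoc] using h _ (conj_mem_cj hv)
  · rintro h _ ⟨v, hv, rfl⟩
    simpa [mul_assoc] using h v hv

theorem Sb.cj (h : Sb K L V W J p) (x : G) :
    Sb (cj x K) (cj x L) (cj x V) (cj x W) (cj x J) fun g => p (x⁻¹ * g * x) where
  add u hu v hv := by rw [← h.add _ (mem_cj.1 hu) _ (mem_cj.1 hv)]; congr 1; group
  sur a := by
    obtain ⟨v, hv, e⟩ := h.sur a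
    exact ⟨_, conj_mem_cj hv, by simpa [mul_assoc] using e⟩
  ker v hv := by rw [← cj_cent, mem_cj]; exact h.ker _ (mem_cj.1 hv)
  sq := by rintro _ ⟨u, hu, rfl⟩; exact conj_sq (h.sq u hu) x
  ex g hg := by simpa only [ac_cj] using h.ex _ (mem_cj.1 hg)
  su a b e d k := by
    obtain ⟨g, hg, e⟩ := h.su a b e d k
    exact ⟨_, conj_mem_cj hg, ac_cj.2 (by simpa [mul_assoc] using e)⟩
  kr g hg k := mem_cj.2 (h.kr _ (mem_cj.1 hg) (ac_cj.1 k))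
  WJ := cj_mono x h.WJ
  memJ y := by simpa only [ac_cj, mem_cj] using h.memJ _

end Cfsg.PU
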