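import Cfsg.Agent.PU.C1

/-! Two linear blocks. -/

set_option autoImplicit false
set_option linter.unusedSectionVars false

namespace Cfsg.PU

open Subgroup Cfsg.L0 Cfsg.FT Cfsg.LT

variable {G : Type*} [Group G] [Finite G] {F : Type*} [Field F] [Fintype F] [CharP F 2]
  {A T H K U Q L J V W H' K' U' Q' L' : Subgroup G} {p p' : G → F × F} {g k s t u v x y : G} {a b e d : F}

structure Ls (T H K U Q L : Subgroup G) (p : G → F × F) : Prop extends Sb K L U Q (T ⊓ L) p where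
  KL : K ≤ L
  LH : L ≤ H
  TL : T ≤ 𝒩 L
  Lle : L ≤ K ⊔ T ⊓ L
  L2 : 2 < Fintype.card F → L ≤ K ⊔ Q

theorem Ls.cj (c : Ls T H K U Q L p) (hx : x ∈ 𝒩 T) :
    Ls T (cj x H) (cj x K) (cj x U) (cj x Q) (cj x L) fun g => p (x⁻¹ * g * x) := by
  have e := cj_eq_iff.2 hx
  refine ⟨by simpa only [cj_inf, e] using c.toSb.cj x, cj_mono x c.KL, cj_mono x c.LH, ?_, ?_,
    fun q => cj_sup x K Q ▸ cj_mono x (c.L2 q)⟩
  · simpa only [cj_norm, e] using cj_mono x c.TL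
  · simpa only [cj_sup, cj_inf, e] using cj_mono x c.Lle

open Classical in
/-- coordinates on the radical -/
noncomputable def ext (U L : Subgroup G) (p : G → F × F) (g : G) : F × F :=
  if h : ∃ u ∈ U, u * g ∈ 𝒞 L then p h.choose else 0

theorem ext_eq (c : Mo U K p) (h : K ≤ L) (hu : u ∈ U) (k : u * g ∈ 𝒞 L) : ext U L p g = p u := by
  have e : ∃ u ∈ U, u * g ∈ 𝒞 L := ⟨u, hu, k⟩
  have := (c.ker _ (mul_mem e.choose_spec.1 hu)).2 (cent_anti h (by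
    simpa [mul_assoc, c.inv hu] using mul_mem e.choose_spec.2 (inv_mem k)))
  rw [c.add _ e.choose_spec.1 _ hu, Prod.ext_iff] at this
  rw [ext, dif_pos e]
  simp at this
  ext <;> grind

namespace Ls
variable (r : Rw T H K U Q) (c : Ls T H K U Q L p)
include c

theorem TJ : T ≤ 𝒩 (T ⊓ L) := le_norm_inf (le_norm _) c.TL
theorem krJ (h : s ∈ T ⊓ L) (h' : v ∈ T ⊓ L) (k : Ac U p s 1 b 0 1) (k' : Ac U p v 1 b 0 1) : s * v ∈ Q :=
  c.kr _ (mul_mem h h').2 ((k.mul k').congr (by ring) (by grind) (by ring) (by ring))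

include r

theorem inJ (ht : t ∈ T) (h : ∀ v ∈ U, (p v).2 = 0 → p (t * v * t⁻¹) = p v) : t ∈ T ⊓ L := by
  obtain ⟨b, d, k⟩ := c.lin0 (r.TU ht) (c.TL ht) (c.TJ ht) h
  obtain ⟨-, rfl⟩ := c.te k (te_of r.pT ht)
  obtain ⟨j, hj, k'⟩ := c.exJ b
  exact (mul_mem_cancel_right hj).1 (c.WJ (r.tr_T (mul_mem ht hj.1) (c.toTr
    ((k.mul k').congr (by ring) (by grind) (by ring) (by ring)))))

theorem fixl (ht : t ∈ T) (k : Ac U p s 1 b 0 1) (b0 : b ≠ 0)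
    (h : ∀ u ∈ U, s * u * s⁻¹ * u * t = t * (s * u * s⁻¹ * u)) : t ∈ T ⊓ L :=
  c.inJ r ht fun v hv e => by
    obtain ⟨u, hu, e'⟩ := c.sur (0, (p v).1 / b)
    have h1 : p v = p (s * u * s⁻¹ * u) := by rw [c.cm k hu, e']; ext <;> simp [e]; field_simp
    rw [c.cong (r.TU ht) (r.TK ht) hv (mul_mem (conj_mem_of_norm k.1 hu) hu) h1, ← h u hu,
      mul_inv_cancel_right, h1]

end Ls

namespace Tw
variable (w : Tw T H K U Q H' K' U' Q') (c : Ls T H K U Q L p) (c' : Ls T H' K' U' Q' L' p')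
include w c

theorem UJ : U' ≤ T ⊓ L := fun t ht => by
  have h0 := w.r.UT ht
  by_cases h : ∃ s ∈ U', s ∈ T ⊓ L ∧ s ∉ Q
  · obtain ⟨s, s1, s2, s3⟩ := h
    obtain ⟨-, b, k⟩ := (c.memJ s).1 s2
    exact c.fixl w.l h0 k (fun e => s3 (c.kr s s2.2 (e ▸ k))) fun u hu =>
      mem_cent.1 (w.r.abel ht) _ (w.cmU hu s1).2
  obtain ⟨u, hu, e⟩ := c.sur (0, 1)
  have key : ∀ v ∈ U, (p v).2 = 0 → p (t * v * t⁻¹) = ((p v).1 * (p (t * u * t⁻¹)).2, 0) := fun v hv e' => by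
    obtain ⟨j, hj, k⟩ := c.exJ (p v).1
    have h1 : t * j * t⁻¹ * j⁻¹ ∈ Q := by_contra fun n => h ⟨_, by
      simpa [mul_assoc] using mul_mem ht (conj_mem_of_norm (w.r.TU hj.1) (inv_mem ht)),
      mul_mem (conj_mem_of_norm (c.TJ h0) hj) (inv_mem hj), n⟩
    have h2 := (ac_cent (p := p) (w.l.QU h1)).mul k
    rw [inv_mul_cancel_right] at h2
    rw [c.cong (w.l.TU h0) (w.l.TK h0) hv (mul_mem (conj_mem_of_norm k.1 hu) hu)
      (by rw [c.cm k hu, e]; ext <;> simp [e']), show t * (j * u * j⁻¹ * u) * t⁻¹ =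
      t * j * t⁻¹ * (t * u * t⁻¹) * (t * j * t⁻¹)⁻¹ * (t * u * t⁻¹) by group,
      c.cm (h2.congr (by ring) (by ring) (by ring) (by ring)) (conj_mem_of_norm (w.l.TU h0) hu)]
  obtain ⟨v, hv, e'⟩ := c.sur (1, 0)
  have k1 := key v hv (by rw [e'])
  have k2 := key _ (conj_mem_of_norm (w.l.TU h0) hv) (by rw [k1])
  rw [show t * (t * v * t⁻¹) * t⁻¹ = t * t * v * (t * t)⁻¹ by group, w.r.sq t ht, k1, e'] at k2
  simp [e'] at k2
  refine c.inJ w.l h0 fun v hv e => ?_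
  rw [key v hv e]
  ext
  · simp; grind
  · simp [e]

theorem ex_s : ∃ s ∈ U', ∃ b, b ≠ 0 ∧ Ac U p s 1 b 0 1 := by
  obtain ⟨s, s1, s2⟩ := SetLike.not_le_iff_exists.1 w.nle
  obtain ⟨h, b, k⟩ := (c.memJ s).1 (w.UJ c s1)
  exact ⟨s, s1, b, fun e => s2 (c.kr s h (e ▸ k)), k⟩

include c'

theorem onto : (∀ t, ∃ u ∈ U, Ac U' p' u 1 t 0 1) ∧ ∀ v ∈ U, v ∈ Q' ↔ (p v).2 = 0 := by
  obtain ⟨s, s1, b, b0, k⟩ := w.ex_s c
  have k1 : ∀ v ∈ U, v ∈ Q' → (p v).2 = 0 := fun v hv h => by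
    have := c.cm k hv
    rw [mem_cent.1 (w.r.QU h) s s1, mul_inv_cancel_right, c.sq v hv, c.one, Prod.ext_iff] at this
    simpa [b0] using this.1
  have hJ := w.symm.UJ c'
  choose β hβ using fun v (h : v ∈ U) => ((c'.memJ v).1 (hJ h)).2
  choose u hu e using fun y : F => c.sur (0, y)
  have k2 : ∀ v hv y, β v hv = β _ (hu y) → (p v).2 = y := fun v hv y h => by
    have := k1 _ (mul_mem hv (hu y)) (c'.krJ (hJ hv) (hJ (hu y)) (hβ v hv) (h ▸ hβ _ (hu y)))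
    rw [c.add _ hv _ (hu y), e] at this
    simp at this; grind
  have sur : Function.Surjective fun y => β _ (hu y) :=
    Finite.injective_iff_surjective.1 fun y y' h => by simpa [e] using k2 _ _ _ h
  refine ⟨fun t => (sur t).elim fun y h => ⟨_, hu y, h ▸ hβ _ _⟩, fun v hv => ⟨k1 v hv, fun h => ?_⟩⟩
  obtain ⟨y, h1⟩ := sur (β v hv)
  obtain ⟨y', h2⟩ := sur 0
  obtain rfl : 0 = y := h.symm.trans (k2 _ _ _ h1.symm)
  have h3 := hβ _ (hu y')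
  simp only at h1 h2
  have h4 := k1 _ (hu y') (c'.kr _ (hJ (hu y')).2 (h2 ▸ h3))
  rw [e] at h4
  subst h4
  exact c'.kr _ (hJ hv).2 ((hβ v hv).congr rfl (h1.symm.trans h2) rfl rfl)

theorem QJ : Q ≤ T ⊓ L' := fun q hq => by
  obtain ⟨s, s1, b, b0, k⟩ := w.symm.ex_s c'
  exact c'.fixl w.r (w.l.QT hq) k b0 fun u hu => mem_cent.1 (w.l.QU hq) _ (w.symm.cmU hu s1).2

theorem decJ (h : g ∈ T ⊓ L') : ∃ u ∈ U, u * g ∈ Q' := by
  obtain ⟨-, b, k⟩ := (c'.memJ g).1 h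
  obtain ⟨u, hu, k'⟩ := (w.onto c c').1 b
  exact ⟨u, hu, c'.krJ (w.symm.UJ c' hu) h k' k⟩

theorem JJ : T ⊓ L' ≤ T ⊓ L := fun g h => by
  obtain ⟨u, hu, k⟩ := w.decJ c c' h
  exact (mul_mem_cancel_left (c.WJ (w.l.UQ hu))).1 (w.symm.QJ c' c k)

theorem Jeq : T ⊓ L' = T ⊓ L := le_antisymm (w.JJ c c') (w.symm.JJ c' c)

theorem sq0 (hg : g ∈ H) (h : x ∈ Q) : ∃ d ∈ Q ⊓ Q', d * d = g * (x * x) * g⁻¹ := by
  have h1 := conj_mem_of_norm (w.l.HQ hg) h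
  obtain ⟨u, hu, k⟩ := w.decJ c c' (w.QJ c c' h1)
  refine ⟨_, ⟨mul_mem (w.l.UQ hu) h1, k⟩, ?_⟩
  rw [mul_assoc u, ← mul_assoc _ u, ← mem_cent.1 (w.l.QU h1) u hu, mul_assoc u, ← mul_assoc u, c.sq u hu]
  group

theorem sqQ (x : G) (h : x ∈ Q) : x * x = 1 := by
  refine eq_one_of_mem (w.no (closure {y | ∃ d ∈ Q ⊓ Q', d * d = y}) ((closure_le _).2 ?_)
    (fun g hg => mem_norm_closure ?_) fun g hg => mem_norm_closure ?_)
    (subset_closure (by simpa using w.sq0 c c' (one_mem _) h))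
  · rintro _ ⟨d, hd, rfl⟩; exact w.l.QT (mul_mem hd.1 hd.1)
  · rintro _ ⟨d, hd, rfl⟩; exact w.sq0 c c' hg hd.1
  · rintro _ ⟨d, hd, rfl⟩; exact inf_comm Q' Q ▸ w.symm.sq0 c' c hg hd.2

theorem abQ : Q ≤ 𝒞 Q := fun x hx => mem_cent.2 fun y hy => (Cf.elem (w.sqQ c c')).2 y hy x hx

theorem DJ : Q ⊓ Q' ≤ 𝒞 (T ⊓ L) := cent_symm fun g h => by
  obtain ⟨u, hu, k⟩ := w.symm.decJ c' c h
  exact (mul_mem_cancel_left (cent_anti inf_le_right (w.symm.abQ c' c (w.r.UQ hu)))).1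
    (cent_anti inf_le_left (w.abQ c c' k))

theorem decQ (h : g ∈ Q) : ∃ u ∈ U, u * g ∈ 𝒞 L := by
  obtain ⟨u, hu, k⟩ := w.decJ c c' (w.QJ c c' h)
  have hd : u * g ∈ Q ⊓ Q' := ⟨mul_mem (w.l.UQ hu) h, k⟩
  obtain ⟨s, hs, s1⟩ := c.exW
  have he : s * (u * g) * s⁻¹ * (u * g)⁻¹ ∈ U := by
    obtain ⟨k, hk, j, hj, rfl⟩ := (mem_sup_l (inf_le_left.trans w.l.TK)).1 (c.Lle hs)
    rw [show k * j * (u * g) * (k * j)⁻¹ = k * (j * (u * g) * j⁻¹) * k⁻¹ by group,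
      mem_cent.1 (w.DJ c c' hd) j hj, mul_inv_cancel_right]
    exact w.l.cm hk hd.1
  obtain ⟨x, hx, e⟩ := c.sur ((p (s * (u * g) * s⁻¹ * (u * g)⁻¹)).2, 0)
  have o := (w.onto c c').2
  have h1 := conj_mem_of_norm s1.1 hx
  have h2 := w.DJ c c' (mul_mem ⟨w.l.UQ (mul_mem h1 he), (o _ (mul_mem h1 he)).2 (by
    rw [c.add _ h1 _ he, s1.2 x hx, e]; simp [CharTwo.add_self_eq_zero])⟩ hd)
  refine ⟨_, mul_mem hx hu, le_cent1_iff.1 (c.L_le (le_cent1_iff.2 (w.DJ c c' (mul_assoc x u g ▸ mul_mem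
    ⟨w.l.UQ hx, (o x hx).2 (by rw [e])⟩ hd))) (inv_mem hs) (s1.inv1 (by simp)) ?_)⟩
  rw [cj_le_iff, inv_inv, cj_cent1, le_cent1_iff]
  convert h2 using 1; group

theorem ac_ext (n : g ∈ 𝒩 L) (n' : g ∈ 𝒩 Q) (k : Ac U p g a b e d) : Ac Q (ext U L p) g a b e d :=
  ⟨n', fun v hv => by
    obtain ⟨u, hu, h⟩ := w.decQ c c' hv
    rw [ext_eq c.toMo c.KL hu h, ext_eq c.toMo c.KL (conj_mem_of_norm k.1 hu)
      (by rw [conj_mul]; exact conj_mem_of_norm (norm_le_norm_cent _ n) h), k.2 u hu]⟩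

omit c' in
theorem ext_U (hu : u ∈ U) : ext U L p u = p u := ext_eq c.toMo c.KL hu (c.sq u hu ▸ one_mem _)

omit c' in
theorem ac_res (k : Ac Q (ext U L p) g a b e d) : Ac U p g a b e d := by
  have n := w.l.NU (w.l.NQ k.1)
  exact ⟨n, fun v hv => by rw [← w.ext_U c hv, ← k.2 v (w.l.UQ hv), w.ext_U c (conj_mem_of_norm n hv)]⟩

theorem ac_iff (h : g ∈ L) : Ac Q (ext U L p) g a b e d ↔ Ac U p g a b e d :=
  ⟨w.ac_res c, w.ac_ext c c' (le_norm _ h) (w.l.HQ (c.LH h))⟩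

theorem ZL (hu : u ∈ U) (h : p u = 0) : u ∈ 𝒞 L :=
  cent_anti c.Lle (cent_sup K _ ▸ ⟨(c.ker u hu).1 h,
    w.DJ c c' ⟨w.l.UQ hu, ((w.onto c c').2 u hu).2 (by rw [h]; rfl)⟩⟩)

theorem sb : Sb L L Q Q (T ⊓ L) (ext U L p) where
  add u hu v hv := by
    obtain ⟨x, hx, h⟩ := w.decQ c c' hu
    obtain ⟨y, hy, h'⟩ := w.decQ c c' hv
    rw [ext_eq c.toMo c.KL hx h, ext_eq c.toMo c.KL hy h', ← c.add x hx y hy]
    refine ext_eq c.toMo c.KL (mul_mem hx hy) ?_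
    rw [mul_assoc, ← mul_assoc y, mem_cent.1 (w.l.QU hu) y hy]
    simpa [mul_assoc] using mul_mem h h'
  sur a := (c.sur a).imp fun _ h => ⟨w.l.UQ h.1, (w.ext_U c h.1).trans h.2⟩
  ker v hv := by
    obtain ⟨x, hx, h⟩ := w.decQ c c' hv
    rw [ext_eq c.toMo c.KL hx h]
    exact ⟨fun k => (mul_mem_cancel_left (w.ZL c c' hx k)).1 h,
      fun k => (c.ker x hx).2 (cent_anti c.KL ((mul_mem_cancel_right k).1 h))⟩
  sq := w.sqQ c c'
  ex g hg := by simpa only [w.ac_iff c c' hg] using c.ex g hg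
  su a b e d k := (c.su a b e d k).imp fun _ h => ⟨h.1, (w.ac_iff c c' h.1).2 h.2⟩
  kr g hg k := c.kr g hg (w.ac_res c k)
  WJ := c.WJ
  memJ x := (c.memJ x).trans (and_congr_right fun h => by simp only [w.ac_iff c c' h])

theorem side : (∀ t, ∃ v ∈ Q', Ac Q (ext U L p) v 1 t 0 1) ∧ (∀ v ∈ Q, v ∈ Q' ↔ (ext U L p v).2 = 0) ∧
    𝒩 (T ⊓ L) ⊓ 𝒩 Q ≤ 𝒩 L ∧ (2 < Fintype.card F → 𝒩 Q ≤ 𝒩 L) ∧
    (∀ t, t ∈ 𝒩 (T ⊓ L) → Te t → Ac Q (ext U L p) t 1 0 0 1 → t ∈ Q) ∧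
    (Q ⊓ 𝒞 L ≠ ⊥ → ∃ z ∈ Q ⊓ 𝒞 L, z ≠ 1 ∧ 𝒞₁ z ≤ 𝒩 Q) := by
  refine ⟨fun t => ((w.symm.onto c' c).1 t).imp fun v h => ⟨w.r.UQ h.1,
    (w.ac_iff c c' (w.UJ c h.1).2).2 h.2⟩, fun v hv => ?_, ?_, fun q => ?_,
    fun t _ h k => w.l.tr_Q k.1 h (c.toTr (w.ac_res c k)), fun h => ?_⟩
  · obtain ⟨x, hx, h⟩ := w.decQ c c' hv
    rw [ext_eq c.toMo c.KL hx h, ← (w.onto c c').2 x hx]
    have := w.r.tr_T (w.l.QT (mul_mem (w.l.UQ hx) hv))
      (tr_cent (cent_anti ((w.UJ c).trans inf_le_right) h))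
    exact ⟨fun k => (mul_mem_cancel_right k).1 this, fun k => (mul_mem_cancel_left k).1 this⟩
  · nth_rewrite 2 [le_antisymm c.Lle (sup_le c.KL inf_le_right)]
    exact le_norm_sup (inf_le_right.trans w.l.NQ) inf_le_left
  · rw [le_antisymm (c.L2 q) (sup_le c.KL (c.WJ.trans inf_le_right))]
    exact le_norm_sup w.l.NQ le_rfl
  · obtain ⟨z, z1, z2, z3, z4⟩ := ex_fix w.l.pT (w.l.pQ.to_le inf_le_left)
      (le_norm_inf w.l.TQ (le_norm_cent c.TL)) h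
    obtain ⟨R, r1, r2, r3⟩ := w.l.mq
    have := w.l.un _ (pg_zp z4) (ne_bot_of_mem (mem_zpowers z) z2) (norm_zp z4 ▸ w.l.le_norm
      (le_cent1_iff.2 (cent_anti c.KL z1.2)) (le_cent1_iff.2 z3))
    refine ⟨z, z1, z2, ?_⟩
    rw [← norm_zp z4, ← le_antisymm r1 (((w.abQ c c').trans (cent_anti r1)).trans r3)]
    exact this.trans r2

end Tw

theorem Tw.lin (w : Tw T H K U Q (cj x H) (cj x K) (cj x U) (cj x Q)) (c : Ls T H K U Q L p)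
    (hx : x ∈ 𝒩 T) (ch : Ch G) : SectionalPRankLE 2 4 G := by
  have c' := c.cj hx
  have e := w.Jeq c c'
  have s := w.side c c'
  have s' := w.symm.side c' c
  have b' := w.symm.sb c' c
  rw [e] at s' b'
  refine Cg.sec (F := F) ⟨fun i => cond i L (cj x L), fun i => cond i Q (cj x Q), T ⊓ L, fun i => cond i
    (ext U L p) (ext (cj x U) (cj x L) fun g => p (x⁻¹ * g * x)), x,
    fun i => by cases i; exacts [b', w.sb c c'], fun i => by cases i; exacts [s'.1, s.1],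
    fun i => by cases i; exacts [s'.2.1, s.2.1], fun v hv h h' => ?_,
    fun i => by cases i; exacts [w.r.CQ, w.l.CQ], fun i => by cases i; exacts [s'.2.2.1, s.2.2.1],
    fun q i => by cases i; exacts [s'.2.2.2.1 q, s.2.2.2.1 q],
    fun i => by cases i; exacts [s'.2.2.2.2.1, s.2.2.2.2.1],
    fun i => by cases i; exacts [s'.2.2.2.2.2, s.2.2.2.2.2], rfl, rfl,
    cj_eq_iff.1 (by rw [cj_inf, cj_eq_iff.2 hx, e]), ch⟩
  have n := le_norm_inf (le_norm T) (le_norm_inf (le_norm_cent c.TL) (le_norm_cent c'.TL))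
  exact eq_one_of_mem (w.no _ inf_le_left (w.l.le_norm (le_norm_of_le_cent (cent_symm
    (inf_le_right.trans (inf_le_left.trans (cent_anti c.KL))))) n) (w.r.le_norm (le_norm_of_le_cent
      (cent_symm (inf_le_right.trans (inf_le_right.trans (cent_anti c'.KL))))) n)) ⟨hv.1, h, h'⟩

end Cfsg.PU
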