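import Cfsg.Agent.PU.C1

/-! Blocks for the alternating group of degree five: coordinates. -/

set_option autoImplicit false
set_option linter.unusedSectionVars false

namespace Cfsg.PU

open Subgroup Cfsg.L0 Cfsg.FT Cfsg.LT Equiv Equiv.Perm

abbrev P5 := Perm (Fin 5)
abbrev M5 := Fin 5 → ZMod 2
def e2 (i j : Fin 5) : M5 := fun k => (if k = i then 1 else 0) + if k = j then 1 else 0
def fv (i : Fin 5) : M5 := fun k => if k = i then 0 else 1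
def E5 : List P5 := [1, swap 0 1, swap 2 3, swap 0 1 * swap 2 3]
def V5 : List P5 := [1, swap 0 1 * swap 2 3, swap 0 2 * swap 1 3, swap 0 3 * swap 1 2]
def c5 : P5 := swap 2 3 * swap 3 4
def quad (σ τ : P5) : Prop := ∀ i j k, e2 i j (σ⁻¹ (τ⁻¹ k)) + e2 i j (τ⁻¹ k) = e2 i j (σ⁻¹ k) + e2 i j k
instance (σ τ : P5) : Decidable (quad σ τ) := by unfold quad; infer_instance
/-- a three-cycle adapted to the transposition `b` -/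
def Cy (b c : P5) : Prop := sign c = 1 ∧ c ^ 3 = 1 ∧ (∀ (w : M5) k,
    w (b⁻¹ (c⁻¹ k)) + w (c⁻¹ k) = w (b⁻¹ k) + w k) ∧
      ∀ s ∈ E5, (s * (c * s * c⁻¹)) ^ 3 = 1 ∧ (s * (c * s * c⁻¹) = 1 → s = 1 ∨ s = b)
instance (σ τ : P5) : Decidable (Cy σ τ) := by unfold Cy; infer_instance

theorem e2_ev : ∀ i j, ∑ k, e2 i j k = 0 := by decide +kernel
theorem fv_ev : ∀ i, ∑ k, fv i k = 0 := by decide +kernel
theorem d1 : ∀ σ : P5, σ ≠ 1 → (∀ s ∈ V5, quad σ (s * σ * s⁻¹)) → ∃ s ∈ V5, ∃ τ : P5,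
    τ⁻¹ * σ * τ = swap 0 1 * swap 2 3 ∨ τ⁻¹ * (σ * (s * σ * s⁻¹)) * τ = swap 0 1 * swap 2 3 := by
  decide +kernel
theorem d2 : ∀ σ : P5, quad (swap 0 1 * swap 2 3) σ → σ ∈ E5 := by decide +kernel
theorem d3 : ∀ a ∈ E5, ∀ b ∈ E5, a ≠ 1 → b ≠ 1 → a * b ≠ 1 → ∀ s ∈ E5,
    s = 1 ∨ s = a ∨ s = b ∨ s = a * b := by decide +kernel
theorem d4 : ∀ b ∈ E5, b ≠ 1 → b ≠ swap 0 1 * swap 2 3 →
    Cy b (if b = swap 0 1 then c5 else swap 0 1 * swap 1 4) := by decide +kernel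
theorem d5 : ∀ s ∈ E5, ∀ w : M5, (∀ k, w (c5⁻¹ k) = w k) → ∀ k, w (s⁻¹ (c5⁻¹ k)) = w (s⁻¹ k) := by
  decide +kernel
theorem d6 : ∀ π : P5, fv 0 (π⁻¹ 0) = fv 0 0 → fv 1 (π⁻¹ 1) = fv 1 1 → π * swap 2 3 * π⁻¹ ∈ E5 → π ∈ E5 := by
  decide +kernel
theorem d7 : ∀ w : M5, w 2 = w 3 → w (c5⁻¹ 2) = w (c5⁻¹ 3) → ∀ k, w (c5⁻¹ k) = w k := by decide +kernel
theorem d8 : ∀ w : M5, ∑ k, w k = 0 → ((∀ k, w ((swap 0 1 * swap 2 3 : P5)⁻¹ k) = w k) ↔ w 0 = w 1 ∧ w 2 = w 3) := by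
  decide +kernel
theorem dV : ∀ s ∈ V5, ∀ t ∈ V5, s * t ∈ V5 := by decide +kernel
theorem dV' : ∀ s ∈ V5, s * s = 1 ∧ sign s = 1 ∧ s⁻¹ ∈ V5 := by decide +kernel
theorem dE : ∀ s ∈ E5, s * s = 1 := by decide +kernel

variable {G : Type*} [Group G] [Finite G] {A T H K U Q H' K' U' Q' R : Subgroup G} {ψ ψ' : G → M5}
  {g k s t u v x y ρ : G} {σ τ π : P5}

/-- `g` acts as the permutation `σ` -/
def Pm (U : Subgroup G) (ψ : G → M5) (g : G) (σ : P5) : Prop :=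
  g ∈ 𝒩 U ∧ ∀ u ∈ U, ∀ i, ψ (g * u * g⁻¹) i = ψ u (σ⁻¹ i)

theorem Pm.mul (h : Pm U ψ g σ) (h' : Pm U ψ s τ) : Pm U ψ (g * s) (σ * τ) :=
  ⟨mul_mem h.1 h'.1, fun u hu i => by
    rw [show g * s * u * (g * s)⁻¹ = g * (s * u * s⁻¹) * g⁻¹ by group, h.2 _ (conj_mem_of_norm h'.1 hu),
      h'.2 u hu]; rfl⟩
theorem Pm.inv (h : Pm U ψ g σ) : Pm U ψ g⁻¹ σ⁻¹ := ⟨inv_mem h.1, fun u hu i => by
  simpa [mul_assoc] using (h.2 _ (conj_mem_of_norm (inv_mem h.1) hu) (σ i)).symm⟩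
theorem pm_cent (h : g ∈ 𝒞 U) : Pm U ψ g 1 :=
  ⟨cent_le_norm _ h, fun u hu i => by rw [← mem_cent.1 h u hu]; simp⟩
theorem Pm.pow (h : Pm U ψ g σ) (n : ℕ) : Pm U ψ (g ^ n) (σ ^ n) := by
  induction n with
  | zero => simpa using pm_cent (one_mem _)
  | succ n ih => rw [pow_succ, pow_succ]; exact ih.mul h
theorem Pm.fix (h : Pm U ψ g σ) (hu : u ∈ U) (e : u * g = g * u) (i : Fin 5) : ψ u (σ⁻¹ i) = ψ u i := by
  rw [← h.2 u hu, ← e, mul_inv_cancel_right]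
theorem Pm.rel (h : Pm U ψ g σ) (τ : P5) : Pm U (fun g => ψ g ∘ τ) g (τ⁻¹ * σ * τ) :=
  ⟨h.1, fun u hu i => by simp [h.2 u hu]⟩
theorem pm_cj : Pm (cj x U) (fun g => ψ (x⁻¹ * g * x)) g σ ↔ Pm U ψ (x⁻¹ * g * x) σ := by
  rw [Pm, Pm, ← cj_norm, mem_cj]
  refine and_congr_right fun _ => ⟨fun h v hv => ?_, ?_⟩
  · simpa [mul_assoc] using h _ (conj_mem_cj hv)
  · rintro h _ ⟨v, hv, rfl⟩
    simpa [mul_assoc] using h v hv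

structure Sy (U K : Subgroup G) (ψ : G → M5) : Prop where
  add : ∀ u ∈ U, ∀ v ∈ U, ψ (u * v) = ψ u + ψ v
  ev : ∀ u ∈ U, ∑ i, ψ u i = 0
  sur : ∀ a : M5, ∑ i, a i = 0 → ∃ u ∈ U, ψ u = a
  ker : ∀ u ∈ U, ψ u = 0 ↔ u ∈ 𝒞 K
  ex : ∀ g ∈ 𝒩 K, ∃ σ, Pm U ψ g σ
  su : ∀ σ, sign σ = 1 → ∃ g ∈ K, Pm U ψ g σ

namespace Sy
variable (c : Sy U K ψ)
include c

theorem cj (x : G) : Sy (cj x U) (cj x K) fun g => ψ (x⁻¹ * g * x) where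
  add u hu v hv := by rw [← c.add _ (mem_cj.1 hu) _ (mem_cj.1 hv)]; congr 1; group
  ev u hu := c.ev _ (mem_cj.1 hu)
  sur a h := by
    obtain ⟨v, hv, e⟩ := c.sur a h
    exact ⟨_, conj_mem_cj hv, by simpa [mul_assoc] using e⟩
  ker v hv := by rw [← cj_cent, mem_cj]; exact c.ker _ (mem_cj.1 hv)
  ex g hg := by rw [← cj_norm, mem_cj] at hg; simpa only [pm_cj] using c.ex _ hg
  su σ k := by
    obtain ⟨g, hg, e⟩ := c.su σ k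
    exact ⟨_, conj_mem_cj hg, pm_cj.2 (by simpa [mul_assoc] using e)⟩

theorem rel (τ : P5) : Sy U K fun g => ψ g ∘ τ where
  add u hu v hv := by rw [c.add u hu v hv]; rfl
  ev u hu := (Equiv.sum_comp τ _).trans (c.ev u hu)
  sur a h := (c.sur (a ∘ τ.symm) ((Equiv.sum_comp τ.symm _).trans h)).imp fun u k =>
    ⟨k.1, by rw [k.2]; ext; simp⟩
  ker u hu := by
    rw [← c.ker u hu]
    exact ⟨fun h => funext fun i => by simpa using congrFun h (τ.symm i), fun h => by rw [h]; rfl⟩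
  ex g hg := (c.ex g hg).elim fun _ h => ⟨_, h.rel τ⟩
  su σ k := (c.su (τ * σ * τ⁻¹) (by simp [k])).imp fun g h => ⟨h.1, by simpa [mul_assoc] using h.2.rel τ⟩

theorem uniq (h : Pm U ψ g σ) (h' : Pm U ψ g τ) : σ = τ := inv_injective (Equiv.ext fun i => by
  obtain ⟨u, hu, e⟩ := c.sur _ (fv_ev (σ⁻¹ i))
  have := (h.2 u hu i).symm.trans (h'.2 u hu i)
  rw [e] at this
  by_contra k
  rw [fv, fv, if_pos rfl, if_neg (Ne.symm k)] at this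
  exact zero_ne_one this)

theorem te (h : Pm U ψ g σ) (k : Te g) (e : σ ^ 3 = 1) : σ = 1 := by
  obtain ⟨n, k⟩ := k
  exact H8.eq_one_of_pow_coprime (Nat.Coprime.pow_right n (by decide)) e
    (c.uniq (h.pow _) (k ▸ pm_cent (one_mem _)))

theorem ex_odd (h : sign σ = 1) (e : σ ^ 3 = 1) : ∃ ρ ∈ K, Odd (orderOf ρ) ∧ Pm U ψ ρ σ := by
  obtain ⟨g, hg, k⟩ := c.su σ h
  obtain ⟨n, hn⟩ := H8.exists_pow_coprime 2 g
  refine ⟨_, pow_mem (pow_mem hg (2 ^ n)) (2 ^ n), (Nat.coprime_two_right.1 hn).of_dvd_nat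
    (orderOf_pow_dvd _), ?_⟩
  convert (k.pow _).pow _
  rw [← pow_mul, ← mul_pow]
  clear hn
  induction n with
  | zero => simp
  | succ n ih => rw [pow_succ, pow_mul, ← ih, show 2 * 2 = 3 + 1 from rfl, pow_succ, e, one_mul]

variable (r : Rw T H K U Q)
include r

theorem eq (hu : u ∈ U) (hv : v ∈ U) (h : ∀ i, ψ u i = ψ v i) : u * v⁻¹ ∈ 𝒞 K := by
  rw [inv_eq_of_mul_eq_one_left (r.sq v hv), ← c.ker _ (mul_mem hu hv), c.add u hu v hv, funext h]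
  ext; simp [CharTwo.add_self_eq_zero]

theorem toTr (h : Pm U ψ g 1) : Tr U K g := fun u hu => c.eq r (conj_mem_of_norm h.1 hu) hu (h.2 u hu)

theorem fixc (h1 : ρ ∈ K) (o : Odd (orderOf ρ)) (h : Pm U ψ ρ σ) (hv : v ∈ U) (e : ∀ i, ψ v (σ⁻¹ i) = ψ v i) :
    v ∈ 𝒞₁ ρ :=
  fix_odd o (cent_le_cent1 h1 (c.eq r (conj_mem_of_norm h.1 hv) hv fun i => (h.2 v hv i).trans (e i)))
    (r.sq _ (mul_mem (conj_mem_of_norm h.1 hv) (inv_mem hv)))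

theorem ex_V : ∃ ψ, Sy U K ψ ∧ ∀ s ∈ V5, ∃ g ∈ T, Pm U ψ g s := by
  let P : Subgroup G :=
    { carrier := {g | g ∈ K ∧ ∃ s ∈ V5, Pm U ψ g s}
      mul_mem' := fun ⟨a, s, b, h⟩ ⟨a', t, b', h'⟩ => ⟨mul_mem a a', _, dV s b t b', h.mul h'⟩
      one_mem' := ⟨one_mem _, 1, by simp [V5], pm_cent (one_mem _)⟩
      inv_mem' := fun ⟨a, s, b, h⟩ => ⟨inv_mem a, _, (dV' s b).2.2, h.inv⟩ }
  obtain ⟨x, hx, k⟩ := r.syl.exists_cj_le (Q := P) (H8.isPGroup_iff_forall.2 fun g ⟨a, s, b, h⟩ => ⟨2, by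
    have := r.sq _ (r.faith _ (mul_mem a a) (c.toTr r ((dV' s b).1 ▸ h.mul h)))
    rw [← this]; simp [pow_succ, mul_assoc]⟩) fun g h => r.KH h.1
  have := c.cj x
  have e := cj_eq_iff.2 (r.NU (r.HK hx))
  rw [e, cj_eq_iff.2 (r.HK hx)] at this
  refine ⟨_, this, fun s hs => ?_⟩
  obtain ⟨g, hg, h⟩ := c.su s (dV' s hs).2.1
  exact ⟨_, k (conj_mem_cj ⟨hg, s, hs, h⟩), e ▸ pm_cj.2 (by simpa [mul_assoc] using h)⟩

end Sy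

/-- normalized coordinates -/
structure Sn (U K U' : Subgroup G) (ψ : G → M5) : Prop extends Sy U K ψ where
  dd : ∃ t ∈ U', Pm U ψ t (swap 0 1 * swap 2 3)
  inE : ∀ t ∈ U', ∃ σ ∈ E5, Pm U ψ t σ

theorem Tw.quad (w : Tw T H K U Q H' K' U' Q') (c : Sy U K ψ) (h : s ∈ U') (h' : t ∈ U')
    (k : Pm U ψ s σ) (k' : Pm U ψ t τ) : quad σ τ := fun i j l => by
  obtain ⟨u, hu, e⟩ := c.sur _ (e2_ev i j)
  have := k'.fix (w.cmU hu h).1 (mem_cent.1 (w.r.abel h') _ (w.cmU hu h).2) l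
  rw [c.add _ (conj_mem_of_norm k.1 hu) u hu] at this
  simpa [k.2 u hu, e] using this

theorem Tw.ex_sn (w : Tw T H K U Q H' K' U' Q') (c : Sy U K ψ) : ∃ ψ, Sn U K U' ψ := by
  obtain ⟨ψ, c, h⟩ := c.ex_V w.l
  obtain ⟨t, t1, t2⟩ := SetLike.not_le_iff_exists.1 w.nle
  obtain ⟨σ, k⟩ := c.ex t (w.l.TK (w.r.UT t1))
  have key : ∀ s ∈ V5, ∃ t' ∈ U', Pm U ψ t' (s * σ * s⁻¹) := fun s hs => by
    obtain ⟨g, hg, k'⟩ := h s hs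
    exact ⟨_, conj_mem_of_norm (w.r.TU hg) t1, (k'.mul k).mul k'.inv⟩
  obtain ⟨s, hs, τ, e⟩ := d1 σ (fun e => t2 (w.l.tr_T (w.r.UT t1) (c.toTr w.l (e ▸ k)))) fun s hs => by
    obtain ⟨t', h1, h2⟩ := key s hs
    exact w.quad c t1 h1 k h2
  obtain ⟨y, y1, y2⟩ : ∃ t ∈ U', Pm U (fun g => ψ g ∘ τ) t (swap 0 1 * swap 2 3) := by
    obtain ⟨t', h1, h2⟩ := key s hs
    exact e.elim (fun e => ⟨t, t1, e ▸ k.rel τ⟩) fun e => ⟨_, mul_mem t1 h1, e ▸ (k.mul h2).rel τ⟩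
  refine ⟨_, c.rel τ, ⟨y, y1, y2⟩, fun t ht => ?_⟩
  obtain ⟨σ, k⟩ := (c.rel τ).ex t (w.l.TK (w.r.UT ht))
  exact ⟨σ, d2 σ (w.quad (c.rel τ) y1 ht y2 k), k⟩

end Cfsg.PU
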