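import Cfsg.Agent.PU.C3

/-! Two blocks for the alternating group of degree five do not occur. -/

set_option autoImplicit false
set_option linter.unusedSectionVars false

namespace Cfsg.PU

open Subgroup Cfsg.L0 Cfsg.FT Cfsg.LT Equiv Equiv.Perm

variable {G : Type*} [Group G] [Finite G] {A T H K U Q H' K' U' Q' R : Subgroup G} {ψ ψ' : G → M5}
  {g k s t u v x y ρ : G} {σ τ π b : P5}

theorem Sy.nR (c : Sy U K ψ) (pR : IsPGroup 2 R) (h : Cy b τ) (n : ρ ∈ 𝒩 R) (k : Pm U ψ ρ τ) (hg : g ∈ R)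
    (hσ : σ ∈ E5) (k' : Pm U ψ g σ) : σ = 1 ∨ σ = b :=
  (h.2.2.2 σ hσ).2 (c.te (k'.mul ((k.mul k').mul k.inv))
    (te_of pR (mul_mem hg (conj_mem_of_norm n hg))) (h.2.2.2 σ hσ).1)

namespace Tw
variable (w : Tw T H K U Q H' K' U' Q') (c : Sn U K U' ψ) (c' : Sn U' K' U ψ')
include w c

theorem k1 (hv : v ∈ U) (h : v ∈ Q') : ψ v 0 = ψ v 1 ∧ ψ v 2 = ψ v 3 := by
  obtain ⟨t, ht, k⟩ := c.dd
  exact (d8 _ (c.ev v hv)).1 (k.fix hv (mem_cent.1 (w.r.QU h) t ht).symm)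

omit c in
theorem pm_Q (c' : Sy U' K' ψ') (hv : v ∈ T) (h : Pm U' ψ' v 1) : v ∈ Q' := w.r.tr_T hv (c'.toTr w.r h)

include c'

theorem k2 : (∀ σ ∈ E5, ∃ u ∈ U, Pm U' ψ' u σ) ∧ ∀ v ∈ U, ψ v 0 = ψ v 1 → ψ v 2 = ψ v 3 → v ∈ Q' := by
  obtain ⟨u, hu, e⟩ := c.sur _ (e2_ev 0 4)
  obtain ⟨y, hy, e'⟩ := c.sur _ (e2_ev 2 4)
  obtain ⟨a, ha, k⟩ := c'.inE u hu
  obtain ⟨b, hb, k'⟩ := c'.inE y hy
  have h1 : ∀ v ∈ U, Pm U' ψ' v 1 → ψ v 0 = ψ v 1 ∧ ψ v 2 = ψ v 3 := fun v hv h =>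
    w.k1 c hv (w.pm_Q c'.toSy (w.l.UT hv) h)
  have e'' : ψ (u * y) = e2 0 4 + e2 2 4 := by rw [c.add u hu y hy, e, e']
  have d := d3 a ha b hb (fun h => absurd (e ▸ h1 u hu (h ▸ k)) (by decide))
    (fun h => absurd (e' ▸ h1 y hy (h ▸ k')) (by decide))
    fun h => absurd (e'' ▸ h1 _ (mul_mem hu hy) (h ▸ k.mul k')) (by decide)
  refine ⟨fun σ h => ?_, fun v hv v1 v2 => ?_⟩
  · rcases d σ h with rfl | rfl | rfl | rfl
    exacts [⟨1, one_mem _, pm_cent (one_mem _)⟩, ⟨u, hu, k⟩, ⟨y, hy, k'⟩, ⟨_, mul_mem hu hy, k.mul k'⟩]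
  obtain ⟨σ, h, m⟩ := c'.inE v hv
  have h2 : ∀ x ∈ U, Pm U' ψ' x σ → ψ x 0 = ψ x 1 ∧ ψ x 2 = ψ x 3 := fun x hx m' => by
    simpa [c.add v hv x hx, v1, v2] using h1 _ (mul_mem hv hx) (dE σ h ▸ m.mul m')
  rcases d σ h with rfl | rfl | rfl | rfl
  · exact w.pm_Q c'.toSy (w.l.UT hv) m
  · exact absurd (e ▸ h2 u hu k) (by decide)
  · exact absurd (e' ▸ h2 y hy k') (by decide)
  · exact absurd (e'' ▸ h2 _ (mul_mem hu hy) (k.mul k')) (by decide)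

theorem false5 (ch : Ch G) : False := by
  obtain ⟨t1, a1, b1⟩ := (w.symm.k2 c' c).1 (swap 0 1) (by simp [E5])
  obtain ⟨t2, a2, b2⟩ := (w.symm.k2 c' c).1 (swap 2 3) (by simp [E5])
  obtain ⟨φ, φ1, φ2⟩ := c.su (swap 0 1 * swap 0 4) (by decide)
  obtain ⟨a, ha, e⟩ := c.sur _ (e2_ev 0 1)
  have hu := conj_mem_of_norm φ2.1 ha
  have eu : ψ (φ * a * φ⁻¹) = e2 0 4 := funext fun i => by rw [φ2.2 a ha, e]; revert i; decide
  have cu : t2 * (φ * a * φ⁻¹) = φ * a * φ⁻¹ * t2 := by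
    have h1 : φ⁻¹ * (t2 * φ * t2⁻¹) ∈ U := w.l.faith _ (mul_mem (inv_mem φ1) (conj_mem_of_norm
      (w.l.TK (w.r.UT a2)) φ1)) (c.toTr w.l (by convert φ2.inv.mul ((b2.mul φ2).mul b2.inv); decide))
    have h2 := mem_cent.1 (w.r.QU ((w.k2 c c').2 a ha (by rw [e]; decide) (by rw [e]; decide))) t2 a2
    have h3 := mem_cent.1 (w.l.abel h1) a ha
    calc _ = φ * (φ⁻¹ * (t2 * φ * t2⁻¹) * (t2 * a)) * φ⁻¹ := by group
      _ = _ := by rw [h2, ← mul_assoc _ a, ← h3]; group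
  clear e ha
  generalize φ * a * φ⁻¹ = u at *
  obtain ⟨b, hb, k⟩ := c'.inE u hu
  have pQ := fun v => w.symm.pm_Q (v := v) c.toSy
  have qP : ∀ v ∈ Q, Pm U ψ v 1 := fun v h => pm_cent (w.l.QU h)
  have y1 := d4 b hb (fun h => absurd (eu ▸ w.k1 c hu (w.pm_Q c'.toSy (w.l.UT hu) (h ▸ k))) (by decide))
    fun h => by
      have := (d8 _ (c'.ev t2 a2)).1 (h ▸ k.fix a2 cu)
      exact absurd (c.uniq b2 (qP _ ((w.symm.k2 c' c).2 t2 a2 this.1 this.2))) (by decide)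
  have y2 : Cy (swap 0 1) c5 := by
    have := d4 (swap 0 1) (by simp [E5]) (by decide) (by decide)
    rwa [if_pos rfl] at this
  generalize (if b = swap 0 1 then c5 else swap 0 1 * swap 1 4) = τ at y1
  obtain ⟨ρ, ρ1, o, ρ2⟩ := c.ex_odd y2.1 y2.2.1
  obtain ⟨ρ', ρ3, o', ρ4⟩ := c'.ex_odd y1.1 y1.2.1
  have ha := w.cmU hu a1
  have ea : ψ (t1 * u * t1⁻¹ * u) = e2 0 1 := funext fun i => by
    rw [c.add _ (conj_mem_of_norm b1.1 hu) u hu, Pi.add_apply, b1.2 u hu, eu]; revert i; decide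
  have c1 := c.fixc w.l ρ1 o ρ2 ha.1 (by rw [ea]; decide)
  have c2 := c'.fixc w.r ρ3 o' ρ4 ha.2 fun i => by
    have : t1 * u * t1⁻¹ * u = u * t1 * u⁻¹ * t1 := by
      rw [← inv_eq_of_mul_eq_one_left (w.l.sq _ ha.1), inv_eq_of_mul_eq_one_left (w.l.sq u hu)]
      simp [mul_assoc, inv_eq_of_mul_eq_one_left (w.l.sq u hu), inv_eq_of_mul_eq_one_left (w.r.sq t1 a1)]
    rw [this, c'.add _ (conj_mem_of_norm k.1 a1) _ a1, Pi.add_apply, Pi.add_apply, k.2 _ a1, k.2 _ a1]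
    exact y1.2.2.1 _ i
  generalize t1 * u * t1⁻¹ * u = a at *
  obtain ⟨R, pR, RC, n, ch⟩ := ch.core (w.l.sq a ha.1) fun h => absurd (ea.symm.trans (h ▸ (c.ker 1
    (one_mem _)).2 (one_mem _))) (by decide)
  rw [mem_cent1_comm] at c1 c2
  have JT : Q ⊔ U' ≤ T := sup_le w.l.QT w.r.UT
  have pJ := w.l.pT.to_le JT
  have JC : Q ⊔ U' ≤ 𝒞₁ a := sup_le (w.l.QU.trans (cent_le_cent1 ha.1)) (w.r.abel.trans (cent_le_cent1 ha.2))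
  have mJ : ∀ g ∈ Q ⊔ U', ∃ σ ∈ E5, Pm U ψ g σ := fun g hg => by
    obtain ⟨q, hq, t, ht, rfl⟩ := (mem_sup_l (w.r.UT.trans w.l.TQ)).1 hg
    obtain ⟨σ, h, k⟩ := c.inE t ht
    exact ⟨σ, h, by simpa using (qP q hq).mul k⟩
  have N1 := fun g σ => c.nR (g := g) (σ := σ) pR y2 (n c1) ρ2
  have N2 : ∀ v ∈ R, v ∈ U → ψ v 2 = ψ v 3 := fun v h hv => by
    obtain ⟨σ, hσ, m⟩ := c'.inE v hv
    rcases c'.nR pR y1 (n c2) ρ4 h hσ m with rfl | rfl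
    · exact (w.k1 c hv (w.pm_Q c'.toSy (w.l.UT hv) m)).2
    · simpa [c.add v hv u hu, eu, e2] using (w.k1 c (mul_mem hv hu) (w.pm_Q c'.toSy
        (w.l.UT (mul_mem hv hu)) (dE σ hσ ▸ m.mul k))).2
  have JB : Q ⊔ U' ≤ 𝒩 (U ⊓ 𝒞₁ ρ) := fun g hg => H8.mem_normalizer_of_forall fun v hv => by
    obtain ⟨σ, h, m⟩ := mJ g hg
    have h1 := conj_mem_of_norm m.1 hv.1
    exact ⟨h1, c.fixc w.l ρ1 o ρ2 h1 fun i => by
      rw [m.2 v hv.1, m.2 v hv.1]; exact d5 σ h _ (ρ2.fix hv.1 (mem_cent1.1 hv.2)) i⟩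
  have hy : ∀ i, (∀ k, fv i (c5⁻¹ k) = fv i k) → ∃ y ∈ U ⊓ 𝒞₁ ρ, ψ y = fv i := fun i h => by
    obtain ⟨y, hy, e⟩ := c.sur _ (fv_ev i)
    exact ⟨y, ⟨hy, c.fixc w.l ρ1 o ρ2 hy (e ▸ h)⟩, e⟩
  obtain ⟨x, x1, x2⟩ := hy 0 (by decide)
  obtain ⟨y, z1, z2⟩ := hy 1 (by decide)
  have nP := le_norm_inf (JC.trans n) (le_norm_cent JB)
  have PJ : R ⊓ 𝒞 (U ⊓ 𝒞₁ ρ) ≤ Q ⊔ U' := le_sup_left.trans (le_of_norm (pgroup_sup nP
    (pR.to_le inf_le_left) pJ) fun g hg hn => by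
      obtain ⟨r, hr, j, hj, rfl⟩ := (mem_sup_l nP).1 hg
      rw [inf_eq_right.2 le_sup_right, mul_mem_cancel_right (le_norm _ hj)] at hn
      refine mul_mem ?_ hj
      have nQ : r ∈ 𝒩 Q := H8.mem_normalizer_of_forall fun q hq => by
        have h1 := conj_mem_of_norm hn (mem_sup_left hq)
        obtain ⟨σ, h, m⟩ := mJ _ h1
        rcases N1 (r * q * r⁻¹ * q⁻¹) σ (by simpa [mul_assoc] using (mul_mem hr.1 (conj_mem_of_norm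
          (n (JC (mem_sup_left hq))) (inv_mem hr.1)))) h (by simpa using m.mul (qP q hq).inv) with rfl | rfl
        · exact pQ _ (JT h1) m
        · exact absurd (x2 ▸ m.fix x1.1 (mem_cent1.1 (mul_mem (mul_mem (cent_le_cent1 x1 hr.2)
            (cent_le_cent1 x1.1 (w.l.QU hq))) (inv_mem (cent_le_cent1 x1 hr.2)))).symm 0) (by decide)
      obtain ⟨π, m⟩ := c.ex r (w.l.NQ nQ)
      obtain ⟨σ, h, m'⟩ := mJ _ (conj_mem_of_norm hn (mem_sup_right a2))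
      have h1 := d6 π (x2 ▸ m.fix x1.1 (mem_cent.1 hr.2 x x1) 0) (z2 ▸ m.fix z1.1 (mem_cent.1 hr.2 y z1) 1)
        (c.uniq m' ((m.mul b2).mul m.inv) ▸ h)
      obtain ⟨t, ht, m1⟩ := (w.symm.k2 c' c).1 π h1
      exact (mul_mem_cancel_right (mem_sup_right ht)).1 (mem_sup_left (w.l.tr_Q (mul_mem nQ (w.l.TQ
        (w.r.UT ht))) ((te_of pR hr.1).mul pJ hn (mem_sup_right ht)) (c.toTr w.l (dE π h1 ▸ m.mul m1)))))
  have := axb pR n ch (w.l.pQ.to_le (inf_le_left.trans w.l.UQ)) (inf_le_left.trans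
    (w.l.UQ.trans (le_sup_left.trans JC))) c1 o (le_cent1_iff.1 inf_le_right) fun r hr => ?_
  · exact absurd (c.uniq ρ2 (this ▸ pm_cent (one_mem _))) (by decide)
  obtain ⟨σ, h, m⟩ := mJ r (PJ hr)
  have h1 := mul_mem (conj_mem_of_norm (n c1) hr.1) (inv_mem hr.1)
  have h2 : ρ * r * ρ⁻¹ * r⁻¹ ∈ U := w.l.faith _ (by simpa [mul_assoc] using (mul_mem ρ1 (conj_mem_of_norm
    (w.l.TK (JT (PJ hr))) (inv_mem ρ1)))) (c.toTr w.l (by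
      convert ((ρ2.mul m).mul ρ2.inv).mul m.inv
      rcases N1 r σ hr.1 h m with rfl | rfl <;> decide))
  refine fix_odd o (c.fixc w.l ρ1 o ρ2 h2 (d7 _ (N2 _ h1 h2) ?_)) (w.l.sq _ h2)
  rw [← ρ2.2 _ h2, ← ρ2.2 _ h2]
  exact N2 _ (conj_mem_of_norm (n c1) h1) (conj_mem_of_norm ρ2.1 h2)

end Tw

theorem Tw.alt (w : Tw T H K U Q (cj x H) (cj x K) (cj x U) (cj x Q)) (c : Sy U K ψ) (ch : Ch G) : False := by
  obtain ⟨_, a⟩ := w.ex_sn c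
  obtain ⟨_, b⟩ := w.symm.ex_sn (c.cj x)
  exact w.false5 a b ch

end Cfsg.PU
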