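import Cfsg.Agent.PU.C2
import Cfsg.Agent.H7.Blk2

/-! Normalized coordinates; facts on the quotients. -/

set_option autoImplicit false
set_option linter.unusedSectionVars false

namespace Cfsg.PU

open Subgroup Cfsg.L0 Cfsg.FT Cfsg.LT Cfsg.H3
open scoped MatrixGroups

variable {G : Type*} [Group G] [Finite G] {F : Type*} [Field F] [Fintype F] [CharP F 2]
  {A T H K U Q L S B : Subgroup G} {p : G → F × F} {g k s t u v x y : G}

theorem Rw.ex_ls (r : Rw T H K U Q) (m : Mo U K p) (KL : K ≤ L) (LH : L ≤ H) (HL : H ≤ 𝒩 L) (QL : Q ≤ L)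
    (ex : ∀ g ∈ L, ∃ a b e d, a * d + b * e = 1 ∧ Ac U p g a b e d)
    (su : ∀ a b e d, a * d + b * e = 1 → ∃ g ∈ L, Ac U p g a b e d)
    (kr : ∀ g ∈ L, Ac U p g 1 0 0 1 → g ∈ Q) (Lle : L ≤ K ⊔ T ⊓ L) (L2 : 2 < Fintype.card F → L ≤ K ⊔ Q) :
    ∃ p : G → F × F, Ls T H K U Q L p := by
  let P : Subgroup G :=
    { carrier := {g | g ∈ L ∧ ∃ t, Ac U p g 1 t 0 1}
      mul_mem' := fun ⟨a, _, h⟩ ⟨a', _, h'⟩ =>
        ⟨mul_mem a a', _, (h.mul h').congr (by ring) rfl (by ring) (by ring)⟩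
      one_mem' := ⟨one_mem _, _, ac_cent (one_mem _)⟩
      inv_mem' := fun ⟨a, _, h⟩ => ⟨inv_mem a, _, h.inv1 (by simp)⟩ }
  have sb : Sb K L U Q P p := ⟨m, ex, su, kr, fun q h => ⟨QL h, _, ac_cent (r.QU h)⟩, fun _ => Iff.rfl⟩
  obtain ⟨x, hx, k⟩ := r.syl.exists_cj_le (Q := P) (H8.isPGroup_iff_forall.2 fun g ⟨a, s, h⟩ => by
    obtain ⟨n, e⟩ := te_of r.pQ (kr _ (mul_mem a a) ((h.mul h).congr (by ring) (by grind) (by ring) (by ring)))
    exact ⟨n + 1, by rw [pow_succ', pow_mul, pow_two, e]⟩) fun g h => LH h.1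
  have c := sb.cj x
  rw [cj_eq_iff.2 (r.NU (r.HK hx)), cj_eq_iff.2 (r.HK hx), cj_eq_iff.2 (HL hx), cj_eq_iff.2 (r.HQ hx)] at c
  have h := le_inf k c.JL
  rw [le_antisymm h (c.max (r.pT.to_le inf_le_left) h inf_le_right)] at c
  exact ⟨_, c, KL, LH, r.TH.trans HL, Lle, L2⟩

theorem Rw.ex_big (r : Rw T H K U Q) (m : Mo U K p)
    (ex : ∀ g ∈ K, ∃ a b e d, a * d + b * e = 1 ∧ Ac U p g a b e d)
    (su : ∀ a b e d, a * d + b * e = 1 → ∃ g ∈ K, Ac U p g a b e d) :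
    ∃ p : G → F × F, Ls T H K U Q (K ⊔ Q) p := by
  have dec : ∀ g ∈ K ⊔ Q, ∃ k ∈ K, ∃ q ∈ Q, k * q = g := fun g => (mem_sup_l (r.QT.trans r.TK)).1
  refine r.ex_ls m le_sup_left (sup_le r.KH (r.QT.trans r.TH)) (le_norm_sup r.HK r.HQ) le_sup_right
    (fun g hg => ?_) (fun a b e d h => (su a b e d h).imp fun _ h => ⟨mem_sup_left h.1, h.2⟩)
    (fun g hg h => ?_) (sup_le_sup_left (le_inf r.QT le_sup_right) _) fun _ => le_rfl
  all_goals obtain ⟨k, hk, q, hq, rfl⟩ := dec g hg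
  · obtain ⟨a, b, e, d, h, h'⟩ := ex k hk
    exact ⟨a, b, e, d, h, (h'.mul (ac_cent (r.QU hq))).congr (by ring) (by ring) (by ring) (by ring)⟩
  · have := h.mul (ac_cent (r.QU (inv_mem hq)))
    rw [mul_inv_cancel_right] at this
    exact mul_mem (r.UQ (r.faith k hk (m.toTr (this.congr (by ring) (by ring) (by ring) (by ring))))) hq

theorem Mo.ex2 {p : G → ZMod 2 × ZMod 2} (m : Mo U K p) (h1 : g ∈ 𝒩 U) (h2 : g ∈ 𝒩 K) :
    ∃ a b e d, a * d + b * e = 1 ∧ Ac U p g a b e d := by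
  obtain ⟨u, hu, e⟩ := m.sur (1, 0)
  obtain ⟨v, hv, e'⟩ := m.sur (0, 1)
  have k : ∀ x ∈ U, p (g * x * g⁻¹) = 0 → p x = 0 := fun x hx h => (m.ker x hx).2 (by
    simpa [mul_assoc] using conj_mem_of_norm' (norm_le_norm_cent _ h2)
      ((m.ker _ (conj_mem_of_norm h1 hx)).1 h))
  have k1 := m.add u hu v hv
  have k2 := m.add _ (conj_mem_of_norm h1 hu) _ (conj_mem_of_norm h1 hv)
  rw [conj_mul] at k2
  refine ⟨(p (g * u * g⁻¹)).1, (p (g * v * g⁻¹)).1, (p (g * u * g⁻¹)).2, (p (g * v * g⁻¹)).2, ?_, h1,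
    fun x hx => ?_⟩
  · have h3 := mt (k u hu) (by rw [e]; decide)
    have h4 := mt (k v hv) (by rw [e']; decide)
    have h5 := mt (k _ (mul_mem hu hv)) (by rw [k1, e, e']; decide)
    rw [k2] at h5
    revert h3 h4 h5
    generalize p (g * u * g⁻¹) = a; generalize p (g * v * g⁻¹) = b
    revert a b; decide
  · have : ∀ a : ZMod 2 × ZMod 2, a = 0 ∨ a = (1, 0) ∨ a = (0, 1) ∨ a = (1, 0) + (0, 1) := by decide
    rcases this (p x) with h | h | h | h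
    · rw [m.cong h1 h2 hx (one_mem _) (h.trans m.one.symm), h]; simp [m.one, Prod.ext_iff]
    · rw [m.cong h1 h2 hx hu (h.trans e.symm), h]; simp
    · rw [m.cong h1 h2 hx hv (h.trans e'.symm), h]; simp
    · rw [m.cong h1 h2 hx (mul_mem hu hv) (by rw [h, k1, e, e']), h, k2]; ext <;> simp

set_option synthInstance.maxSize 2000 in
set_option synthInstance.maxHeartbeats 200000 in
theorem dS : ∀ a b e d a' b' e' d' : ZMod 2, a * d + b * e = 1 → a + d ≠ 0 → a' * d' + b' * e' = 1 →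
    a' + d' = 0 → ¬ (a' = 1 ∧ b' = 0 ∧ e' = 0 ∧ d' = 1) → ∀ x y z w : ZMod 2, x * w + y * z = 1 →
      (x, y, z, w) ∈ [(1, 0, 0, 1), (a, b, e, d), (d, b, e, a), (a', b', e', d'),
        (a * a' + b * e', a * b' + b * d', e * a' + d * e', e * b' + d * d'),
        (d * a' + b * e', d * b' + b * d', e * a' + a * e', e * b' + a * d')] := by decide +kernel

theorem Rw.ex_two {p : G → ZMod 2 × ZMod 2} (r : Rw T H K U Q) (m : Mo U K p)
    (o : ∀ x ∈ H, Odd (orderOf x) → x ∈ K) (hk : k ∈ K) (k1 : k ≠ 1) (k2 : Odd (orderOf k)) (n : ¬ T ≤ Q) :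
    ∃ p : G → ZMod 2 × ZMod 2, Ls T H K U Q H p := by
  have ex := fun g (h : g ∈ H) => m.ex2 (r.NU (r.HK h)) (r.HK h)
  refine r.ex_ls m r.KH le_rfl (FT.le_norm _) (r.QT.trans r.TH) ex (fun x y z w h => ?_)
    (fun g hg h => r.tr_H o hg (m.toTr h)) (r.Hle.trans (by rw [inf_eq_left.2 r.TH])) (by simp)
  obtain ⟨t, ht, t1⟩ := SetLike.not_le_iff_exists.1 n
  obtain ⟨a, b, e, d, h1, h2⟩ := ex k (r.KH hk)
  obtain ⟨a', b', e', d', h3, h4⟩ := ex t (r.TH ht)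
  have := dS a b e d a' b' e' d' h1 (fun h => k1 (Te.eq_one ⟨2, by
    have := r.sq _ (r.faith _ (mul_mem hk hk) (m.toTr ((h2.mul h2).congr (by grind) (by grind) (by grind)
      (by grind))))
    rw [← this]; simp [pow_succ, mul_assoc]⟩ k2)) h3 (m.tr h4 (te_of r.pT ht))
    (fun ⟨x, y, z, w⟩ => t1 (r.tr_T ht (m.toTr (h4.congr x y z w)))) x y z w h
  simp only [List.mem_cons, List.not_mem_nil, or_false, Prod.mk.injEq] at this
  have hk := r.KH hk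
  have ht := r.TH ht
  rcases this with h | h | h | h | h | h <;> obtain ⟨rfl, rfl, rfl, rfl⟩ := h
  exacts [⟨1, one_mem _, ac_cent (one_mem _)⟩, ⟨k, hk, h2⟩, ⟨_, inv_mem hk, h2.inv1 h1⟩, ⟨t, ht, h4⟩,
    ⟨_, mul_mem hk ht, h2.mul h4⟩, ⟨_, mul_mem (inv_mem hk) ht, (h2.inv1 h1).mul h4⟩]

theorem sl_um (Y : Subgroup SL(2, F)) (h : ∀ t, H3.U t ∈ Y) :
    (∀ A, A ∈ Y) ∨ ∀ A ∈ Y, ∀ b, ∃ c, A * H3.U b * A⁻¹ = H3.U c := by
  have e : ∀ t (a : Fˣ) b, H3.U t * dg a * H3.U b * (H3.U t * dg a)⁻¹ = H3.U (a * b * a : F) := fun t a b => by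
    rw [mul_inv_eq_iff_eq_mul]; apply sl_ext2 <;> simp [U_coe, dg_coe] <;> grind
  refine or_iff_not_imp_right.2 fun k => ?_
  push Not at k
  obtain ⟨A, hA, b, k⟩ := k
  obtain ⟨t, a, rfl⟩ | ⟨t, u, a, rfl⟩ := bruhat A
  · exact (k _ (e t a b)).elim
  refine sl2_ind h (fun s => ?_) fun _ _ => mul_mem
  rw [mul_assoc, mul_mem_cancel_left (h t)] at hA
  convert mul_mem (mul_mem hA (h (s / (a * a)))) (inv_mem hA) using 1
  nth_rewrite 1 [Lo_eq, show s = a * (s / (a * a)) * a by field_simp, ← e u]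
  group

/-- the Sylow subgroup lies in a unique maximal subgroup -/
def Um (T K B : Subgroup G) : Prop := T ≤ B ∧ ¬ K ≤ B ∧ ∀ Y, T ⊓ K ≤ Y → Y ≤ K → K ≤ Y ∨ Y ≤ B

theorem um_sl (hT : T ≤ 𝒩 K) (s : H8.IsSyl 2 (T ⊓ K) K) (φ : K ⧸ pCore 2 K ≃* SL(2, F)) :
    Um T K (𝒩 (T ⊓ K)) := by
  let ρ := φ.toMonoidHom.comp (QuotientGroup.mk' (pCore 2 K))
  have ρs : Function.Surjective ρ := φ.surjective.comp (QuotientGroup.mk'_surjective _)
  have ρk : ∀ x y : K, ρ x = ρ y → y.1 ∈ T ⊓ K → x.1 ∈ T ⊓ K := fun x y h hy => by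
    have : y⁻¹ * x ∈ pCore 2 K := QuotientGroup.eq.1 (φ.injective h.symm)
    exact (mul_mem_cancel_left (inv_mem hy)).1 (H7.pCore_le_sylow s.toSylow this)
  obtain ⟨g, hg⟩ := exists_sylow_coord (MulEquiv.refl _) (s.toSylow.mapSurjective ρs)
  let σ := (MulAut.conj g⁻¹).toMonoidHom.comp ρ
  have σs : Function.Surjective σ := (MulAut.conj g⁻¹).surjective.comp ρs
  have m : ∀ x : K, x.1 ∈ T ⊓ K ↔ ∃ b, σ x = H3.U b := fun x => ⟨fun h => ((hg _).1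
      (mem_map_of_mem ρ (show x ∈ s.toSylow.1 from h))).imp fun b e => by
      simp only [σ, MonoidHom.comp_apply, ← e]; simp [mul_assoc], fun ⟨b, e⟩ => by
    obtain ⟨y, hy, e'⟩ := (hg (ρ x)).2 ⟨b, by rw [← e]; simp [σ, mul_assoc]⟩
    exact ρk x y e'.symm hy⟩
  refine ⟨le_norm_inf (le_norm _) hT, fun h => ?_, fun Y h1 h2 => ?_⟩
  · obtain ⟨w, e⟩ := σs (W F)
    obtain ⟨u, e'⟩ := σs (H3.U 1)
    obtain ⟨b, k⟩ := (m (w * u * w⁻¹)).1 (conj_mem_of_norm (h w.2) ((m u).2 ⟨_, e'⟩))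
    rw [map_mul, map_mul, map_inv, e, e', ← Lo_eq] at k
    simpa [U_coe, Lo_coe] using congrArg (fun A : SL(2, F) => A.1 1 0) k
  refine (sl_um ((Y.subgroupOf K).map σ) fun t => ?_).imp (fun h x hx => ?_) fun h y hy =>
    H8.mem_normalizer_of_forall fun x hx => ?_
  · obtain ⟨u, e⟩ := σs (H3.U t)
    exact ⟨u, h1 ((m u).2 ⟨_, e⟩), e⟩
  · obtain ⟨y, hy, e⟩ := h (σ ⟨x, hx⟩)
    exact (mul_mem_cancel_left (inv_mem hy)).1 (h1 ((m (y⁻¹ * ⟨x, hx⟩)).2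
      ⟨0, by rw [map_mul, map_inv, e, inv_mul_cancel, U_zero]⟩))
  · obtain ⟨b, e⟩ := (m ⟨x, hx.2⟩).1 hx
    obtain ⟨c, e'⟩ := h _ ⟨⟨y, h2 hy⟩, hy, rfl⟩ b
    exact (m (⟨y, h2 hy⟩ * ⟨x, hx.2⟩ * ⟨y, h2 hy⟩⁻¹)).2 ⟨c, by rw [map_mul, map_mul, map_inv, e, e']⟩

theorem um_three (n : ¬ K ≤ T) (s : pCoreOf 2 K ≤ T ⊓ K) (φ : K ⧸ pCore 2 K ≃* Multiplicative (ZMod 3)) :
    Um T K T := by
  refine ⟨le_rfl, n, fun Y h1 h2 => or_iff_not_imp_right.2 fun k x hx => ?_⟩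
  obtain ⟨y, hy, y1⟩ := SetLike.not_le_iff_exists.1 k
  let ρ := φ.toMonoidHom.comp (QuotientGroup.mk' (pCore 2 K))
  have ρk : ∀ x y : K, ρ x = ρ y → y.1⁻¹ * x.1 ∈ T ⊓ K := fun x y h =>
    s (H7.mem_pCoreOf_iff.2 (QuotientGroup.eq.1 (φ.injective h.symm)))
  have : ∀ a b : Multiplicative (ZMod 3), a ≠ 1 → ∃ n : Fin 3, b = a ^ n.1 := by decide
  obtain ⟨n, e⟩ := this (ρ ⟨y, h2 hy⟩) (ρ ⟨x, hx⟩) fun e => y1 (by
    simpa using (ρk ⟨y, h2 hy⟩ 1 (e.trans (map_one ρ).symm)).1)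
  exact (mul_mem_cancel_left (inv_mem (pow_mem hy n))).1 (h1 (ρk ⟨x, hx⟩ (⟨y, h2 hy⟩ ^ n.1) (by rwa [map_pow])))

/-- no elements of order four -/
def N4 (X : Type*) [Group X] : Prop := ∀ g : X, g ^ 4 = 1 → g ^ 2 = 1

theorem N4.map {X Y : Type*} [Group X] [Group Y] (h : N4 Y) (e : X ≃* Y) : N4 X := fun g k =>
  e.injective (by rw [map_pow, h _ (by rw [← map_pow, k, map_one]), map_one])

theorem n4_sl : N4 SL(2, F) := fun g h => by
  have := (H7.L2.unip (p := 2) (k := 2) (M := g.1) (congrArg Subtype.val h)).2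
  have h1 := congrFun (congrFun this 0) 0
  have h2 := congrFun (congrFun this 0) 1
  have h3 := congrFun (congrFun this 1) 0
  have h4 := congrFun (congrFun this 1) 1
  simp [Matrix.mul_apply, Fin.sum_univ_two] at h1 h2 h3 h4
  rw [pow_two]
  apply sl_ext2 <;> simp [Matrix.mul_apply, Fin.sum_univ_two] <;> grind

theorem n4_alt {n : ℕ} (h : N4 (alternatingGroup (Fin n))) : n < 6 := by_contra fun k => by
  let f := Equiv.Perm.extendDomainHom (Fin.castLEEmb (Nat.le_of_not_lt k)).toEquivRange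
  let σ : Equiv.Perm (Fin 6) := .swap 0 1 * .swap 1 2 * .swap 2 3 * .swap 4 5
  have := h ⟨f σ, (Equiv.Perm.sign_extendDomain σ _).trans (by decide)⟩
    (Subtype.ext (show f σ ^ 4 = 1 by rw [← map_pow, show σ ^ 4 = 1 by decide, map_one]))
  have : f (σ ^ 2) = f 1 := by rw [map_pow, map_one]; exact congrArg Subtype.val this
  exact absurd (Equiv.Perm.extendDomainHom_injective _ this) (by decide)

end Cfsg.PU
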