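import Cfsg.Agent.PU.C4
import Cfsg.Agent.PU.C5
import Cfsg.Agent.H7.QT1

/-! The block given by the local `C(G,T)`-theorem. -/

set_option autoImplicit false
set_option linter.unusedSectionVars false

namespace Cfsg.PU

open Subgroup Cfsg.L0 Cfsg.FT Cfsg.LT
open scoped MatrixGroups

variable {G : Type*} [Group G] [Finite G] {A T H K U Q B : Subgroup G} {g k s t u v x y : G}

theorem ex_block (T₀ : Sylow 2 H) (hT : T = (T₀ : Subgroup H).map H.subtype) (hK : K = pResidualOf 2 H)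
    (c : H ⊓ 𝒞 (pCoreOf 2 H) ≤ pCoreOf 2 H) (um : Um T K B)
    (n : ∀ C ≤ T, C ≠ ⊥ → 𝒩 T ≤ 𝒩 C → ¬ H ≤ 𝒩 C) : IsBaumannBlock 2 T K := by
  have hi := H.subtype_injective
  have s : H8.IsSyl 2 T H := hT ▸ H8.isSyl_map_subtype T₀
  have HK : H ≤ 𝒩 K := hK ▸ H7.le_normalizer_pResidualOf 2 H
  have Hle : H ≤ K ⊔ T := by
    rw [hK, hT, sup_comm, ← H7.pResidualOf_def, ← Subgroup.map_sup, H7.sylow_sup_pResidual, ← MonoidHom.range_eq_map,
      range_subtype]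
  have gen : ∀ X, T ≤ X → X ≤ H → K ≤ X ∨ X ≤ B := fun X h1 h2 =>
    (um.2.2 (X ⊓ K) (inf_le_inf_right _ h1) inf_le_right).imp (·.trans inf_le_left) fun h x hx => by
      obtain ⟨k, hk, t, ht, rfl⟩ := (mem_sup_l (s.le.trans HK)).1 (Hle (h2 hx))
      exact mul_mem (h ⟨(mul_mem_cancel_right (h1 ht)).1 hx, hk⟩) (um.1 ht)
  have h1 : charNormalizersJoin (T₀ : Subgroup H) ≤ B.subgroupOf H := iSup_le fun ⟨C, c1, c2, c3⟩ => by
    rw [← H7.map_le_iff_sub, H7.map_normalizer_subgroup]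
    have c4 : C.map H.subtype ≤ T := hT ▸ map_mono c1
    have c5 : 𝒩 T ≤ 𝒩 (C.map H.subtype) := H7.norm_le_of_char c4 (hT ▸ H7.char_map_inj hi c1 c3)
    have c6 := (le_norm T).trans c5
    exact (gen _ (le_inf s.le c6) inf_le_left).resolve_left fun k => n _ c4
      (mt (map_eq_bot_iff_of_injective _ hi).mp c2) c5 (Hle.trans (sup_le (k.trans inf_le_right) c6))
  have KH : K ≤ H := hK ▸ H7.pResidualOf_le 2 H
  have h2 : B.subgroupOf H ≠ ⊤ := fun e => um.2.1 (KH.trans (subgroupOf_eq_top.1 e))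
  have h := H7.hyp_CGT (H7.isSylowIn_top T₀) (H7.charP_iff.2 c) (ne_top_of_le_ne_top h2 h1)
  obtain ⟨b1, b2, b3, b4, -⟩ := h.cStar.blocks
  generalize H7.Blks 2 (T₀ : Subgroup H) _ = S at b1 b2 b3 b4
  obtain ⟨E, hE, e1⟩ : ∃ E ∈ S, ¬ E.map H.subtype ≤ B := by_contra fun k => h2 (top_le_iff.1 (b4.ge.trans
    (sup_le ((H7.cStar_le h).trans h1) (sSup_le fun E hE => H7.map_le_iff_sub.1
      (by_contra fun e => k ⟨E, hE, e⟩)))))
  have b := (H7.block_map_iff hi).2 (b1 E hE)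
  rw [← hT] at b
  have n1 : H ≤ 𝒩 ((sSup S).map H.subtype) := fun g hg => le_normalizer_map _ ⟨⟨g, hg⟩, mem_norm_of_cj_le (by
    rw [cj_sSup]; exact iSup₂_le fun X hX => le_sSup (b2 X hX _)), rfl⟩
  have n2 : (sSup S).map H.subtype ≤ 𝒩 (E.map H.subtype) := (map_mono (sSup_le fun X hX => by
    by_cases e : X = E
    exacts [e ▸ le_norm _, le_normalizer_of_commutator_eq_bot (b3 X hX E hE e)])).trans (le_normalizer_map _)
  have EN : E.map H.subtype ≤ (sSup S).map H.subtype := map_mono (le_sSup hE)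
  have NH := map_subtype_le (sSup S)
  have EK : E.map H.subtype ≤ K := hK ▸ b.1.ge.trans (H7.pResidualOf_mono (EN.trans NH))
  generalize (sSup S).map H.subtype = N at *
  generalize E.map H.subtype = E at *
  have k1 := (gen (T ⊔ N) le_sup_left (sup_le s.le NH)).resolve_right fun k =>
    e1 (EN.trans (le_sup_right.trans k))
  have k2 : K ≤ N := hK.le.trans ((H7.pResidualOf_mono (Hle.trans (sup_le k1 le_sup_left))).trans
    (H7.pResidualOf_sup_le s.isPGroup (s.le.trans n1)))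
  have k3 := (um.2.2 (T ⊓ K ⊔ E) le_sup_left (sup_le inf_le_right EK)).resolve_right fun k =>
    e1 (le_sup_right.trans k)
  have k4 : K ≤ E := (hK.trans (by rw [hK, H7.pResidualOf_pResidualOf])).le.trans
    ((H7.pResidualOf_mono k3).trans (H7.pResidualOf_sup_le (s.isPGroup.to_le inf_le_left)
      (inf_le_right.trans (k2.trans n2))))
  rwa [le_antisymm k4 EK]

theorem Mo.of_sec {F M : Type*} [Field F] [AddCommGroup M] (s : H7.Sec U (U ⊓ 𝒞 K) M)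
    (f : M → F × F) (ad : ∀ a b, f (a + b) = f a + f b) (sur : ∀ a, ∃ m, f m = a) (k : ∀ m, f m = 0 ↔ m = 0)
    (sq : ∀ u ∈ U, u * u = 1) : Mo U K fun g => f (s.ψ g) :=
  ⟨fun u hu v hv => by rw [s.add hu hv, ad], fun a => by
    obtain ⟨m, rfl⟩ := sur a
    exact (s.surj m).imp fun _ h => ⟨h.1, by rw [h.2]⟩, fun v hv => by
    rw [k, s.ker hv]; exact and_iff_right hv, sq⟩

theorem fin_block (b : IsBaumannBlock 2 T K) (hK : K = pResidualOf 2 H) (n4 : N4 (K ⧸ pCore 2 K))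
    (w : Tw T H K (H7.bV 2 K) Q (cj x H) (cj x K) (cj x (H7.bV 2 K)) (cj x Q)) (hx : x ∈ 𝒩 T)
    (ch : Ch G) : SectionalPRankLE 2 4 G := by
  have r := w.l
  have two : ∀ p : G → ZMod 2 × ZMod 2, Mo (H7.bV 2 K) K p → SectionalPRankLE 2 4 G := fun p m => by
    obtain ⟨k, hk, k1, k2⟩ : ∃ k ∈ K, (orderOf k).Coprime 2 ∧ k ≠ 1 := by_contra fun h => r.ne
      (eq_bot_of_le (eq_bot_iff.2 (b.1.ge.trans (H7.pResidualOf_le_iff.2 fun x hx e =>
        mem_bot.2 (by_contra fun e' => h ⟨x, hx, e, e'⟩)))) r.UK)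
    obtain ⟨p, c⟩ := r.ex_two m (fun x h o => hK ▸ H7.mem_pResidualOf h o.coprime_two_right) hk k2
      (Nat.coprime_two_right.1 k1) fun h => w.nle (w.r.UT.trans h)
    exact w.lin c hx ch
  have nz := H7.N_le_nz 2 K
  obtain ⟨F, _, _, _, s, hs, -⟩ | ⟨-, m, s, m0, hs, ⟨e⟩, -⟩ := H7.block_cases b
  · have := Fintype.ofFinite F
    by_cases sm : H7.L2.Sm F
    · let e := (RingEquiv.ofBijective (ZMod.castHom dvd_rfl F) ⟨RingHom.injective _, fun a => by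
        rcases sm a with rfl | rfl | rfl
        exacts [⟨0, map_zero _⟩, ⟨1, map_one _⟩, ⟨-1, by rw [map_neg, map_one]⟩]⟩).symm
      exact two _ (Mo.of_sec s (fun v => (e (v 0), e (v 1))) (by simp)
        (fun a => ⟨![e.symm a.1, e.symm a.2], by simp⟩) (by simp [funext_iff, Fin.forall_fin_two]) r.sq)
    have m := Mo.of_sec s (fun v => (v 0, v 1)) (by simp) (fun a => ⟨![a.1, a.2], by simp⟩)
      (by simp [funext_iff, Fin.forall_fin_two]) r.sq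
    have key : ∀ g ∈ K, ∀ M : SL(2, F), (∀ v, s.a g v = M.1.mulVec v) → Ac (H7.bV 2 K)
        (fun g => (s.ψ g 0, s.ψ g 1)) g (M.1 0 0) (M.1 0 1) (M.1 1 0) (M.1 1 1) := fun g hg M h =>
      ⟨(hs.nz hg).1, fun v hv => by
        dsimp only; rw [← s.act (hs.nz hg) hv, h, H7.L2.mulVec_eq]; simp⟩
    obtain ⟨p, c⟩ := r.ex_big m (fun g hg => by
      obtain ⟨M, -, h⟩ := hs.mem g hg
      exact ⟨_, _, _, _, det2 M, key g hg M h⟩) fun a b e d h => by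
      obtain ⟨g, hg, k⟩ := hs.surj ⟨!![a, b; e, d], by rw [Matrix.det_fin_two_of]; grind⟩
        (H7.L2.top_of_not_sm sm ▸ mem_top _)
      exact ⟨g, hg, key g hg _ k⟩
    exact w.lin c hx ch
  have := n4_alt (n4.map e.symm)
  obtain rfl | rfl : m = 1 ∨ m = 2 := by omega
  · refine two _ (Mo.of_sec s (fun v => (v.1 0, v.1 1)) (by simp)
      (fun a => ⟨⟨![a.1, a.2, a.1 + a.2], ?_⟩, rfl⟩) (fun ⟨v, hv⟩ => ?_) r.sq)
    · change ∑ i : Fin 3, _ = 0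
      revert a; decide
    · rw [Subtype.ext_iff]
      change ∑ i : Fin 3, v i = 0 at hv
      revert v; decide
  have o : Odd (Fintype.card (Fin (2 * 2 + 1))) := by decide
  have key : ∀ g ∈ 𝒩 K, ∀ π, H7.Ev.IsP (s.a g) π → Pm (H7.bV 2 K) (fun g => (s.ψ g).1) g π :=
    fun g hg π h => ⟨(nz hg).1, fun u hu i => by dsimp only; rw [← s.act (nz hg) hu]; exact h _ i⟩
  refine (w.alt (ψ := fun g => (s.ψ g).1) ⟨fun u hu v hv => by rw [s.add hu hv]; rfl,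
    fun u _ => (s.ψ u).2, fun a h => (s.surj ⟨a, h⟩).imp fun u k => ⟨k.1, by rw [k.2]⟩, fun u hu => ?_,
    fun x hx => ?_, fun σ h => (hs.surj σ h).imp fun g k => ⟨k.1, key g (le_norm _ k.1) σ k.2⟩⟩ ch).elim
  · exact (ZeroMemClass.coe_eq_zero.trans (s.ker hu)).trans (and_iff_right hu)
  have n := nz hx
  refine (H7.Ev.exists_isP o (s.a_inj n) fun i => H7.Ev.exists_fv_of_norm o (by simp) (s.a_inj n)
    (fun π hπ => ?_) (fun τ hτ => ?_) i).imp (key x hx)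
  · obtain ⟨e, he, k⟩ := hs.surj π hπ
    obtain ⟨τ, -, k'⟩ := hs.mem _ (H7.conj_mem' hx he)
    exact ⟨τ, _, _, k, k', by rw [s.a_conj n (hs.nz he), mul_assoc, s.a_inv_mul n, mul_one]⟩
  · obtain ⟨e, he, k⟩ := hs.surj τ hτ
    obtain ⟨π, -, k'⟩ := hs.mem _ (H7.conj_mem' (inv_mem hx) he)
    exact ⟨π, _, _, k', k, by rw [s.a_conj (inv_mem n) (hs.nz he), inv_inv, ← mul_assoc,
      ← mul_assoc, s.a_mul_inv n, one_mul]⟩

theorem main (hG : IsCharacteristicTwoType G) (T₀ : Sylow 2 H) (hT : T = (T₀ : Subgroup H).map H.subtype)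
    (hK : K = pResidualOf 2 H) (hstar : Nonempty (K ⧸ pCore 2 K ≃* Multiplicative (ZMod 3)) ∨
      ∃ n : ℕ, 1 ≤ n ∧ Nonempty (K ⧸ pCore 2 K ≃* SL(2, GaloisField 2 n)))
    (hsyl : ∀ S : Subgroup G, IsPGroup 2 S → pCoreOf 2 H ≤ S → S ≤ 𝒩 K →
      (∀ s ∈ S, ∀ k ∈ K, s * k * s⁻¹ * k⁻¹ ∈ pCoreOf 2 K) → S = pCoreOf 2 H)
    (huniq : maxTwoLocalsContaining H = {𝒩 K}) : 𝒩 T ≤ 𝒩 K ∨ SectionalPRankLE 2 4 G := by
  refine or_iff_not_imp_left.2 fun hn => ?_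
  obtain ⟨x, hx, x1⟩ := SetLike.not_le_iff_exists.1 hn
  have ch : Ch G := fun T h h' => H7.charP_iff.1 (hG.2 T h h')
  obtain ⟨⟨⟨R₀, p0, n0, e0⟩, -⟩, HK⟩ : 𝒩 K ∈ maxTwoLocalsContaining H := huniq ▸ rfl
  have un : ∀ C : Subgroup G, IsPGroup 2 C → C ≠ ⊥ → H ≤ 𝒩 C → 𝒩 C ≤ 𝒩 K := fun C h1 h2 h3 => by
    obtain ⟨L, h4, h5⟩ := Finite.exists_le_maximal (p := IsTwoLocal) ⟨C, h1, h2, rfl⟩
    have : L ∈ maxTwoLocalsContaining H := ⟨⟨h5.prop, fun N a b => h5.eq_of_ge a b⟩, h3.trans h4⟩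
    rw [huniq] at this
    exact this ▸ h4
  have s : H8.IsSyl 2 T H := hT ▸ H8.isSyl_map_subtype T₀
  have KH : K ≤ H := hK ▸ H7.pResidualOf_le 2 H
  have pQ := H7.isPGroup_pCoreOf 2 H
  have QH := H7.pCoreOf_le 2 H
  have HQ := H7.le_normalizer_pCoreOf 2 H
  have NU := H7.normalizer_le_normalizer_pCoreOf 2 K
  have cm : ∀ P : Subgroup G, IsPGroup 2 P → P ≤ 𝒩 K → K ≤ 𝒩 P → ⁅K, P⁆ ≤ pCoreOf 2 K := fun P h1 h2 h3 =>
    (le_inf (comm_le_left h2) (comm_le_right h3)).trans (H7.le_pCoreOf (h1.to_le inf_le_right) inf_le_left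
      (le_norm_inf (le_norm _) h3))
  have QK := cm _ pQ (QH.trans HK) (KH.trans HQ)
  have hs : ∀ P : Subgroup G, IsPGroup 2 ↥(P ⊔ pCoreOf 2 H) → P ≤ 𝒩 K → P ≤ H7.stab K (pCoreOf 2 K) →
      P ≤ pCoreOf 2 H := fun P h1 h2 h3 => le_sup_left.trans (hsyl _ h1 le_sup_right
    (sup_le h2 (QH.trans HK)) fun t ht k hk => by
      simpa [commutatorElement_def, mul_assoc] using inv_mem ((sup_le h3 (H7.le_stab_iff.2
        ⟨QH.trans (HK.trans NU), QK⟩) ht).2 k hk)).le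
  have r1 := ch R₀ p0 n0
  have r0 : pCoreOf 2 (𝒩 R₀) ≠ ⊥ := fun e => n0 (eq_bot_of_le e (H7.le_pCoreOf p0 (le_norm _) le_rfl))
  rw [← e0] at r1 r0
  have pR := H7.isPGroup_pCoreOf 2 (𝒩 K)
  have r2 := H7.le_normalizer_pCoreOf 2 (𝒩 K)
  have r3 := H7.pCoreOf_le 2 (𝒩 K)
  have r4 := H7.normalizer_le_normalizer_pCoreOf 2 (𝒩 K)
  generalize pCoreOf 2 (𝒩 K) = R at *
  have r5 := un R pR r0 (HK.trans r2)
  have r6 : 𝒞 R ≤ R := (le_inf ((cent_le_norm _).trans r5) le_rfl).trans r1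
  have r7 := hs R (pgroup_sup (QH.trans (HK.trans r2)) pR pQ) r3
    (H7.le_stab_iff.2 ⟨r3.trans NU, cm R pR r3 ((le_norm K).trans r2)⟩)
  have QT := s.le_of_normalizes pQ QH (s.le.trans HQ)
  have n : ∀ C ≤ T, C ≠ ⊥ → 𝒩 T ≤ 𝒩 C → ¬ H ≤ 𝒩 C := fun C h1 h2 h3 h4 =>
    hn (h3.trans (un C (s.isPGroup.to_le h1) h2 h4))
  have Hle : H ≤ K ⊔ T := by
    rw [hK, hT, sup_comm, ← H7.pResidualOf_def, ← Subgroup.map_sup, H7.sylow_sup_pResidual,
      ← MonoidHom.range_eq_map, range_subtype]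
  have UQ := H7.pCoreOf_le_of_normal (p := 2) KH HK
  obtain ⟨⟨B, um⟩, n4⟩ : (∃ B, Um T K B) ∧ N4 (K ⧸ pCore 2 K) := by
    obtain ⟨⟨e⟩⟩ | ⟨m, -, ⟨e⟩⟩ := hstar
    · exact ⟨⟨_, um_three (fun k => n T le_rfl (fun e => r0 (eq_bot_of_le e (r7.trans QT))) le_rfl
        (Hle.trans (sup_le (k.trans (le_norm _)) (le_norm _)))) (le_inf (UQ.trans QT) (H7.pCoreOf_le 2 K)) e⟩,
        N4.map (by unfold N4; decide) e⟩
    · have := Fintype.ofFinite (GaloisField 2 m)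
      exact ⟨⟨_, um_sl (s.le.trans HK) (s.inf KH (s.le.trans HK)) e⟩, n4_sl.map e⟩
  have b := ex_block T₀ hT hK (inf_le_right.trans ((cent_anti r7).trans (r6.trans r7))) um n
  have eU := H7.Blk.Q_eq_two b rfl
  have r : Rw T H K (pCoreOf 2 K) (pCoreOf 2 H) := by
    refine ⟨s, KH, HK, Hle, NU, fun u hu => ?_, H7.pCoreOf_le 2 K, UQ, QT, HQ, QK, fun g hg => ?_,
      fun g hg h => H7.Blk.faith b hg ⟨H7.N_le_Z 2 K (le_norm _ hg), fun u hu => ⟨?_, ?_⟩⟩,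
      fun t h1 h2 h3 h4 => hs _ (sup_comm (pCoreOf 2 H) _ ▸ pgroup_sup (zpowers_le.2 h2) pQ h3.pg)
        (zpowers_le.2 h1) (zpowers_le.2 ⟨NU h1, fun k hk => ?_⟩) (mem_zpowers t), un, ⟨R, r7, r2, r6⟩,
      fun e => H7.Blk.W_not_le b (by rw [← H7.Blk.W_eq_two b rfl, e]; exact bot_le)⟩
    · rw [eU] at hu; exact pow_two u ▸ (H7.mem_omegaOneCenter_iff.1 hu).2.2
    · obtain ⟨k, e⟩ := te_of pQ hg
      rw [H7.Blk.W_eq_two b rfl]
      exact H7.Blk.cent_elem b (HK (QH hg)) (H7.Blk.pel b (H7.N_le_nz 2 K (HK (QH hg))) (e ▸ one_mem _)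
        fun e he => H7.Q_le_stab 2 K (commutator_comm K _ ▸ QK <| commutator_mem_commutator hg he))
    · exact H7.Sec.comm_mem' (H7.N_le_V 2 K (le_norm _ hg)) hu
    · simpa [commutatorElement_def, mul_assoc] using inv_mem (h u (eU ▸ hu))
    · simpa [commutatorElement_def, mul_assoc] using inv_mem (h4 k hk)
  rw [eU] at r
  refine fin_block b hK n4 ⟨r, r.cj hx, fun A h1 h2 h3 => by_contra fun h4 => x1 (r5 (r4 ?_))⟩ hx ch
  have := h2.trans ((r.cj hx).un A (s.isPGroup.to_le h1) h4 h3)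
  rw [← cj_norm, le_antisymm r2 r5, cj_norm] at this
  refine mem_norm_of_cj_le ?_
  nth_rewrite 1 [le_antisymm r2 r5]
  rw [cj_norm]
  exact un _ (H8.isPGroup_cj pR x) (by rwa [Ne, cj_eq_bot_iff]) this

end Cfsg.PU
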